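import Mathlib

/-!
# Tools for finite presentations
-/

set_option autoImplicit false

namespace Cfsg.Agent.H81.SLnPres

universe w

/-- A group presented by `k`-indexed generators and few relations, possibly with padding generators. -/
theorem pres_pad {κ : Type*} [Fintype κ] {S : Type w} [Group S] (k N : ℕ)
    (hk : Fintype.card κ ≤ k) (R : Finset (FreeGroup κ))
    (hR : R.card + (k - Fintype.card κ) ≤ N)
    (e : PresentedGroup (↑R : Set (FreeGroup κ)) ≃* S) :
    ∃ rels : Finset (FreeGroup (Fin k)), rels.card ≤ N ∧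
      Nonempty (PresentedGroup (↑rels : Set (FreeGroup (Fin k))) ≃* S) := by
  classical
  obtain ⟨ι⟩ : Nonempty (κ ↪ Fin k) := Function.Embedding.nonempty_of_card_le (by simpa using hk)
  let Mset : Finset (Fin k) := Finset.univ \ Finset.univ.map ι
  let rels : Finset (FreeGroup (Fin k)) := R.image (FreeGroup.map ι) ∪ Mset.image FreeGroup.of
  have hcard : rels.card ≤ N := by
    refine (Finset.card_union_le _ _).trans ((Nat.add_le_add Finset.card_image_le Finset.card_image_le).trans ?_)
    have : Mset.card = k - Fintype.card κ := by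
      rw [Finset.card_sdiff_of_subset (Finset.subset_univ _), Finset.card_map, Finset.card_univ,
        Finset.card_univ, Fintype.card_fin]
    rwa [this]
  refine ⟨rels, hcard, ⟨MulEquiv.trans ?_ e⟩⟩
  let f : Fin k → PresentedGroup (↑R : Set (FreeGroup κ)) :=
    fun i => if h : ∃ x, ι x = i then PresentedGroup.of h.choose else 1
  have hf : ∀ x, f (ι x) = PresentedGroup.of x := fun x => by
    simp only [f]
    rw [dif_pos ⟨x, rfl⟩]
    exact congrArg _ (ι.injective (⟨x, rfl⟩ : ∃ y, ι y = ι x).choose_spec)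
  have hlift : ∀ r : FreeGroup κ, FreeGroup.lift f (FreeGroup.map ι r) = PresentedGroup.mk _ r := fun r =>
    DFunLike.congr_fun (FreeGroup.ext_hom ((FreeGroup.lift f).comp (FreeGroup.map ι)) (PresentedGroup.mk _)
      fun x => by simp [hf]; rfl) r
  have hA : ∀ r ∈ (↑rels : Set (FreeGroup (Fin k))), FreeGroup.lift f r = 1 := by
    intro r hr
    rcases Finset.mem_union.1 (Finset.mem_coe.1 hr) with h | h
    · obtain ⟨x, hx, rfl⟩ := Finset.mem_image.1 h
      rw [hlift]
      exact PresentedGroup.one_of_mem (Finset.mem_coe.2 hx)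
    · obtain ⟨i, hi, rfl⟩ := Finset.mem_image.1 h
      rw [FreeGroup.lift_apply_of]
      simp only [f]
      rw [dif_neg]
      rintro ⟨x, rfl⟩
      simp [Mset] at hi
  let g : κ → PresentedGroup (↑rels : Set (FreeGroup (Fin k))) := fun x => PresentedGroup.of (ι x)
  have hg : ∀ r : FreeGroup κ, FreeGroup.lift g r = PresentedGroup.mk _ (FreeGroup.map ι r) := fun r =>
    DFunLike.congr_fun (FreeGroup.ext_hom (FreeGroup.lift g) ((PresentedGroup.mk _).comp (FreeGroup.map ι))
      fun x => by simp [g]; rfl) r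
  have hB : ∀ r ∈ (↑R : Set (FreeGroup κ)), FreeGroup.lift g r = 1 := fun r hr => by
    rw [hg]
    exact PresentedGroup.one_of_mem (Finset.mem_coe.2 (Finset.mem_union_left _
      (Finset.mem_image_of_mem _ (Finset.mem_coe.1 hr))))
  refine MonoidHom.toMulEquiv (PresentedGroup.toGroup hA) (PresentedGroup.toGroup hB) ?_ ?_
  · refine PresentedGroup.ext fun i => ?_
    rw [MonoidHom.comp_apply, PresentedGroup.toGroup.of, MonoidHom.id_apply]
    by_cases h : ∃ x, ι x = i
    · obtain ⟨x, rfl⟩ := h
      rw [hf, PresentedGroup.toGroup.of]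
    · simp only [f]
      rw [dif_neg h, map_one]
      symm
      refine PresentedGroup.one_of_mem (x := FreeGroup.of i) (Finset.mem_coe.2 (Finset.mem_union_right _
        (Finset.mem_image_of_mem _ ?_)))
      simpa [Mset] using fun x hx => h ⟨x, hx⟩
  · refine PresentedGroup.ext fun x => ?_
    rw [MonoidHom.comp_apply, PresentedGroup.toGroup.of, MonoidHom.id_apply]
    simp only [g]
    rw [PresentedGroup.toGroup.of, hf]

/-- One more relation presents the quotient by a cyclic normal subgroup. -/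
theorem pres_quotient {κ : Type*} [DecidableEq (FreeGroup κ)] {S : Type w} [Group S]
    (R : Finset (FreeGroup κ)) (e : PresentedGroup (↑R : Set (FreeGroup κ)) ≃* S)
    (N : Subgroup S) [N.Normal] (hN : ∃ z, N = Subgroup.zpowers z) :
    ∃ R' : Finset (FreeGroup κ), R'.card ≤ R.card + 1 ∧
      Nonempty (PresentedGroup (↑R' : Set (FreeGroup κ)) ≃* S ⧸ N) := by
  obtain ⟨z, hz⟩ := hN
  obtain ⟨w, hw⟩ := PresentedGroup.mk_surjective _ (e.symm z)
  refine ⟨insert w R, Finset.card_insert_le _ _, ?_⟩
  let π : S →* S ⧸ N := QuotientGroup.mk' N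
  let f : κ → S ⧸ N := fun i => π (e (PresentedGroup.of i))
  have hlift : ∀ r, FreeGroup.lift f r = π (e (PresentedGroup.mk _ r)) := fun r =>
    DFunLike.congr_fun (FreeGroup.ext_hom (FreeGroup.lift f)
      ((π.comp e.toMonoidHom).comp (PresentedGroup.mk _)) fun x => by simp [f]; rfl) r
  have hA : ∀ r ∈ (↑(insert w R) : Set (FreeGroup κ)), FreeGroup.lift f r = 1 := by
    intro r hr
    rw [hlift]
    rcases Finset.mem_insert.1 (Finset.mem_coe.1 hr) with rfl | h
    · rw [hw, MulEquiv.apply_symm_apply]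
      exact (QuotientGroup.eq_one_iff z).2 (hz ▸ Subgroup.mem_zpowers z)
    · rw [PresentedGroup.one_of_mem (Finset.mem_coe.2 h), map_one, map_one]
  let Φ := PresentedGroup.toGroup hA
  have hΦ : ∀ r, Φ (PresentedGroup.mk _ r) = π (e (PresentedGroup.mk _ r)) := fun r => hlift r
  refine ⟨MulEquiv.ofBijective Φ ⟨(injective_iff_map_eq_one Φ).2 fun x hx => ?_, fun y => ?_⟩⟩
  · obtain ⟨r, rfl⟩ := PresentedGroup.mk_surjective _ x
    rw [hΦ] at hx
    have hx' : e (PresentedGroup.mk _ r) ∈ N := (QuotientGroup.eq_one_iff _).1 hx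
    rw [hz, Subgroup.mem_zpowers_iff] at hx'
    obtain ⟨k, hk⟩ := hx'
    have h1 : PresentedGroup.mk (↑R : Set (FreeGroup κ)) (r * (w ^ k)⁻¹) = 1 := by
      apply e.injective
      rw [map_mul, map_mul, map_inv, map_zpow, hw, map_inv, map_zpow, MulEquiv.apply_symm_apply, hk,
        mul_inv_cancel, map_one]
    have h2 : r * (w ^ k)⁻¹ ∈ Subgroup.normalClosure (↑(insert w R) : Set (FreeGroup κ)) :=
      Subgroup.normalClosure_mono (by simp) (PresentedGroup.mk_eq_one_iff.1 h1)
    have h3 : w ^ k ∈ Subgroup.normalClosure (↑(insert w R) : Set (FreeGroup κ)) :=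
      zpow_mem (Subgroup.subset_normalClosure (by simp)) k
    refine PresentedGroup.mk_eq_one_iff.2 ?_
    simpa using mul_mem h2 h3
  · obtain ⟨s, rfl⟩ := QuotientGroup.mk'_surjective N y
    obtain ⟨r, hr⟩ := PresentedGroup.mk_surjective _ (e.symm s)
    exact ⟨PresentedGroup.mk _ r, by rw [hΦ, hr, MulEquiv.apply_symm_apply]⟩

end Cfsg.Agent.H81.SLnPres
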