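import Cfsg.Agent.H81.SLnPres.Assemble
import Cfsg.Agent.H81.SLnPres.PresTools
import Cfsg.Agent.H62.SmallPresentations
import Cfsg.Agent.S3377

/-!
# The presentations of `SL_n(q)` for `n = 4`, `n = 5` and `n ≥ 5`
-/

set_option autoImplicit false

namespace Cfsg.Agent.H81.SLnPres

open Equiv

/-- `Alt(4)` on two generators with three relations. -/
theorem alt_four_pres : ∃ R : Finset (FreeGroup (Fin 2)), R.card ≤ 3 ∧
    Nonempty (PresentedGroup (↑R : Set (FreeGroup (Fin 2))) ≃* alternatingGroup (Fin 4)) := by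
  classical
  let R : Finset (FreeGroup (Fin 2)) :=
    {FreeGroup.of 0 ^ 3, FreeGroup.of 1 ^ 3, (FreeGroup.of 0 * FreeGroup.of 1) ^ 2}
  refine ⟨R, Finset.card_le_three, ?_⟩
  let g : Fin 2 → PresentedGroup (↑R : Set (FreeGroup (Fin 2))) := PresentedGroup.of
  have h3 : ∀ i, g i ^ 3 = 1 := fun i =>
    (map_pow (PresentedGroup.mk _) _ 3).symm.trans
      (PresentedGroup.one_of_mem (by fin_cases i <;> simp [R]))
  have h2 : (g 0 * g 1) ^ 2 = 1 := by
    have := PresentedGroup.one_of_mem (rels := (↑R : Set (FreeGroup (Fin 2))))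
      (x := (FreeGroup.of 0 * FreeGroup.of 1) ^ 2) (by simp [R])
    rwa [map_pow, map_mul] at this
  obtain ⟨hf, hc⟩ := Cfsg.Agent.H62.carmichael_bound 2 g h3 (fun i j h => by
    fin_cases i <;> fin_cases j
    · exact absurd rfl h
    · exact h2
    · show (g 1 * g 0) ^ 2 = 1
      rw [show g 1 * g 0 = (g 0)⁻¹ * (g 0 * g 1) * (g 0)⁻¹⁻¹ by group, conj_pow, h2]
      group
    · exact absurd rfl h)
  rw [show Subgroup.closure (Set.range g) = ⊤ from PresentedGroup.closure_range_of _] at hf hc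
  rw [Subgroup.card_top] at hc
  have hA := Cfsg.Agent.H62.two_card_alt 2
  obtain ⟨t3, t2⟩ := Cfsg.Agent.H62.tau_relations 2
  obtain ⟨e, -⟩ := Cfsg.Agent.H62.pres_of_bound (Cfsg.Agent.H62.tauA 2) (Cfsg.Agent.H62.closure_tau 2)
    (↑R : Set (FreeGroup (Fin 2)))
    (fun r hr => by
      simp only [R, Finset.coe_insert, Finset.coe_singleton] at hr
      rcases hr with rfl | rfl | rfl
      · simp [t3]
      · simp [t3]
      · simp [t2 0 1 (by decide)])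
    ⟨Finite.of_equiv _ Subgroup.topEquiv.toEquiv, by
      show Nat.card _ ≤ Nat.card (alternatingGroup (Fin (2 + 2)))
      omega⟩
  exact ⟨e⟩

/-- `Alt(5)` on two generators with three relations. -/
theorem alt_five_pres : ∃ R : Finset (FreeGroup (Fin 2)), R.card ≤ 3 ∧
    Nonempty (PresentedGroup (↑R : Set (FreeGroup (Fin 2))) ≃* alternatingGroup (Fin 5)) := by
  classical
  refine ⟨{FreeGroup.of (0 : Fin 2) ^ 3, FreeGroup.of (1 : Fin 2) ^ 5,
    (FreeGroup.of (0 : Fin 2) * FreeGroup.of 1) ^ 2}, Finset.card_le_three, ?_⟩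
  rw [Finset.coe_insert, Finset.coe_insert, Finset.coe_singleton]
  exact Cfsg.Agent.S3377.result

theorem stab_fix (m : ℕ) : (stabGen m : Perm (Fin (m + 4))) 0 = 0 ∧ (stabGen m : Perm (Fin (m + 4))) 1 = 1 :=
  tailHom_fix (evRot m)

theorem stab_fix' (m : ℕ) :
    ((s0 * stabGen m * s0⁻¹ : alternatingGroup (Fin (m + 4))) : Perm (Fin (m + 4))) 0 = 0 ∧
      ((s0 * stabGen m * s0⁻¹ : alternatingGroup (Fin (m + 4))) : Perm (Fin (m + 4))) 1 = 1 := by
  obtain ⟨e0, e1⟩ := s0_apply (m := m)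
  obtain ⟨f0, f1⟩ := stab_fix m
  simp only [Subgroup.coe_mul, InvMemClass.coe_inv, Perm.mul_apply]
  rw [show (s0 (m := m) : Perm (Fin (m + 4)))⁻¹ 0 = 1 by rw [Perm.inv_def, Equiv.symm_apply_eq, e1],
    show (s0 (m := m) : Perm (Fin (m + 4)))⁻¹ 1 = 0 by rw [Perm.inv_def, Equiv.symm_apply_eq, e0],
    f1, f0, e1, e0]
  exact ⟨rfl, rfl⟩

theorem cover_pos {m : ℕ} (hm : 1 ≤ m) : ∀ i j k : Fin (m + 4), i ≠ j → i ≠ k → j ≠ k →
    ∃ σ : alternatingGroup (Fin (m + 4)),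
      ∃ t ∈ [((0 : Fin (m + 4)), (1 : Fin (m + 4)), (2 : Fin (m + 4)))],
        (σ : Perm (Fin (m + 4))) t.1 = i ∧ (σ : Perm (Fin (m + 4))) t.2.1 = j ∧
        (σ : Perm (Fin (m + 4))) t.2.2 = k := by
  intro i j k hij hik hjk
  obtain ⟨l, hli, hlj, hlk⟩ := exists_other i j k
  let four : Fin (m + 4) := ⟨4, by omega⟩
  have n0 : (0 : Fin (m + 4)) ≠ four := by simp [four, Fin.ext_iff]
  have n1 : (1 : Fin (m + 4)) ≠ four := by
    simp [four, Fin.ext_iff, Nat.mod_eq_of_lt (show (1 : ℕ) < m + 4 by omega)]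
  have n2 : (2 : Fin (m + 4)) ≠ four := by
    simp [four, Fin.ext_iff, Nat.mod_eq_of_lt (show (2 : ℕ) < m + 4 by omega)]
  have n3 : (3 : Fin (m + 4)) ≠ four := by
    simp [four, Fin.ext_iff, Nat.mod_eq_of_lt (show (3 : ℕ) < m + 4 by omega)]
  obtain ⟨σ, ⟨h0, h1, h2, -⟩ | ⟨h0, h1, h2, -⟩⟩ :=
    exists_alt_quad hij hik hli.symm hjk hlj.symm hlk.symm n3
  · exact ⟨σ, _, List.mem_singleton_self _, h0, h1, h2⟩
  · rw [swap_apply_of_ne_of_ne ne03 n0] at h0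
    rw [swap_apply_of_ne_of_ne ne13 n1] at h1
    rw [swap_apply_of_ne_of_ne ne23 n2] at h2
    exact ⟨σ, _, List.mem_singleton_self _, h0, h1, h2⟩

theorem cover_zero : ∀ i j k : Fin (0 + 4), i ≠ j → i ≠ k → j ≠ k →
    ∃ σ : alternatingGroup (Fin (0 + 4)),
      ∃ t ∈ [((0 : Fin (0 + 4)), (1 : Fin (0 + 4)), (2 : Fin (0 + 4))), (0, 2, 1)],
        (σ : Perm (Fin (0 + 4))) t.1 = i ∧ (σ : Perm (Fin (0 + 4))) t.2.1 = j ∧
        (σ : Perm (Fin (0 + 4))) t.2.2 = k := by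
  intro i j k hij hik hjk
  obtain ⟨l, hli, hlj, hlk⟩ := exists_other i j k
  obtain ⟨σ, ⟨h0, h1, h2, -⟩ | ⟨h0, h1, h2, -⟩⟩ :=
    exists_alt_quad hij hik hli.symm hjk hlj.symm hlk.symm (ne12 (m := 0))
  · exact ⟨σ, _, List.mem_cons_self, h0, h1, h2⟩
  · obtain ⟨a0, a1, a2, -⟩ := swap12 (m := 0)
    rw [a0] at h0; rw [a1] at h1; rw [a2] at h2
    exact ⟨σ, _, List.mem_cons_of_mem _ (List.mem_singleton_self _), h0, h1, h2⟩

variable {F : Type*} [Field F] [Fintype F]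

theorem case_zero : ∃ R : Finset (FreeGroup (Fin 2 ⊕ Fin 2)), R.card ≤ 19 ∧
    Nonempty (PresentedGroup (↑R : Set (FreeGroup (Fin 2 ⊕ Fin 2))) ≃*
      Matrix.SpecialLinearGroup (Fin 4) F) := by
  obtain ⟨rA, hA, ⟨eA⟩⟩ := alt_four_pres
  obtain ⟨R, hR, e⟩ := sln_pres (F := F) 0 rA eA [] []
    [((0 : Fin (0 + 4)), (1 : Fin (0 + 4)), (2 : Fin (0 + 4))), (0, 2, 1)] (by simp) (by simp)
    (fun σ h0 h1 => by rw [stab_zero σ h0 h1]; exact one_mem _)
    (fun σ h0 h1 => by rw [stab_zero σ h0 h1]; exact one_mem _)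
    (by decide) cover_zero
  exact ⟨R, hR.trans (by simp; omega), e⟩

theorem case_one : ∃ R : Finset (FreeGroup (Fin 2 ⊕ Fin 2)), R.card ≤ 18 ∧
    Nonempty (PresentedGroup (↑R : Set (FreeGroup (Fin 2 ⊕ Fin 2))) ≃*
      Matrix.SpecialLinearGroup (Fin 5) F) := by
  obtain ⟨rA, hA, ⟨eA⟩⟩ := alt_five_pres
  obtain ⟨R, hR, e⟩ := sln_pres (F := F) 1 rA eA [stabGen 1] [stabGen 1]
    [((0 : Fin (1 + 4)), (1 : Fin (1 + 4)), (2 : Fin (1 + 4)))]
    (by simpa using stab_fix 1) (by simpa using stab_fix 1)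
    (fun σ h0 h1 => Subgroup.closure_mono (by rintro x rfl; exact List.mem_singleton_self _) (stab_one σ h0 h1))
    (fun σ h0 h1 => Subgroup.closure_mono (by rintro x rfl; exact Or.inl (List.mem_singleton_self _))
      (stab_one σ h0 h1))
    (by simp only [List.mem_singleton, forall_eq]; exact ⟨ne01 (m := 1), ne02 (m := 1), ne12 (m := 1)⟩)
    (cover_pos le_rfl)
  exact ⟨R, hR.trans (by simp; omega), e⟩

theorem case_pos (m : ℕ) (hm : 1 ≤ m) : ∃ R : Finset (FreeGroup (Fin 3 ⊕ Fin 2)), R.card ≤ 23 ∧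
    Nonempty (PresentedGroup (↑R : Set (FreeGroup (Fin 3 ⊕ Fin 2))) ≃*
      Matrix.SpecialLinearGroup (Fin (m + 4)) F) := by
  obtain ⟨V⟩ := Cfsg.Agent.H62.alt_window_model (n := m + 4) (by omega)
  obtain ⟨rA, hA, ⟨eA⟩⟩ := V.three_gen
  obtain ⟨R, hR, e⟩ := sln_pres (F := F) m rA eA [stabGen m, s0 * stabGen m * s0⁻¹] [stabGen m]
    [((0 : Fin (m + 4)), (1 : Fin (m + 4)), (2 : Fin (m + 4)))]
    (by simpa using ⟨stab_fix m, stab_fix' m⟩) (by simpa using stab_fix m)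
    (fun σ h0 h1 => Subgroup.closure_mono (by rintro x (rfl | rfl) <;> simp) (stab_closure σ h0 h1))
    (fun σ h0 h1 => Subgroup.closure_mono (by rintro x (rfl | rfl) <;> simp) (stab_closure σ h0 h1))
    (by simp only [List.mem_singleton, forall_eq]; exact ⟨ne01, ne02, ne12⟩) (cover_pos hm)
  exact ⟨R, hR.trans (by simp; omega), e⟩

theorem center_zpowers (n : ℕ) :
    ∃ z, Subgroup.center (Matrix.SpecialLinearGroup (Fin n) F) = Subgroup.zpowers z := by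
  haveI : IsCyclic (Subgroup.center (Matrix.SpecialLinearGroup (Fin n) F)) :=
    isCyclic_of_surjective
      Matrix.SpecialLinearGroup.center_equiv_rootsOfUnity.symm.toMonoidHom
      Matrix.SpecialLinearGroup.center_equiv_rootsOfUnity.symm.surjective
  obtain ⟨z, hz⟩ := IsCyclic.exists_generator (α := Subgroup.center (Matrix.SpecialLinearGroup (Fin n) F))
  refine ⟨z, le_antisymm (fun x hx => ?_) ((Subgroup.zpowers_le).2 z.2)⟩
  obtain ⟨k, hk⟩ := Subgroup.mem_zpowers_iff.1 (hz ⟨x, hx⟩)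
  exact Subgroup.mem_zpowers_iff.2 ⟨k, by rw [← SubgroupClass.coe_zpow, hk]⟩

theorem psl_of_sl {κ : Type*} (n N : ℕ) (R : Finset (FreeGroup κ)) (hR : R.card ≤ N)
    (e : PresentedGroup (↑R : Set (FreeGroup κ)) ≃* Matrix.SpecialLinearGroup (Fin n) F) :
    ∃ R' : Finset (FreeGroup κ), R'.card ≤ N + 1 ∧
      Nonempty (PresentedGroup (↑R' : Set (FreeGroup κ)) ≃*
        Matrix.ProjectiveSpecialLinearGroup (Fin n) F) := by
  classical
  obtain ⟨R', h, e'⟩ := pres_quotient R e _ (center_zpowers (F := F) n)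
  exact ⟨R', h.trans (by omega), e'⟩

end Cfsg.Agent.H81.SLnPres
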