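import Cfsg.Agent.H81.SLnPres.Perm
import Cfsg.Agent.H64.SLCover.Root

/-!
# Permutation and torus elements of `SL_n`
-/

set_option autoImplicit false

namespace Cfsg.Agent.H81.SLnPres

open Equiv Cfsg.Agent.H64.SLCover

variable {n : ℕ} {F : Type*} [Field F]

local notation "SLn" => Matrix.SpecialLinearGroup (Fin n) F

/-- Monomial elements are determined by their action on the basis. -/
theorem eq_of_monoAt' {g g' : SLn} (π : Fin n → Fin n) (c : Fin n → F)
    (h : ∀ a, MonoAt g a (π a) (c a)) (h' : ∀ a, MonoAt g' a (π a) (c a)) : g = g' :=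
  Cfsg.Agent.H1.SL_ext_single fun a => (h a).trans (h' a).symm

/-- The permutation matrix of an even permutation. -/
def pmat (σ : alternatingGroup (Fin n)) : SLn :=
  ⟨(σ : Perm (Fin n))⁻¹.permMatrix F, by
    rw [Matrix.det_permutation, map_inv, Perm.mem_alternatingGroup.1 σ.2]; simp⟩

theorem pmat_monoAt (σ : alternatingGroup (Fin n)) (a : Fin n) :
    MonoAt (pmat σ : SLn) a ((σ : Perm (Fin n)) a) 1 := by
  rw [MonoAt, one_smul]
  show Matrix.mulVec ((σ : Perm (Fin n))⁻¹.permMatrix F) (Pi.single a (1 : F)) = _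
  rw [Matrix.permMatrix_mulVec]
  funext x
  simp only [Function.comp_apply, Pi.single_apply, Perm.inv_def, Equiv.symm_apply_eq]

/-- The permutation matrices form a homomorphism. -/
def pHom : alternatingGroup (Fin n) →* SLn where
  toFun := pmat
  map_one' := eq_of_monoAt' (F := F) id (fun _ => (1 : F)) (fun a => pmat_monoAt (F := F) 1 a) (fun a => by
    show (1 : SLn) • (Pi.single a (1 : F) : Fin n → F) = _
    rw [one_smul, one_smul]; rfl)
  map_mul' σ τ := eq_of_monoAt' (F := F) (fun a => (σ : Perm (Fin n)) ((τ : Perm (Fin n)) a))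
    (fun _ => (1 : F)) (fun a => pmat_monoAt (F := F) (σ * τ) a)
    (fun a => by simpa using (pmat_monoAt (F := F) τ a).mul (pmat_monoAt (F := F) σ _))

theorem pHom_rx (σ : alternatingGroup (Fin n)) (i j : Fin n) (t : F) :
    (pHom σ : SLn) * rx i j t * (pHom σ : SLn)⁻¹ =
      rx ((σ : Perm (Fin n)) i) ((σ : Perm (Fin n)) j) t := by
  show pmat σ * rx i j t * (pmat σ)⁻¹ = _
  rw [rx_conj (π := (σ : Perm (Fin n))) (c := fun _ => 1) (fun a => pmat_monoAt σ a), div_one, one_mul]

/-- The diagonal entries of a torus element. -/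
def dd (i j : Fin n) (g : Fˣ) (a : Fin n) : F :=
  (if a = i then (g : F) else 1) * (if a = j then ((g⁻¹ : Fˣ) : F) else 1)

theorem prod_dd (i j : Fin n) (g : Fˣ) : ∏ a, dd i j g a = 1 := by
  simp only [dd]
  rw [Finset.prod_mul_distrib, Finset.prod_ite_eq' Finset.univ i, Finset.prod_ite_eq' Finset.univ j]
  simp

/-- The torus element `diag(g, g⁻¹)` at `i`, `j`. -/
def tor (i j : Fin n) (g : Fˣ) : SLn := diagSL (dd i j g) (prod_dd i j g)

theorem tor_monoAt (i j : Fin n) (g : Fˣ) (a : Fin n) :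
    MonoAt (tor i j g : SLn) a a (dd i j g a) := diagSL_monoAt _ _ a

theorem tor_rx (i j : Fin n) (g : Fˣ) (k l : Fin n) (t : F) :
    (tor i j g : SLn) * rx k l t * (tor i j g : SLn)⁻¹ = rx k l (dd i j g k / dd i j g l * t) :=
  diagSL_conj _ _ k l t

theorem pHom_tor (σ : alternatingGroup (Fin n)) (i j : Fin n) (g : Fˣ) :
    (pHom σ : SLn) * tor i j g * (pHom σ : SLn)⁻¹ =
      tor ((σ : Perm (Fin n)) i) ((σ : Perm (Fin n)) j) g := by
  show pmat σ * tor i j g * (pmat σ)⁻¹ = _
  rw [mul_inv_eq_iff_eq_mul]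
  refine eq_of_monoAt' (σ : Perm (Fin n)) (fun a => dd i j g a) (fun a => ?_) fun a => ?_
  · simpa using (tor_monoAt i j g a).mul (pmat_monoAt σ a)
  · have h := (pmat_monoAt (F := F) σ a).mul (tor_monoAt ((σ : Perm (Fin n)) i) ((σ : Perm (Fin n)) j) g _)
    simpa [dd] using h

theorem tor_commute (i j k l : Fin n) (g g' : Fˣ) :
    Commute (tor i j g : SLn) (tor k l g') :=
  eq_of_monoAt' id (fun a => dd i j g a * dd k l g' a)
    (fun a => by simpa [mul_comm] using (tor_monoAt k l g' a).mul (tor_monoAt i j g a))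
    (fun a => (tor_monoAt i j g a).mul (tor_monoAt k l g' a))

theorem tor_swap (i j : Fin n) (g : Fˣ) : (tor j i g : SLn) = (tor i j g)⁻¹ := by
  refine eq_inv_of_mul_eq_one_left (eq_of_monoAt' id (fun _ => 1)
    (fun a => ?_) (fun a => by rw [MonoAt, one_smul, one_smul]; rfl))
  have h := (tor_monoAt i j g a).mul (tor_monoAt j i g a)
  have e : dd i j g a * dd j i g a = 1 := by
    simp only [dd]
    split_ifs <;> simp
  rwa [e] at h

theorem tor_pow_rx (i j : Fin n) (hij : i ≠ j) (g : Fˣ) (a : ℕ) (t : F) :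
    (tor i j g : SLn) ^ a * rx i j t * ((tor i j g : SLn) ^ a)⁻¹ = rx i j (((g : F) ^ 2) ^ a * t) := by
  induction a with
  | zero => simp
  | succ a ih =>
    have e : dd i j g i / dd i j g j = (g : F) ^ 2 := by
      simp [dd, hij, hij.symm, pow_two]
    calc (tor i j g : SLn) ^ (a + 1) * rx i j t * ((tor i j g : SLn) ^ (a + 1))⁻¹
        = tor i j g * ((tor i j g : SLn) ^ a * rx i j t * ((tor i j g : SLn) ^ a)⁻¹) * (tor i j g)⁻¹ := by
          rw [pow_succ']; group
      _ = _ := by rw [ih, tor_rx, e]; congr 1; ring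

end Cfsg.Agent.H81.SLnPres
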