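import Cfsg.Agent.H81.SLnPres.Perm

/-!
# Generators of the stabiliser of the first two points
-/

set_option autoImplicit false

namespace Cfsg.Agent.H81.SLnPres

open Equiv

variable {m : ℕ}

/-- The points other than the first two. -/
def tailEquiv (m : ℕ) : Fin (m + 2) ≃ {x : Fin (m + 4) // 2 ≤ x.val} where
  toFun i := ⟨⟨i.val + 2, by omega⟩, by simp⟩
  invFun x := ⟨x.1.val - 2, by have := x.1.isLt; omega⟩
  left_inv i := by ext; simp
  right_inv x := by
    have := x.2
    ext
    simp
    omega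

/-- Extension by fixing the first two points. -/
def tailHom (m : ℕ) : Perm (Fin (m + 2)) →* Perm (Fin (m + 4)) := Perm.extendDomainHom (tailEquiv m)

theorem two_le_iff (x : Fin (m + 4)) : 2 ≤ x.val ↔ x ≠ 0 ∧ x ≠ 1 := by
  simp only [ne_eq, Fin.ext_iff, Fin.val_zero, Fin.val_one]
  omega

theorem tailHom_fix (π : Perm (Fin (m + 2))) : tailHom m π 0 = 0 ∧ tailHom m π 1 = 1 :=
  ⟨Perm.extendDomain_apply_not_subtype _ _ (by simp [two_le_iff]),
    Perm.extendDomain_apply_not_subtype _ _ (by simp [two_le_iff])⟩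

theorem exists_tailHom {σ : Perm (Fin (m + 4))} (h0 : σ 0 = 0) (h1 : σ 1 = 1) :
    ∃ π, tailHom m π = σ := by
  have h : ∀ x, 2 ≤ (σ x).val ↔ 2 ≤ x.val := fun x => by
    rw [two_le_iff, two_le_iff]
    exact and_congr (not_congr ⟨fun e => σ.injective (e.trans h0.symm), fun e => e ▸ h0⟩)
      (not_congr ⟨fun e => σ.injective (e.trans h1.symm), fun e => e ▸ h1⟩)
  refine ⟨(tailEquiv m).symm.permCongr (σ.subtypePerm h), Equiv.ext fun x => ?_⟩
  show Perm.extendDomain _ (tailEquiv m) x = σ x
  by_cases hx : 2 ≤ x.val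
  · rw [Perm.extendDomain_apply_subtype _ (tailEquiv m) hx]
    simp [Equiv.permCongr_apply, Perm.subtypePerm_apply]
  · rw [Perm.extendDomain_apply_not_subtype _ (tailEquiv m) (b := x) hx]
    rw [two_le_iff, not_and_or, not_not, not_not] at hx
    rcases hx with rfl | rfl
    exacts [h0.symm, h1.symm]

theorem sign_tailHom (π : Perm (Fin (m + 2))) : Perm.sign (tailHom m π) = Perm.sign π :=
  Perm.sign_extendDomain π (tailEquiv m)

theorem tailHom_swap : tailHom m (swap 0 1) = swap (2 : Fin (m + 4)) 3 := by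
  have e0 : ((tailEquiv m 0 : _) : Fin (m + 4)) = 2 := by
    ext; simp [tailEquiv, Nat.mod_eq_of_lt (show (2 : ℕ) < m + 4 by omega)]
  have e1 : ((tailEquiv m 1 : _) : Fin (m + 4)) = 3 := by
    ext; simp [tailEquiv, Nat.mod_eq_of_lt (show (3 : ℕ) < m + 4 by omega),
      Nat.mod_eq_of_lt (show (1 : ℕ) < m + 2 by omega)]
  refine Equiv.ext fun x => ?_
  show Perm.extendDomain (swap 0 1) (tailEquiv m) x = _
  by_cases hx : 2 ≤ x.val
  · obtain ⟨i, rfl⟩ : ∃ i, ((tailEquiv m i : _) : Fin (m + 4)) = x :=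
      ⟨(tailEquiv m).symm ⟨x, hx⟩, by simp⟩
    rw [Perm.extendDomain_apply_image]
    by_cases hi0 : i = 0
    · subst hi0; rw [swap_apply_left, e0, e1, swap_apply_left]
    by_cases hi1 : i = 1
    · subst hi1; rw [swap_apply_right, e0, e1, swap_apply_right]
    rw [swap_apply_of_ne_of_ne hi0 hi1, swap_apply_of_ne_of_ne]
    · rw [← e0]; exact fun h => hi0 ((tailEquiv m).injective (Subtype.ext h))
    · rw [← e1]; exact fun h => hi1 ((tailEquiv m).injective (Subtype.ext h))
  · rw [Perm.extendDomain_apply_not_subtype _ (tailEquiv m) (b := x) hx]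
    rw [two_le_iff, not_and_or, not_not, not_not] at hx
    rcases hx with rfl | rfl
    exacts [swap23.1.symm, swap23.2.1.symm]

/-- An even permutation generating with a transposition. -/
def evRot (m : ℕ) : Perm (Fin (m + 2)) :=
  if Perm.sign (finRotate (m + 2)) = 1 then finRotate (m + 2) else swap 0 1 * finRotate (m + 2)

theorem sign_evRot : Perm.sign (evRot m) = 1 := by
  rw [evRot]
  split_ifs with h
  · exact h
  · rw [map_mul, (Int.units_eq_one_or _).resolve_left h, Perm.sign_swap (by simp)]; decide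

theorem closure_evRot : Subgroup.closure ({evRot m, swap 0 1} : Set (Perm (Fin (m + 2)))) = ⊤ := by
  rw [eq_top_iff, ← Perm.closure_cycle_adjacent_swap (σ := finRotate (m + 2)) isCycle_finRotate
    support_finRotate 0, Subgroup.closure_le]
  have hs : swap (0 : Fin (m + 2)) 1 ∈ Subgroup.closure ({evRot m, swap 0 1} : Set (Perm (Fin (m + 2)))) :=
    Subgroup.subset_closure (by simp)
  have he : evRot m ∈ Subgroup.closure ({evRot m, swap 0 1} : Set (Perm (Fin (m + 2)))) :=
    Subgroup.subset_closure (by simp)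
  rintro x (rfl | rfl)
  · by_cases h : Perm.sign (finRotate (m + 2)) = 1
    · have e : evRot m = finRotate (m + 2) := if_pos h
      exact e ▸ he
    · have e : swap 0 1 * evRot m = finRotate (m + 2) := by
        rw [evRot, if_neg h, ← mul_assoc, swap_mul_self, one_mul]
      exact e ▸ mul_mem hs he
  · rw [finRotate_apply, zero_add]; exact hs

/-- The even elements generated by `s` and a transposition-like involution. -/
theorem mem_closure_pair {P : Type*} [Group P] (χ : P →* ℤˣ) {s t : P} (hs : χ s = 1) (ht : χ t = -1)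
    (ht2 : t * t = 1) {x : P} (hx : x ∈ Subgroup.closure ({s, t} : Set P)) (hx1 : χ x = 1) :
    x ∈ Subgroup.closure ({s, t * s * t⁻¹} : Set P) := by
  set S := Subgroup.closure ({s, t * s * t⁻¹} : Set P) with hS
  have ti : t⁻¹ = t := inv_eq_of_mul_eq_one_left ht2
  have hconj : ∀ y ∈ S, t * y * t⁻¹ ∈ S := by
    intro y hy
    refine (Subgroup.closure_le (S.comap (MulAut.conj t).toMonoidHom)).2 ?_ hy
    rintro z (rfl | rfl)
    · exact Subgroup.subset_closure (Or.inr rfl)
    · show t * (t * s * t⁻¹) * t⁻¹ ∈ S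
      rw [ti, show t * (t * s * t) * t = (t * t) * s * (t * t) by group, ht2, one_mul, mul_one]
      exact Subgroup.subset_closure (Or.inl rfl)
  have hχS : ∀ y ∈ S, χ y = 1 := by
    intro y hy
    refine (Subgroup.closure_le χ.ker).2 ?_ hy
    rintro z (rfl | rfl)
    · exact hs
    · show χ (t * s * t⁻¹) = 1
      rw [map_mul, map_mul, hs, map_inv, mul_one, mul_inv_cancel]
  have key : x ∈ S ∨ t * x ∈ S := by
    clear hx1
    induction hx using Subgroup.closure_induction with
    | mem y hy =>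
      rcases hy with rfl | rfl
      · exact Or.inl (Subgroup.subset_closure (Or.inl rfl))
      · right; rw [ht2]; exact one_mem _
    | one => exact Or.inl (one_mem _)
    | mul y z _ _ hy hz =>
      rcases hy with hy | hy <;> rcases hz with hz | hz
      · exact Or.inl (mul_mem hy hz)
      · right
        have := mul_mem (hconj y hy) hz
        rwa [show t * y * t⁻¹ * (t * z) = t * (y * z) by group] at this
      · right; rw [← mul_assoc]; exact mul_mem hy hz
      · left
        have := mul_mem (hconj _ hy) hz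
        rwa [ti, show t * (t * y) * t * (t * z) = (t * t) * y * ((t * t) * z) by group, ht2, one_mul,
          one_mul] at this
    | inv y _ hy =>
      rcases hy with hy | hy
      · exact Or.inl (inv_mem hy)
      · right
        have := hconj _ (inv_mem hy)
        rwa [mul_inv_rev, show t * (y⁻¹ * t⁻¹) * t⁻¹ = t * y⁻¹ * (t * t)⁻¹ by group, ht2, inv_one,
          mul_one] at this
  refine key.resolve_right fun h => ?_
  have := hχS _ h
  rw [map_mul, ht, hx1] at this
  exact absurd this (by decide)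

/-- The two standard generators of the stabiliser. -/
def stabGen (m : ℕ) : alternatingGroup (Fin (m + 4)) :=
  ⟨tailHom m (evRot m), Perm.mem_alternatingGroup.2 (by rw [sign_tailHom, sign_evRot])⟩

theorem stab_closure : ∀ σ : alternatingGroup (Fin (m + 4)), (σ : Perm (Fin (m + 4))) 0 = 0 →
    (σ : Perm (Fin (m + 4))) 1 = 1 →
    σ ∈ Subgroup.closure ({stabGen m, s0 * stabGen m * s0⁻¹} : Set (alternatingGroup (Fin (m + 4)))) := by
  intro σ h0 h1
  obtain ⟨π, hπ⟩ := exists_tailHom h0 h1
  have hπs : Perm.sign π = 1 := by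
    rw [← sign_tailHom, hπ, Perm.mem_alternatingGroup.1 σ.2]
  have hmem := mem_closure_pair Perm.sign (s := evRot m) (t := swap 0 1) sign_evRot
    (Perm.sign_swap (by simp)) (swap_mul_self _ _)
    (show π ∈ Subgroup.closure ({evRot m, swap 0 1} : Set (Perm (Fin (m + 2)))) by
      rw [closure_evRot]; trivial) hπs
  have hc : ∀ y : Perm (Fin (m + 2)), swap (0 : Fin (m + 4)) 1 * tailHom m y * (swap 0 1)⁻¹ = tailHom m y := by
    intro y
    rw [mul_inv_eq_iff_eq_mul]
    refine ((?_ : Perm.Disjoint (swap (0 : Fin (m + 4)) 1) (tailHom m y)).commute).eq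
    intro x
    by_cases h0 : x = 0
    · subst h0; exact Or.inr (tailHom_fix y).1
    by_cases h1 : x = 1
    · subst h1; exact Or.inr (tailHom_fix y).2
    · exact Or.inl (swap_apply_of_ne_of_ne h0 h1)
  have hmap : (Subgroup.closure ({evRot m, swap 0 1 * evRot m * (swap 0 1)⁻¹} : Set (Perm (Fin (m + 2))))).map
      (tailHom m) ≤ (Subgroup.closure ({stabGen m, s0 * stabGen m * s0⁻¹} :
        Set (alternatingGroup (Fin (m + 4))))).map (alternatingGroup (Fin (m + 4))).subtype := by
    rw [MonoidHom.map_closure, MonoidHom.map_closure]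
    refine Subgroup.closure_mono ?_
    rintro _ ⟨z, (rfl | rfl), rfl⟩
    · exact ⟨stabGen m, Or.inl rfl, rfl⟩
    · refine ⟨s0 * stabGen m * s0⁻¹, Or.inr rfl, ?_⟩
      show (swap (0 : Fin (m + 4)) 1 * swap 2 3) * tailHom m (evRot m) * (swap 0 1 * swap 2 3)⁻¹ = _
      rw [← tailHom_swap, mul_inv_rev, ← map_inv]
      rw [show swap (0 : Fin (m + 4)) 1 * tailHom m (swap 0 1) * tailHom m (evRot m) *
          (tailHom m (swap 0 1)⁻¹ * (swap (0 : Fin (m + 4)) 1)⁻¹) =
          swap (0 : Fin (m + 4)) 1 * tailHom m (swap 0 1 * evRot m * (swap 0 1)⁻¹) * (swap 0 1)⁻¹ by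
        simp only [map_mul]; group, hc]
  obtain ⟨σ', hσ', e⟩ := hmap ⟨π, hmem, hπ⟩
  rwa [← Subtype.ext e]

theorem stab_one : ∀ σ : alternatingGroup (Fin (1 + 4)), (σ : Perm (Fin (1 + 4))) 0 = 0 →
    (σ : Perm (Fin (1 + 4))) 1 = 1 →
    σ ∈ Subgroup.closure ({stabGen 1} : Set (alternatingGroup (Fin (1 + 4)))) := by
  intro σ h0 h1
  refine (Subgroup.closure_le _).2 ?_ (stab_closure σ h0 h1)
  rintro x (rfl | rfl)
  · exact Subgroup.subset_closure rfl
  · have : (s0 * stabGen 1 * s0⁻¹ : alternatingGroup (Fin (1 + 4))) = (stabGen 1)⁻¹ := by decide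
    rw [this]
    exact inv_mem (Subgroup.subset_closure rfl)

theorem stab_zero : ∀ σ : alternatingGroup (Fin (0 + 4)), (σ : Perm (Fin (0 + 4))) 0 = 0 →
    (σ : Perm (Fin (0 + 4))) 1 = 1 → σ = 1 := by
  intro σ h0 h1
  obtain ⟨π, hπ⟩ := exists_tailHom h0 h1
  have hs : Perm.sign π = 1 := by rw [← sign_tailHom, hπ, Perm.mem_alternatingGroup.1 σ.2]
  have : π = 1 := (show ∀ ρ : Perm (Fin (0 + 2)), Perm.sign ρ = 1 → ρ = 1 by decide) π hs
  apply Subtype.ext
  rw [← hπ, this, map_one]; rfl

end Cfsg.Agent.H81.SLnPres
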