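import Cfsg.Agent.H81.SLnPres.Roots
import Cfsg.Agent.H81.SLnPres.Image
import Cfsg.Agent.H81.SLnPres.Stab
import Cfsg.Agent.H81.SLPresField

/-!
# A presentation of `SL_n(q)` for `n ≥ 4`
-/

set_option autoImplicit false
set_option maxHeartbeats 800000

namespace Cfsg.Agent.H81.SLnPres

open Equiv Cfsg.Agent.H81.SLPres Cfsg.Agent.H64.SLCover
open scoped commutatorElement

/-- `[x, y]` vanishes exactly for commuting elements. -/
theorem commute_of_bracket {G : Type*} [Group G] {x y : G} (h : ⁅x, y⁆ = 1) : Commute x y :=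
  commutatorElement_eq_one_iff_commute.1 h

theorem sln_pres {F : Type*} [Field F] [Fintype F] (m : ℕ) {ι : Type} [Fintype ι] [DecidableEq ι]
    (rA : Finset (FreeGroup ι))
    (eA : PresentedGroup (↑rA : Set (FreeGroup ι)) ≃* alternatingGroup (Fin (m + 4)))
    (SU SH : List (alternatingGroup (Fin (m + 4))))
    (T3 : List (Fin (m + 4) × Fin (m + 4) × Fin (m + 4)))
    (hSU : ∀ s ∈ SU, (s : Perm (Fin (m + 4))) 0 = 0 ∧ (s : Perm (Fin (m + 4))) 1 = 1)
    (hSH : ∀ s ∈ SH, (s : Perm (Fin (m + 4))) 0 = 0 ∧ (s : Perm (Fin (m + 4))) 1 = 1)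
    (gSU : ∀ σ : alternatingGroup (Fin (m + 4)), (σ : Perm (Fin (m + 4))) 0 = 0 →
      (σ : Perm (Fin (m + 4))) 1 = 1 → σ ∈ Subgroup.closure {s | s ∈ SU})
    (gSH : ∀ σ : alternatingGroup (Fin (m + 4)), (σ : Perm (Fin (m + 4))) 0 = 0 →
      (σ : Perm (Fin (m + 4))) 1 = 1 →
      σ ∈ Subgroup.closure ({s | s ∈ SH} ∪ {s | ∃ s' ∈ SH, s = s0 * s' * s0⁻¹}))
    (hT3 : ∀ t ∈ T3, t.1 ≠ t.2.1 ∧ t.1 ≠ t.2.2 ∧ t.2.1 ≠ t.2.2)
    (cT3 : ∀ i j k : Fin (m + 4), i ≠ j → i ≠ k → j ≠ k → ∃ σ : alternatingGroup (Fin (m + 4)),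
      ∃ t ∈ T3, (σ : Perm (Fin (m + 4))) t.1 = i ∧ (σ : Perm (Fin (m + 4))) t.2.1 = j ∧
        (σ : Perm (Fin (m + 4))) t.2.2 = k) :
    ∃ rels : Finset (FreeGroup (ι ⊕ Fin 2)),
      rels.card ≤ rA.card + SU.length + SH.length + 3 * T3.length + 10 ∧
      Nonempty (PresentedGroup (↑rels : Set (FreeGroup (ι ⊕ Fin 2))) ≃*
        Matrix.SpecialLinearGroup (Fin (m + 4)) F) := by
  classical
  obtain ⟨p, hpF⟩ := CharP.exists F
  haveI : Fact p.Prime := ⟨CharP.char_is_prime F p⟩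
  letI : Algebra (ZMod p) F := ZMod.algebra F p
  obtain ⟨a, ha0, hgen, hord⟩ := exists_gen (F := F)
  let g : Fˣ := Units.mk0 a ha0
  let b : F := (g : F) ^ 2
  have hb : Function.Surjective (Polynomial.aeval (R := ZMod p) b) := gen_sq (p := p) a hord
  -- words
  let mA := PresentedGroup.mk (↑rA : Set (FreeGroup ι))
  let L : alternatingGroup (Fin (m + 4)) → FreeGroup (ι ⊕ Fin 2) := fun σ =>
    FreeGroup.map Sum.inl (Function.surjInv (PresentedGroup.mk_surjective (↑rA : Set (FreeGroup ι)))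
      (eA.symm σ))
  let U : FreeGroup (ι ⊕ Fin 2) := FreeGroup.of (Sum.inr 0)
  let H : FreeGroup (ι ⊕ Fin 2) := FreeGroup.of (Sum.inr 1)
  let fu : Fin (m + 4) → Fin (m + 4) → FreeGroup (ι ⊕ Fin 2) :=
    fun i j => L (pick i j) * U * (L (pick i j))⁻¹
  let fh : Fin (m + 4) → Fin (m + 4) → FreeGroup (ι ⊕ Fin 2) :=
    fun i j => L (pick i j) * H * (L (pick i j))⁻¹
  let fv : Fin (m + 4) → Fin (m + 4) → ℕ → FreeGroup (ι ⊕ Fin 2) :=
    fun i j e => fh i j ^ e * fu i j * (fh i j ^ e)⁻¹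
  -- images in `SL_n`
  let f0 : ι ⊕ Fin 2 → Matrix.SpecialLinearGroup (Fin (m + 4)) F :=
    Sum.elim (fun x => pHom (eA (PresentedGroup.of x))) ![rx 0 1 1, tor 0 1 g]
  let ψ := FreeGroup.lift f0
  have hψL : ∀ σ, ψ (L σ) = pHom σ := by
    intro σ
    have e : ∀ r : FreeGroup ι, ψ (FreeGroup.map Sum.inl r) = pHom (eA (mA r)) := fun r =>
      DFunLike.congr_fun (FreeGroup.ext_hom (ψ.comp (FreeGroup.map Sum.inl))
        ((pHom.comp eA.toMonoidHom).comp mA) fun x => by simp [ψ, f0]; rfl) r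
    rw [e]
    exact congrArg pHom ((congrArg eA (Function.surjInv_eq _ _)).trans (eA.apply_symm_apply σ))
  have hψU : ψ U = rx 0 1 1 := by simp [ψ, U, f0]
  have hψH : ψ H = tor 0 1 g := by simp [ψ, H, f0]
  have hψu : ∀ i j, i ≠ j → ψ (fu i j) = rx i j 1 := fun i j hij => by
    simp only [fu, map_mul, map_inv, hψL, hψU, pHom_rx, (pick_spec hij).1, (pick_spec hij).2]
  have hψh : ∀ i j, i ≠ j → ψ (fh i j) = tor i j g := fun i j hij => by
    simp only [fh, map_mul, map_inv, hψL, hψH, pHom_tor, (pick_spec hij).1, (pick_spec hij).2]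
  have hψv : ∀ i j, i ≠ j → ∀ e : ℕ, ψ (fv i j e) = rx i j (b ^ e) := fun i j hij e => by
    simp only [fv, map_mul, map_inv, map_pow, hψh i j hij, hψu i j hij, tor_pow_rx i j hij, mul_one, b]
  -- a root word for the torus times a three-cycle
  let S0 := Subgroup.closure {x | ∃ (i j : Fin (m + 4)) (e : ℕ), i ≠ j ∧ x = fv i j e}
  have hS0 : S0.map ψ = ⊤ := by
    refine Cfsg.Agent.H1.SL_eq_top_of_transvection_mem _ fun i j hij c => ?_
    rw [← rx_of_ne hij]
    induction c using ind_b (p := p) hb with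
    | h0 => rw [rx_zero]; exact one_mem _
    | hadd s t hs ht => rw [rx_add]; exact mul_mem hs ht
    | hpow e => exact ⟨fv i j e, Subgroup.subset_closure ⟨i, j, e, hij, rfl⟩, hψv i j hij e⟩
  obtain ⟨w, hwS, hw⟩ : ∃ w ∈ S0, ψ w = tor 0 1 g * pHom tau := by
    have : tor 0 1 g * pHom tau ∈ S0.map ψ := by rw [hS0]; trivial
    exact this
  -- relations
  let row : Fin (m + 4) × Fin (m + 4) × Fin (m + 4) → FreeGroup (ι ⊕ Fin 2) := fun t =>
    fh t.1 t.2.1 ^ 2 * fu t.1 t.2.2 * (fh t.1 t.2.1 ^ 2)⁻¹ * (fv t.1 t.2.2 1)⁻¹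
  let col : Fin (m + 4) × Fin (m + 4) × Fin (m + 4) → FreeGroup (ι ⊕ Fin 2) := fun t =>
    fh t.1 t.2.1 ^ 2 * fu t.2.2 t.2.1 * (fh t.1 t.2.1 ^ 2)⁻¹ * (fv t.2.2 t.2.1 1)⁻¹
  let adj : Fin (m + 4) × Fin (m + 4) × Fin (m + 4) → FreeGroup (ι ⊕ Fin 2) := fun t =>
    ⁅fu t.1 t.2.1, fu t.2.1 t.2.2⁆ * (fu t.1 t.2.2)⁻¹
  let one10 : List (FreeGroup (ι ⊕ Fin 2)) :=
    [U ^ p, wd U H (minpoly (ZMod p) b), L s0 * H * (L s0)⁻¹ * H,
      ⁅fh 0 1, fh 0 2⁆, ⁅fh 0 1, fh 2 3⁆, ⁅fh 0 1, fu 2 3⁆,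
      ⁅fu 0 1, fu 0 2⁆, ⁅fu 0 1, fu 2 1⁆, ⁅fu 0 1, fu 2 3⁆, H * L tau * w⁻¹]
  let Ls : List (FreeGroup (ι ⊕ Fin 2)) :=
    rA.toList.map (FreeGroup.map Sum.inl) ++ (SU.map fun s => ⁅L s, U⁆) ++ (SH.map fun s => ⁅L s, H⁆) ++
      T3.map row ++ T3.map col ++ T3.map adj ++ one10
  refine ⟨Ls.toFinset, (List.toFinset_card_le _).trans ?_, ?_⟩
  · simp only [Ls, one10, List.length_append, List.length_map, Finset.length_toList, List.length_cons,
      List.length_nil]
    omega
  have memA : ∀ r ∈ rA, FreeGroup.map Sum.inl r ∈ (↑Ls.toFinset : Set (FreeGroup (ι ⊕ Fin 2))) :=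
    fun r hr => by
      simp only [Finset.mem_coe, List.mem_toFinset, Ls, List.mem_append, List.mem_map]
      exact Or.inl (Or.inl (Or.inl (Or.inl (Or.inl (Or.inl ⟨r, Finset.mem_toList.2 hr, rfl⟩)))))
  -- the relations hold in `SL_n`
  have hrel : ∀ r ∈ (↑Ls.toFinset : Set (FreeGroup (ι ⊕ Fin 2))), ψ r = 1 := by
    intro r hr
    simp only [Finset.mem_coe, List.mem_toFinset, Ls, List.mem_append, List.mem_map] at hr
    rcases hr with (((((⟨x, hx, rfl⟩ | ⟨s, hs, rfl⟩) | ⟨s, hs, rfl⟩) | ⟨t, ht, rfl⟩) | ⟨t, ht, rfl⟩) |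
      ⟨t, ht, rfl⟩) | hr
    · have e : ψ (FreeGroup.map Sum.inl x) = pHom (eA (mA x)) :=
        DFunLike.congr_fun (FreeGroup.ext_hom (ψ.comp (FreeGroup.map Sum.inl))
          ((pHom.comp eA.toMonoidHom).comp mA) fun y => by simp [ψ, f0]; rfl) x
      rw [e, show mA x = 1 from PresentedGroup.one_of_mem (Finset.mem_toList.1 hx), map_one, map_one]
    · rw [map_commutatorElement, hψL, hψU, commutatorElement_eq_one_iff_commute]
      have := pHom_rx (F := F) s 0 1 1
      rw [(hSU s hs).1, (hSU s hs).2] at this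
      exact mul_inv_eq_iff_eq_mul.1 this
    · rw [map_commutatorElement, hψL, hψH, commutatorElement_eq_one_iff_commute]
      have := pHom_tor (F := F) s 0 1 g
      rw [(hSH s hs).1, (hSH s hs).2] at this
      exact mul_inv_eq_iff_eq_mul.1 this
    · obtain ⟨h1, h2, h3⟩ := hT3 t ht
      simp only [row, map_mul, map_inv, map_pow, hψh _ _ h1, hψu _ _ h2, hψv _ _ h2]
      rw [mul_inv_eq_one, pow_two, show ∀ x y : Matrix.SpecialLinearGroup (Fin (m + 4)) F,
        x * x * y * (x * x)⁻¹ = x * (x * y * x⁻¹) * x⁻¹ from fun x y => by group, tor_rx, tor_rx]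
      congr 1
      simp [dd, b, h1, h2.symm, h3.symm, pow_two]
    · obtain ⟨h1, h2, h3⟩ := hT3 t ht
      simp only [col, map_mul, map_inv, map_pow, hψh _ _ h1, hψu _ _ h3.symm, hψv _ _ h3.symm]
      rw [mul_inv_eq_one, pow_two, show ∀ x y : Matrix.SpecialLinearGroup (Fin (m + 4)) F,
        x * x * y * (x * x)⁻¹ = x * (x * y * x⁻¹) * x⁻¹ from fun x y => by group, tor_rx, tor_rx]
      congr 1
      simp [dd, b, h1, h1.symm, h2.symm, h3.symm, pow_two]
    · obtain ⟨h1, h2, h3⟩ := hT3 t ht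
      simp only [adj, map_mul, map_inv, map_commutatorElement, hψu _ _ h1, hψu _ _ h3, hψu _ _ h2]
      rw [mul_inv_eq_one, rx_bracket h1 h3 h2, one_mul]
    · simp only [one10, List.mem_cons, List.not_mem_nil, or_false] at hr
      rcases hr with rfl | rfl | rfl | rfl | rfl | rfl | rfl | rfl | rfl | rfl
      · have : ∀ k : ℕ, rx (0 : Fin (m + 4)) 1 (1 : F) ^ k = rx 0 1 (k : F) := by
          intro k
          induction k with
          | zero => simp [rx_zero]
          | succ k ih => rw [pow_succ, ih, Nat.cast_succ, rx_add]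
        rw [map_pow, hψU, this, CharP.cast_eq_zero, rx_zero]
      · have hI : IsPhi b (ψ U) (ψ H) (rx (0 : Fin (m + 4)) 1) := by
          refine ⟨fun c d => rx_add _ _ c d, hψU.symm, fun c => ?_⟩
          have := tor_pow_rx (0 : Fin (m + 4)) 1 ne01 g 1 c
          rw [pow_one, pow_one] at this
          rw [hψH]; exact this
        rw [map_wd, hI.wd_eq, minpoly.aeval, rx_zero]
      · rw [map_mul, map_mul, map_mul, map_inv, hψL, hψH, pHom_tor, s0_apply.1, s0_apply.2, tor_swap,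
          inv_mul_cancel]
      · rw [map_commutatorElement, hψh _ _ ne01, hψh _ _ ne02]
        exact commutatorElement_eq_one_iff_commute.2 (tor_commute _ _ _ _ _ _)
      · rw [map_commutatorElement, hψh _ _ ne01, hψh _ _ ne23]
        exact commutatorElement_eq_one_iff_commute.2 (tor_commute _ _ _ _ _ _)
      · rw [map_commutatorElement, hψh _ _ ne01, hψu _ _ ne23, commutatorElement_eq_one_iff_commute]
        refine mul_inv_eq_iff_eq_mul.1 ?_
        rw [tor_rx]
        simp [dd, ne02.symm, ne12.symm, ne03.symm, ne13.symm]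
      · rw [map_commutatorElement, hψu _ _ ne01, hψu _ _ ne02]
        exact commutatorElement_eq_one_iff_commute.2 (rx_commute ne01.symm ne02 _ _)
      · rw [map_commutatorElement, hψu _ _ ne01, hψu _ _ ne12.symm]
        exact commutatorElement_eq_one_iff_commute.2 (rx_commute ne12 ne01 _ _)
      · rw [map_commutatorElement, hψu _ _ ne01, hψu _ _ ne23]
        exact commutatorElement_eq_one_iff_commute.2 (rx_commute ne12 ne03 _ _)
      · rw [map_mul, map_mul, map_inv, hψH, hψL, hw, mul_inv_cancel]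
  let f := PresentedGroup.toGroup hrel
  let q := PresentedGroup.mk (↑Ls.toFinset : Set (FreeGroup (ι ⊕ Fin 2)))
  have hfq : ∀ x, f (q x) = ψ x := fun x => rfl
  have hone : ∀ r ∈ Ls, q r = 1 := fun r hr =>
    PresentedGroup.one_of_mem (Finset.mem_coe.2 (List.mem_toFinset.2 hr))
  -- the monomial group inside the presented group
  let k0 : ι → PresentedGroup (↑Ls.toFinset : Set (FreeGroup (ι ⊕ Fin 2))) :=
    fun x => PresentedGroup.of (Sum.inl x)
  have hk0 : ∀ r : FreeGroup ι, FreeGroup.lift k0 r = q (FreeGroup.map Sum.inl r) := fun r =>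
    DFunLike.congr_fun (FreeGroup.ext_hom (FreeGroup.lift k0) (q.comp (FreeGroup.map Sum.inl))
      fun x => by simp [k0]; rfl) r
  let θ0 : PresentedGroup (↑rA : Set (FreeGroup ι)) →* PresentedGroup (↑Ls.toFinset : Set (FreeGroup (ι ⊕ Fin 2))) :=
    PresentedGroup.toGroup (f := k0) fun r hr => by
      rw [hk0]; exact PresentedGroup.one_of_mem (memA r (Finset.mem_coe.1 hr))
  let θ := θ0.comp eA.symm.toMonoidHom
  have hθ : ∀ σ, θ σ = q (L σ) := fun σ => by
    show θ0 (eA.symm σ) = _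
    conv_lhs => rw [← Function.surjInv_eq (PresentedGroup.mk_surjective (↑rA : Set (FreeGroup ι))) (eA.symm σ)]
    exact hk0 _
  have m1 : ∀ s ∈ SU, Commute (θ s) (q U) := fun s hs => by
    rw [hθ]; refine commute_of_bracket ?_
    rw [← map_commutatorElement]
    exact hone _ (by simp only [Ls, List.mem_append, List.mem_map]; exact Or.inl (Or.inl (Or.inl (Or.inl (Or.inl (Or.inr ⟨s, hs, rfl⟩))))))
  have m2 : ∀ s ∈ SH, Commute (θ s) (q H) := fun s hs => by
    rw [hθ]; refine commute_of_bracket ?_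
    rw [← map_commutatorElement]
    exact hone _ (by simp only [Ls, List.mem_append, List.mem_map]; exact Or.inl (Or.inl (Or.inl (Or.inl (Or.inr ⟨s, hs, rfl⟩)))))
  have m10 : ∀ r ∈ one10, q r = 1 := fun r hr =>
    hone r (by simp only [Ls, List.mem_append]; exact Or.inr hr)
  have hinv : θ s0 * q H * (θ s0)⁻¹ = (q H)⁻¹ := by
    refine eq_inv_of_mul_eq_one_left ?_
    rw [hθ, ← map_inv q, ← map_mul q, ← map_mul q, ← map_mul q]
    exact m10 _ (by simp [one10])
  let B : Base (PresentedGroup (↑Ls.toFinset : Set (FreeGroup (ι ⊕ Fin 2)))) m :=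
    { θ := θ
      u := q U
      h := q H
      stab_u := fun σ h0 h1 => by
        have hle : Subgroup.closure {s | s ∈ SU} ≤ (Subgroup.centralizer {q U}).comap θ := by
          rw [Subgroup.closure_le]
          intro s hs
          exact Subgroup.mem_centralizer_singleton_iff.2 (m1 s hs)
        exact Subgroup.mem_centralizer_singleton_iff.1 (hle (gSU σ h0 h1))
      stab_h := fun σ h0 h1 => by
        have hle : Subgroup.closure ({s | s ∈ SH} ∪ {s | ∃ s' ∈ SH, s = s0 * s' * s0⁻¹}) ≤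
            (Subgroup.centralizer {q H}).comap θ := by
          rw [Subgroup.closure_le]
          rintro s (hs | ⟨s', hs', rfl⟩)
          · exact Subgroup.mem_centralizer_singleton_iff.2 (m2 s hs)
          · refine Subgroup.mem_centralizer_singleton_iff.2 ?_
            show θ (s0 * s' * s0⁻¹) * q H = q H * θ (s0 * s' * s0⁻¹)
            have h1 : Commute (θ s0 * θ s' * (θ s0)⁻¹) (q H)⁻¹ := by
              rw [← hinv]; exact conj_commute (m2 s' hs')
            rw [map_mul, map_mul, map_inv]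
            exact (Commute.inv_right_iff.1 h1).eq
        exact Subgroup.mem_centralizer_singleton_iff.1 (hle (gSH σ h0 h1)) }
  have hu : ∀ i j, q (fu i j) = B.uu i j := fun i j => by
    show _ = θ (pick i j) * q U * (θ (pick i j))⁻¹
    rw [hθ]; simp only [fu, map_mul, map_inv]
  have hh' : ∀ i j, q (fh i j) = B.hh i j := fun i j => by
    show _ = θ (pick i j) * q H * (θ (pick i j))⁻¹
    rw [hθ]; simp only [fh, map_mul, map_inv]
  have hv : ∀ i j (e : ℕ), q (fv i j e) = B.v i j e := fun i j e => by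
    simp only [fv, map_mul, map_inv, map_pow, hu, hh', Base.v, zpow_natCast]
  have c1 : ∀ x y, ⁅x, y⁆ ∈ one10 → Commute (q x) (q y) := fun x y h =>
    commute_of_bracket (by rw [← map_commutatorElement]; exact m10 _ h)
  have rT : ∀ t ∈ T3,
      B.hh t.1 t.2.1 ^ 2 * B.uu t.1 t.2.2 * (B.hh t.1 t.2.1 ^ 2)⁻¹ = B.v t.1 t.2.2 1 ∧
      B.hh t.1 t.2.1 ^ 2 * B.uu t.2.2 t.2.1 * (B.hh t.1 t.2.1 ^ 2)⁻¹ = B.v t.2.2 t.2.1 1 ∧
      ⁅B.uu t.1 t.2.1, B.uu t.2.1 t.2.2⁆ = B.uu t.1 t.2.2 := by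
    intro t ht
    have e1 : q (row t) = 1 := hone _ (by
      simp only [Ls, List.mem_append, List.mem_map]; exact Or.inl (Or.inl (Or.inl (Or.inr ⟨t, ht, rfl⟩))))
    have e2 : q (col t) = 1 := hone _ (by
      simp only [Ls, List.mem_append, List.mem_map]; exact Or.inl (Or.inl (Or.inr ⟨t, ht, rfl⟩)))
    have e3 : q (adj t) = 1 := hone _ (by
      simp only [Ls, List.mem_append, List.mem_map]; exact Or.inl (Or.inr ⟨t, ht, rfl⟩))
    simp only [row, map_mul, map_inv, map_pow, hh', hu, hv, Nat.cast_one, mul_inv_eq_one] at e1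
    simp only [col, map_mul, map_inv, map_pow, hh', hu, hv, Nat.cast_one, mul_inv_eq_one] at e2
    simp only [adj, map_mul, map_inv, map_commutatorElement, hu, mul_inv_eq_one] at e3
    exact ⟨e1, e2, e3⟩
  have R : B.Rels :=
    { hinv := by
        rw [B.hh_zero_one]
        show _ = (q H)⁻¹
        have := B.conj_hh s0 (ne01 (m := m))
        rw [s0_apply.1, s0_apply.2, B.hh_zero_one] at this
        rw [← this]
        exact hinv
      hh3 := by rw [← hh', ← hh']; exact c1 _ _ (by simp [one10])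
      hh4 := by rw [← hh', ← hh']; exact c1 _ _ (by simp [one10])
      dis := by rw [← hh', ← hu]; exact c1 _ _ (by simp [one10])
      row := fun i j k hij hik hjk => by
        obtain ⟨σ, t, ht, rfl, rfl, rfl⟩ := cT3 i j k hij hik hjk
        obtain ⟨h1, h2, h3⟩ := hT3 t ht
        rw [← B.conj_hh σ h1, ← B.conj_uu σ h2, ← B.conj_v σ h2, ← (rT t ht).1, conj_pow]
        group
      col := fun i j k hij hik hjk => by
        obtain ⟨σ, t, ht, rfl, rfl, rfl⟩ := cT3 i j k hij hik hjk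
        obtain ⟨h1, h2, h3⟩ := hT3 t ht
        rw [← B.conj_hh σ h1, ← B.conj_uu σ h3.symm, ← B.conj_v σ h3.symm, ← (rT t ht).2.1, conj_pow]
        group
      adj := fun i j k hij hik hjk => by
        obtain ⟨σ, t, ht, rfl, rfl, rfl⟩ := cT3 i j k hij hik hjk
        obtain ⟨h1, h2, h3⟩ := hT3 t ht
        rw [← B.conj_uu σ h1, ← B.conj_uu σ h3, ← B.conj_uu σ h2, ← Base.conj_bracket, (rT t ht).2.2]
      rowc := by rw [← hu, ← hu]; exact c1 _ _ (by simp [one10])
      colc := by rw [← hu, ← hu]; exact c1 _ _ (by simp [one10])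
      disc := by rw [← hu, ← hu]; exact c1 _ _ (by simp [one10]) }
  refine ⟨MulEquiv.ofBijective f (Base.bijective_of_rels R (p := p) hb ?_ ?_ ?_ f ?_ ?_)⟩
  · show q U ^ p = 1
    rw [← map_pow]; exact m10 _ (by simp [one10])
  · show wd (q U) (q H) (minpoly (ZMod p) b) = 1
    rw [← map_wd]; exact m10 _ (by simp [one10])
  · rw [eq_top_iff, ← PresentedGroup.closure_range_of, Subgroup.closure_le]
    rintro _ ⟨x | x, rfl⟩
    · refine Subgroup.subset_closure (Or.inl ⟨eA (PresentedGroup.of x), ?_⟩)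
      show θ0 (eA.symm (eA (PresentedGroup.of x))) = _
      rw [eA.symm_apply_apply]
      exact PresentedGroup.toGroup.of (h := _)
    · refine Subgroup.subset_closure (Or.inr ?_)
      fin_cases x
      · exact Or.inl rfl
      · exact Or.inr rfl
  · intro i j hij e
    rw [← hv, hfq, hψv i j hij]
  · have e : q H * θ tau = q w := by
      have := m10 (H * L tau * w⁻¹) (by simp [one10])
      rwa [map_mul, map_mul, map_inv, mul_inv_eq_one, ← hθ] at this
    show q H * θ tau ∈ _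
    rw [e]
    have : S0.map q ≤ Subgroup.closure {x | ∃ (i j : Fin (m + 4)) (e : ℕ), i ≠ j ∧ x = B.v i j e} := by
      rw [MonoidHom.map_closure]
      refine Subgroup.closure_mono ?_
      rintro _ ⟨_, ⟨i, j, e, hij, rfl⟩, rfl⟩
      exact ⟨i, j, e, hij, hv i j e⟩
    exact this (Subgroup.mem_map_of_mem q hwS)

end Cfsg.Agent.H81.SLnPres
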