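import Cfsg.Agent.H81.SLnPres.Perm
import Cfsg.Agent.H81.SLPresBasic

/-!
# Root elements from few relations

A group with an action of `Alt(n)`, one root element `u` and one torus element `h`, subject to a few
relations on representatives, carries root elements satisfying the Steinberg relations of `SL_n`.
-/

set_option autoImplicit false

namespace Cfsg.Agent.H81.SLnPres

open Equiv Cfsg.Agent.H81.SLPres
open scoped commutatorElement

variable {G : Type*} [Group G] {m : ℕ}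

/-- An even permutation sending `0` to `i` and `1` to `j`. -/
noncomputable def pick (i j : Fin (m + 4)) : alternatingGroup (Fin (m + 4)) := by
  classical exact if hij : i ≠ j then Classical.choose (exists_alt_pair hij) else 1

theorem pick_spec {i j : Fin (m + 4)} (hij : i ≠ j) :
    (pick i j : Perm (Fin (m + 4))) 0 = i ∧ (pick i j : Perm (Fin (m + 4))) 1 = j := by
  rw [pick, dif_pos hij]
  exact Classical.choose_spec (exists_alt_pair hij)

theorem conj_commute {g x y : G} (h : Commute x y) : Commute (g * x * g⁻¹) (g * y * g⁻¹) :=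
  (Commute.conj_iff g).2 h

/-- Iterated shifts. -/
theorem shift_zpow (g : G) (f : ℤ → G) (hf : ∀ a, g * f a * g⁻¹ = f (a + 1)) (c a : ℤ) :
    g ^ c * f a * (g ^ c)⁻¹ = f (a + c) := by
  induction c using Int.induction_on generalizing a with
  | zero => simp
  | succ k ih =>
    rw [zpow_add_one, show a + (↑k + 1) = (a + 1) + ↑k by ring, ← ih (a + 1), ← hf a]
    group
  | pred k ih =>
    rw [zpow_sub_one, show a + (-↑k - 1) = (a - 1) + -↑k by ring, ← ih (a - 1)]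
    have e := hf (a - 1)
    rw [sub_add_cancel] at e
    rw [← e]
    group

/-- An action of `Alt(n)` with two elements fixed by the stabiliser of `(0, 1)`. -/
structure Base (G : Type*) [Group G] (m : ℕ) where
  /-- the monomial group -/
  θ : alternatingGroup (Fin (m + 4)) →* G
  /-- the root element -/
  u : G
  /-- the torus element -/
  h : G
  stab_u : ∀ σ : alternatingGroup (Fin (m + 4)), (σ : Perm (Fin (m + 4))) 0 = 0 →
    (σ : Perm (Fin (m + 4))) 1 = 1 → Commute (θ σ) u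
  stab_h : ∀ σ : alternatingGroup (Fin (m + 4)), (σ : Perm (Fin (m + 4))) 0 = 0 →
    (σ : Perm (Fin (m + 4))) 1 = 1 → Commute (θ σ) h

namespace Base

variable (B : Base G m)

/-- The root element of the pair `(i, j)`. -/
noncomputable def uu (i j : Fin (m + 4)) : G := B.θ (pick i j) * B.u * (B.θ (pick i j))⁻¹

/-- The torus element of the pair `(i, j)`. -/
noncomputable def hh (i j : Fin (m + 4)) : G := B.θ (pick i j) * B.h * (B.θ (pick i j))⁻¹

/-- The scaled root elements. -/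
noncomputable def v (i j : Fin (m + 4)) (a : ℤ) : G := B.hh i j ^ a * B.uu i j * (B.hh i j ^ a)⁻¹

theorem pick_conj {y : G} (hy : ∀ σ : alternatingGroup (Fin (m + 4)), (σ : Perm (Fin (m + 4))) 0 = 0 →
    (σ : Perm (Fin (m + 4))) 1 = 1 → Commute (B.θ σ) y)
    {σ : alternatingGroup (Fin (m + 4))} {i j : Fin (m + 4)} (h0 : (σ : Perm (Fin (m + 4))) 0 = i)
    (h1 : (σ : Perm (Fin (m + 4))) 1 = j) :
    B.θ (pick i j) * y * (B.θ (pick i j))⁻¹ = B.θ σ * y * (B.θ σ)⁻¹ := by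
  have hij : i ≠ j := h0 ▸ h1 ▸ (σ : Perm (Fin (m + 4))).injective.ne ne01
  obtain ⟨p0, p1⟩ := pick_spec hij
  have hc : Commute (B.θ (σ⁻¹ * pick i j)) y := by
    refine hy _ ?_ ?_
    · show (σ : Perm (Fin (m + 4))).symm ((pick i j : Perm (Fin (m + 4))) 0) = 0
      rw [p0, Equiv.symm_apply_eq]; exact h0.symm
    · show (σ : Perm (Fin (m + 4))).symm ((pick i j : Perm (Fin (m + 4))) 1) = 1
      rw [p1, Equiv.symm_apply_eq]; exact h1.symm
  have e : B.θ (pick i j) = B.θ σ * B.θ (σ⁻¹ * pick i j) := by rw [← map_mul, mul_inv_cancel_left]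
  calc B.θ (pick i j) * y * (B.θ (pick i j))⁻¹
      = B.θ σ * (B.θ (σ⁻¹ * pick i j) * y * (B.θ (σ⁻¹ * pick i j))⁻¹) * (B.θ σ)⁻¹ := by
        rw [e]; group
    _ = _ := by rw [hc.eq, mul_inv_cancel_right]

theorem conj_pick {y : G} (hy : ∀ σ : alternatingGroup (Fin (m + 4)), (σ : Perm (Fin (m + 4))) 0 = 0 →
    (σ : Perm (Fin (m + 4))) 1 = 1 → Commute (B.θ σ) y)
    (σ : alternatingGroup (Fin (m + 4))) {i j : Fin (m + 4)} (hij : i ≠ j) :
    B.θ σ * (B.θ (pick i j) * y * (B.θ (pick i j))⁻¹) * (B.θ σ)⁻¹ =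
      B.θ (pick ((σ : Perm (Fin (m + 4))) i) ((σ : Perm (Fin (m + 4))) j)) * y *
        (B.θ (pick ((σ : Perm (Fin (m + 4))) i) ((σ : Perm (Fin (m + 4))) j)))⁻¹ := by
  obtain ⟨p0, p1⟩ := pick_spec hij
  rw [B.pick_conj hy (σ := σ * pick i j) (i := (σ : Perm (Fin (m + 4))) i) (j := (σ : Perm (Fin (m + 4))) j)
    (congrArg (σ : Perm (Fin (m + 4))) p0) (congrArg (σ : Perm (Fin (m + 4))) p1), map_mul]
  group

theorem conj_uu (σ : alternatingGroup (Fin (m + 4))) {i j : Fin (m + 4)} (hij : i ≠ j) :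
    B.θ σ * B.uu i j * (B.θ σ)⁻¹ = B.uu ((σ : Perm (Fin (m + 4))) i) ((σ : Perm (Fin (m + 4))) j) :=
  B.conj_pick B.stab_u σ hij

theorem conj_hh (σ : alternatingGroup (Fin (m + 4))) {i j : Fin (m + 4)} (hij : i ≠ j) :
    B.θ σ * B.hh i j * (B.θ σ)⁻¹ = B.hh ((σ : Perm (Fin (m + 4))) i) ((σ : Perm (Fin (m + 4))) j) :=
  B.conj_pick B.stab_h σ hij

theorem conj_v (σ : alternatingGroup (Fin (m + 4))) {i j : Fin (m + 4)} (hij : i ≠ j) (a : ℤ) :
    B.θ σ * B.v i j a * (B.θ σ)⁻¹ = B.v ((σ : Perm (Fin (m + 4))) i) ((σ : Perm (Fin (m + 4))) j) a := by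
  rw [v, v, ← B.conj_uu σ hij, ← B.conj_hh σ hij, conj_zpow]
  group

theorem uu_zero_one : B.uu 0 1 = B.u := by
  rw [uu, B.pick_conj B.stab_u (σ := 1) (i := 0) (j := 1) rfl rfl]; simp

theorem hh_zero_one : B.hh 0 1 = B.h := by
  rw [hh, B.pick_conj B.stab_h (σ := 1) (i := 0) (j := 1) rfl rfl]; simp

theorem v_zero (i j : Fin (m + 4)) : B.v i j 0 = B.uu i j := by simp [v]

/-- The relations on representatives. -/
structure Rels : Prop where
  hinv : B.hh 1 0 = (B.hh 0 1)⁻¹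
  hh3 : Commute (B.hh 0 1) (B.hh 0 2)
  hh4 : Commute (B.hh 0 1) (B.hh 2 3)
  dis : Commute (B.hh 0 1) (B.uu 2 3)
  row : ∀ i j k : Fin (m + 4), i ≠ j → i ≠ k → j ≠ k →
    B.hh i j ^ 2 * B.uu i k * (B.hh i j ^ 2)⁻¹ = B.v i k 1
  col : ∀ i j k : Fin (m + 4), i ≠ j → i ≠ k → j ≠ k →
    B.hh i j ^ 2 * B.uu k j * (B.hh i j ^ 2)⁻¹ = B.v k j 1
  adj : ∀ i j k : Fin (m + 4), i ≠ j → i ≠ k → j ≠ k → ⁅B.uu i j, B.uu j k⁆ = B.uu i k
  rowc : Commute (B.uu 0 1) (B.uu 0 2)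
  colc : Commute (B.uu 0 1) (B.uu 2 1)
  disc : Commute (B.uu 0 1) (B.uu 2 3)

variable {B} (R : B.Rels)

include R

theorem hh_inv {i j : Fin (m + 4)} (hij : i ≠ j) : B.hh j i = (B.hh i j)⁻¹ := by
  obtain ⟨σ, h0, h1⟩ := exists_alt_pair hij
  rw [← h0, ← h1, ← B.conj_hh σ ne01, ← B.conj_hh σ ne01.symm, R.hinv]
  group

theorem hh3' {i j k : Fin (m + 4)} (hij : i ≠ j) (hik : i ≠ k) (hjk : j ≠ k) :
    Commute (B.hh i j) (B.hh i k) := by
  obtain ⟨l, hli, hlj, hlk⟩ := exists_other i j k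
  obtain ⟨σ, ⟨h0, h1, h2, -⟩ | ⟨h0, h1, h2, -⟩⟩ :=
    exists_alt_quad hij hik hli.symm hjk hlj.symm hlk.symm (ne12 (m := m))
  · rw [← h0, ← h1, ← h2, ← B.conj_hh σ ne01, ← B.conj_hh σ ne02]
    exact conj_commute R.hh3
  · obtain ⟨e0, e1, e2, -⟩ := swap12 (m := m)
    rw [e0] at h0; rw [e1] at h1; rw [e2] at h2
    rw [← h0, ← h1, ← h2, ← B.conj_hh σ ne01, ← B.conj_hh σ ne02]
    exact conj_commute R.hh3.symm

theorem hh3_col {i j k : Fin (m + 4)} (hij : i ≠ j) (hik : i ≠ k) (hjk : j ≠ k) :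
    Commute (B.hh i j) (B.hh k j) := by
  rw [hh_inv R hij.symm, hh_inv R hjk]
  exact ((hh3' R hij.symm hjk hik).inv_left).inv_right

theorem hh4' {i j k l : Fin (m + 4)} (hij : i ≠ j) (hik : i ≠ k) (hil : i ≠ l) (hjk : j ≠ k)
    (hjl : j ≠ l) (hkl : k ≠ l) : Commute (B.hh i j) (B.hh k l) := by
  obtain ⟨σ, ⟨h0, h1, h2, h3⟩ | ⟨h0, h1, h2, h3⟩⟩ :=
    exists_alt_quad hij hik hil hjk hjl hkl (ne23 (m := m))
  · rw [← h0, ← h1, ← h2, ← h3, ← B.conj_hh σ ne01, ← B.conj_hh σ ne23]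
    exact conj_commute R.hh4
  · obtain ⟨e0, e1, e2, e3⟩ := swap23 (m := m)
    rw [e0] at h0; rw [e1] at h1; rw [e2] at h2; rw [e3] at h3
    rw [hh_inv R hkl.symm, ← h0, ← h1, ← h2, ← h3, ← B.conj_hh σ ne01, ← B.conj_hh σ ne23]
    exact (conj_commute R.hh4).inv_right

theorem dis' {i j k l : Fin (m + 4)} (hij : i ≠ j) (hik : i ≠ k) (hil : i ≠ l) (hjk : j ≠ k)
    (hjl : j ≠ l) (hkl : k ≠ l) : Commute (B.hh i j) (B.uu k l) := by
  obtain ⟨σ, ⟨h0, h1, h2, h3⟩ | ⟨h0, h1, h2, h3⟩⟩ :=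
    exists_alt_quad hij hik hil hjk hjl hkl (ne01 (m := m))
  · rw [← h0, ← h1, ← h2, ← h3, ← B.conj_hh σ ne01, ← B.conj_uu σ ne23]
    exact conj_commute R.dis
  · obtain ⟨e0, e1, e2, e3⟩ := swap01 (m := m)
    rw [e0] at h0; rw [e1] at h1; rw [e2] at h2; rw [e3] at h3
    rw [hh_inv R hij.symm, ← h0, ← h1, ← h2, ← h3, ← B.conj_hh σ ne01, ← B.conj_uu σ ne23]
    exact (conj_commute R.dis).inv_left

theorem rowc' {i j k : Fin (m + 4)} (hij : i ≠ j) (hik : i ≠ k) (hjk : j ≠ k) :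
    Commute (B.uu i j) (B.uu i k) := by
  obtain ⟨l, hli, hlj, hlk⟩ := exists_other i j k
  obtain ⟨σ, ⟨h0, h1, h2, -⟩ | ⟨h0, h1, h2, -⟩⟩ :=
    exists_alt_quad hij hik hli.symm hjk hlj.symm hlk.symm (ne12 (m := m))
  · rw [← h0, ← h1, ← h2, ← B.conj_uu σ ne01, ← B.conj_uu σ ne02]
    exact conj_commute R.rowc
  · obtain ⟨e0, e1, e2, -⟩ := swap12 (m := m)
    rw [e0] at h0; rw [e1] at h1; rw [e2] at h2
    rw [← h0, ← h1, ← h2, ← B.conj_uu σ ne01, ← B.conj_uu σ ne02]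
    exact conj_commute R.rowc.symm

theorem colc' {i j k : Fin (m + 4)} (hij : i ≠ j) (hik : i ≠ k) (hjk : j ≠ k) :
    Commute (B.uu i j) (B.uu k j) := by
  obtain ⟨l, hli, hlj, hlk⟩ := exists_other i j k
  obtain ⟨σ, ⟨h0, h1, h2, -⟩ | ⟨h0, h1, h2, -⟩⟩ :=
    exists_alt_quad hij hik hli.symm hjk hlj.symm hlk.symm (ne02 (m := m))
  · rw [← h0, ← h1, ← h2, ← B.conj_uu σ ne01, ← B.conj_uu σ ne12.symm]
    exact conj_commute R.colc
  · obtain ⟨e0, e1, e2, -⟩ := swap02 (m := m)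
    rw [e0] at h0; rw [e1] at h1; rw [e2] at h2
    rw [← h0, ← h1, ← h2, ← B.conj_uu σ ne01, ← B.conj_uu σ ne12.symm]
    exact conj_commute R.colc.symm

theorem disc_flip : Commute (B.uu 0 1) (B.uu 3 2) := by
  have hzx : Commute (B.uu 0 1) (B.uu 0 2) := R.rowc
  have hw32 : Commute (B.uu 3 1) (B.uu 3 2) := rowc' R ne13.symm ne23.symm ne12
  have hwz : Commute (B.uu 3 1) (B.uu 0 2) := by
    let ρ : alternatingGroup (Fin (m + 4)) := ⟨swap 0 2 * swap 0 3, Perm.mem_alternatingGroup.2 (by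
      rw [map_mul, Perm.sign_swap ne02, Perm.sign_swap ne03]; decide)⟩
    have r0 : (ρ : Perm (Fin (m + 4))) 0 = 3 := by
      show swap (0 : Fin (m + 4)) 2 (swap 0 3 0) = 3
      rw [swap_apply_left, swap_apply_of_ne_of_ne ne03.symm ne23.symm]
    have r1 : (ρ : Perm (Fin (m + 4))) 1 = 1 := by
      show swap (0 : Fin (m + 4)) 2 (swap 0 3 1) = 1
      rw [swap_apply_of_ne_of_ne ne01.symm ne13, swap_apply_of_ne_of_ne ne01.symm ne12]
    have r2 : (ρ : Perm (Fin (m + 4))) 2 = 0 := by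
      show swap (0 : Fin (m + 4)) 2 (swap 0 3 2) = 0
      rw [swap_apply_of_ne_of_ne ne02.symm ne23, swap_apply_right]
    have r3 : (ρ : Perm (Fin (m + 4))) 3 = 2 := by
      show swap (0 : Fin (m + 4)) 2 (swap 0 3 3) = 2
      rw [swap_apply_right, swap_apply_left]
    have := conj_commute (g := B.θ ρ) R.disc
    rwa [B.conj_uu ρ ne01, B.conj_uu ρ ne23, r0, r1, r2, r3] at this
  have e32 : ⁅B.uu 3 0, B.uu 0 2⁆ = B.uu 3 2 := R.adj 3 0 2 ne03.symm ne23.symm ne02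
  have e31 : ⁅B.uu 3 0, B.uu 0 1⁆ = B.uu 3 1 := R.adj 3 0 1 ne03.symm ne13.symm ne01
  generalize B.uu 0 1 = x at *
  generalize B.uu 0 2 = z at *
  generalize B.uu 3 0 = y at *
  generalize B.uu 3 1 = w at *
  generalize B.uu 3 2 = t at *
  have e1 : x * y * x⁻¹ = w⁻¹ * y := by rw [← e31, commutatorElement_def]; group
  have e2 : x * z * x⁻¹ = z := by rw [hzx.eq, mul_inv_cancel_right]
  have e3 : x * ⁅y, z⁆ * x⁻¹ = ⁅x * y * x⁻¹, x * z * x⁻¹⁆ := by
    simp only [commutatorElement_def]; group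
  rw [e32, e1, e2] at e3
  have e4 : ⁅w⁻¹ * y, z⁆ = w⁻¹ * ⁅y, z⁆ * (z * w * z⁻¹) := by
    simp only [commutatorElement_def]; group
  rw [e4, e32, show z * w * z⁻¹ = w by rw [← hwz.eq, mul_inv_cancel_right],
    show w⁻¹ * t * w = t by rw [mul_assoc, ← hw32.eq, inv_mul_cancel_left]] at e3
  exact mul_inv_eq_iff_eq_mul.1 e3

theorem disc' {i j k l : Fin (m + 4)} (hij : i ≠ j) (hik : i ≠ k) (hil : i ≠ l) (hjk : j ≠ k)
    (hjl : j ≠ l) (hkl : k ≠ l) : Commute (B.uu i j) (B.uu k l) := by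
  obtain ⟨σ, ⟨h0, h1, h2, h3⟩ | ⟨h0, h1, h2, h3⟩⟩ :=
    exists_alt_quad hij hik hil hjk hjl hkl (ne23 (m := m))
  · rw [← h0, ← h1, ← h2, ← h3, ← B.conj_uu σ ne01, ← B.conj_uu σ ne23]
    exact conj_commute R.disc
  · obtain ⟨e0, e1, e2, e3⟩ := swap23 (m := m)
    rw [e0] at h0; rw [e1] at h1; rw [e2] at h2; rw [e3] at h3
    rw [← h0, ← h1, ← h2, ← h3, ← B.conj_uu σ ne01, ← B.conj_uu σ ne23.symm]
    exact conj_commute (disc_flip R)

/-- Shift by a squared torus element sharing the first point. -/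
theorem mv_row {i j k : Fin (m + 4)} (hij : i ≠ j) (hik : i ≠ k) (hjk : j ≠ k) (c a : ℤ) :
    (B.hh i j ^ 2) ^ c * B.v i k a * ((B.hh i j ^ 2) ^ c)⁻¹ = B.v i k (a + c) := by
  refine shift_zpow _ (B.v i k) (fun a => ?_) c a
  have hc : Commute (B.hh i j ^ 2) (B.hh i k ^ a) := ((hh3' R hij hik hjk).pow_left 2).zpow_right a
  calc B.hh i j ^ 2 * B.v i k a * (B.hh i j ^ 2)⁻¹
      = (B.hh i j ^ 2 * B.hh i k ^ a) * B.uu i k * (B.hh i j ^ 2 * B.hh i k ^ a)⁻¹ := by rw [v]; group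
    _ = (B.hh i k ^ a * B.hh i j ^ 2) * B.uu i k * (B.hh i k ^ a * B.hh i j ^ 2)⁻¹ := by rw [hc.eq]
    _ = B.hh i k ^ a * (B.hh i j ^ 2 * B.uu i k * (B.hh i j ^ 2)⁻¹) * (B.hh i k ^ a)⁻¹ := by group
    _ = _ := by rw [R.row i j k hij hik hjk, v, v, zpow_add, zpow_one]; group

/-- Shift by a squared torus element sharing the second point. -/
theorem mv_col {i j k : Fin (m + 4)} (hij : i ≠ j) (hik : i ≠ k) (hjk : j ≠ k) (c a : ℤ) :
    (B.hh i j ^ 2) ^ c * B.v k j a * ((B.hh i j ^ 2) ^ c)⁻¹ = B.v k j (a + c) := by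
  refine shift_zpow _ (B.v k j) (fun a => ?_) c a
  have hc : Commute (B.hh i j ^ 2) (B.hh k j ^ a) := ((hh3_col R hij hik hjk).pow_left 2).zpow_right a
  calc B.hh i j ^ 2 * B.v k j a * (B.hh i j ^ 2)⁻¹
      = (B.hh i j ^ 2 * B.hh k j ^ a) * B.uu k j * (B.hh i j ^ 2 * B.hh k j ^ a)⁻¹ := by rw [v]; group
    _ = (B.hh k j ^ a * B.hh i j ^ 2) * B.uu k j * (B.hh k j ^ a * B.hh i j ^ 2)⁻¹ := by rw [hc.eq]
    _ = B.hh k j ^ a * (B.hh i j ^ 2 * B.uu k j * (B.hh i j ^ 2)⁻¹) * (B.hh k j ^ a)⁻¹ := by group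
    _ = _ := by rw [R.col i j k hij hik hjk, v, v, zpow_add, zpow_one]; group

omit R in
/-- Shift by the own torus element. -/
theorem mv_self (i j : Fin (m + 4)) (c a : ℤ) :
    B.hh i j ^ c * B.v i j a * (B.hh i j ^ c)⁻¹ = B.v i j (a + c) := by
  simp only [v, zpow_add]; group

/-- A disjoint torus element fixes a root element. -/
theorem fix_dis {i j k l : Fin (m + 4)} (hij : i ≠ j) (hik : i ≠ k) (hil : i ≠ l) (hjk : j ≠ k)
    (hjl : j ≠ l) (hkl : k ≠ l) (a : ℤ) : Commute (B.hh i j) (B.v k l a) := by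
  have h1 : Commute (B.hh i j) (B.hh k l ^ a) := (hh4' R hij hik hil hjk hjl hkl).zpow_right a
  exact (h1.mul_right (dis' R hij hik hil hjk hjl hkl)).mul_right h1.inv_right

theorem rowc_v {i j k : Fin (m + 4)} (hij : i ≠ j) (hik : i ≠ k) (hjk : j ≠ k) (a b : ℤ) :
    Commute (B.v i j a) (B.v i k b) := by
  obtain ⟨l, hli, hlj, hlk⟩ := exists_other i j k
  have h0 : Commute (B.v i j 0) (B.v i k 0) := by rw [v_zero, v_zero]; exact rowc' R hij hik hjk
  have f1 : Commute ((B.hh l j ^ 2) ^ a) (B.v i k 0) :=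
    ((fix_dis R hlj hli hlk hij.symm hjk hik 0).pow_left 2).zpow_left a
  have h1 := conj_commute (g := (B.hh l j ^ 2) ^ a) h0
  rw [mv_col R hlj hli hij.symm a 0, f1.eq, mul_inv_cancel_right, zero_add] at h1
  have f2 : Commute ((B.hh l k ^ 2) ^ b) (B.v i j a) :=
    ((fix_dis R hlk hli hlj hik.symm hjk.symm hij a).pow_left 2).zpow_left b
  have h2 := conj_commute (g := (B.hh l k ^ 2) ^ b) h1
  rwa [mv_col R hlk hli hik.symm b 0, f2.eq, mul_inv_cancel_right, zero_add] at h2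

theorem colc_v {i j k : Fin (m + 4)} (hij : i ≠ j) (hik : i ≠ k) (hjk : j ≠ k) (a b : ℤ) :
    Commute (B.v i j a) (B.v k j b) := by
  obtain ⟨l, hli, hlj, hlk⟩ := exists_other i j k
  have h0 : Commute (B.v i j 0) (B.v k j 0) := by rw [v_zero, v_zero]; exact colc' R hij hik hjk
  have f1 : Commute ((B.hh i l ^ 2) ^ a) (B.v k j 0) :=
    ((fix_dis R hli.symm hik hij hlk hlj hjk.symm 0).pow_left 2).zpow_left a
  have h1 := conj_commute (g := (B.hh i l ^ 2) ^ a) h0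
  rw [mv_row R hli.symm hij hlj a 0, f1.eq, mul_inv_cancel_right, zero_add] at h1
  have f2 : Commute ((B.hh k l ^ 2) ^ b) (B.v i j a) :=
    ((fix_dis R hlk.symm hik.symm hjk.symm hli hlj hij a).pow_left 2).zpow_left b
  have h2 := conj_commute (g := (B.hh k l ^ 2) ^ b) h1
  rwa [mv_row R hlk.symm hjk.symm hlj b 0, f2.eq, mul_inv_cancel_right, zero_add] at h2

omit R in
theorem conj_bracket (g x y : G) : g * ⁅x, y⁆ * g⁻¹ = ⁅g * x * g⁻¹, g * y * g⁻¹⁆ := by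
  simp only [commutatorElement_def]; group

theorem adj_v {i j k : Fin (m + 4)} (hij : i ≠ j) (hik : i ≠ k) (hjk : j ≠ k) (a b : ℤ) :
    ⁅B.v i j a, B.v j k b⁆ = B.v i k (a + b) := by
  obtain ⟨l, hli, hlj, hlk⟩ := exists_other i j k
  have h0 : ⁅B.v i j 0, B.v j k 0⁆ = B.v i k 0 := by
    rw [v_zero, v_zero, v_zero]; exact R.adj i j k hij hik hjk
  have f1 : Commute ((B.hh i l ^ 2) ^ a) (B.v j k 0) :=
    ((fix_dis R hli.symm hij hik hlj hlk hjk 0).pow_left 2).zpow_left a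
  have h1 := congrArg (fun z => (B.hh i l ^ 2) ^ a * z * ((B.hh i l ^ 2) ^ a)⁻¹) h0
  simp only [conj_bracket] at h1
  rw [mv_row R hli.symm hij hlj a 0, mv_row R hli.symm hik hlk a 0, f1.eq, mul_inv_cancel_right,
    zero_add] at h1
  have f2 : Commute ((B.hh l k ^ 2) ^ b) (B.v i j a) :=
    ((fix_dis R hlk hli hlj hik.symm hjk.symm hij a).pow_left 2).zpow_left b
  have h2 := congrArg (fun z => (B.hh l k ^ 2) ^ b * z * ((B.hh l k ^ 2) ^ b)⁻¹) h1
  simp only [conj_bracket] at h2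
  rwa [mv_col R hlk hlj hjk.symm b 0, mv_col R hlk hli hik.symm b a, f2.eq, mul_inv_cancel_right,
    zero_add] at h2

theorem disc_v {i j k l : Fin (m + 4)} (hij : i ≠ j) (hik : i ≠ k) (hil : i ≠ l) (hjk : j ≠ k)
    (hjl : j ≠ l) (hkl : k ≠ l) (a b : ℤ) : Commute (B.v i j a) (B.v k l b) := by
  have h0 : Commute (B.v i j 0) (B.v k l 0) := by
    rw [v_zero, v_zero]; exact disc' R hij hik hil hjk hjl hkl
  have f1 : Commute (B.hh i j ^ a) (B.v k l 0) := (fix_dis R hij hik hil hjk hjl hkl 0).zpow_left a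
  have h1 := conj_commute (g := B.hh i j ^ a) h0
  rw [mv_self i j a 0, f1.eq, mul_inv_cancel_right, zero_add] at h1
  have f2 : Commute (B.hh k l ^ b) (B.v i j a) :=
    (fix_dis R hkl hik.symm hjk.symm hil.symm hjl.symm hij a).zpow_left b
  have h2 := conj_commute (g := B.hh k l ^ b) h1
  rwa [mv_self k l b 0, f2.eq, mul_inv_cancel_right, zero_add] at h2

theorem self_v {i j : Fin (m + 4)} (hij : i ≠ j) (a b : ℤ) : Commute (B.v i j a) (B.v i j b) := by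
  obtain ⟨k, hki, hkj⟩ := exists_other2 i j
  have e := adj_v R hki.symm hij hkj b 0
  rw [add_zero] at e
  rw [← e, commutatorElement_def]
  have c1 := rowc_v R hij hki.symm hkj.symm a b
  have c2 := colc_v R hij hki.symm hkj.symm a 0
  exact ((c1.mul_right c2).mul_right c1.inv_right).mul_right c2.inv_right

end Base

end Cfsg.Agent.H81.SLnPres
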