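import Mathlib

/-!
# Even permutations moving the first four points
-/

set_option autoImplicit false

namespace Cfsg.Agent.H81.SLnPres

open Equiv

variable {m : ℕ}

theorem ne01 : (0 : Fin (m + 4)) ≠ 1 := by simp [Fin.ext_iff]
theorem ne02 : (0 : Fin (m + 4)) ≠ 2 := by
  simp [Fin.ext_iff, Nat.mod_eq_of_lt (show (2 : ℕ) < m + 4 by omega)]
theorem ne03 : (0 : Fin (m + 4)) ≠ 3 := by
  simp [Fin.ext_iff, Nat.mod_eq_of_lt (show (3 : ℕ) < m + 4 by omega)]
theorem ne12 : (1 : Fin (m + 4)) ≠ 2 := by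
  simp [Fin.ext_iff, Nat.mod_eq_of_lt (show (2 : ℕ) < m + 4 by omega), Nat.mod_eq_of_lt (show (1 : ℕ) < m + 4 by omega)]
theorem ne13 : (1 : Fin (m + 4)) ≠ 3 := by
  simp [Fin.ext_iff, Nat.mod_eq_of_lt (show (3 : ℕ) < m + 4 by omega), Nat.mod_eq_of_lt (show (1 : ℕ) < m + 4 by omega)]
theorem ne23 : (2 : Fin (m + 4)) ≠ 3 := by
  simp [Fin.ext_iff, Nat.mod_eq_of_lt (show (3 : ℕ) < m + 4 by omega), Nat.mod_eq_of_lt (show (2 : ℕ) < m + 4 by omega)]

theorem exists_other (i j k : Fin (m + 4)) : ∃ l, l ≠ i ∧ l ≠ j ∧ l ≠ k := by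
  classical
  have hc : ({i, j, k} : Finset (Fin (m + 4))).card < Fintype.card (Fin (m + 4)) := by
    have := Finset.card_le_three (a := i) (b := j) (c := k)
    simp only [Fintype.card_fin]; omega
  obtain ⟨l, hl⟩ : ∃ l, l ∉ ({i, j, k} : Finset (Fin (m + 4))) := by
    by_contra hcon
    push_neg at hcon
    rw [Finset.eq_univ_of_forall hcon, Finset.card_univ] at hc
    exact lt_irrefl _ hc
  simp only [Finset.mem_insert, Finset.mem_singleton, not_or] at hl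
  exact ⟨l, hl⟩

theorem exists_other2 (i j : Fin (m + 4)) : ∃ l, l ≠ i ∧ l ≠ j := by
  obtain ⟨l, h1, h2, -⟩ := exists_other i j j
  exact ⟨l, h1, h2⟩

/-- Some permutation maps the first four points to four given ones. -/
theorem exists_perm {a b c d : Fin (m + 4)} (hab : a ≠ b) (hac : a ≠ c) (had : a ≠ d) (hbc : b ≠ c)
    (hbd : b ≠ d) (hcd : c ≠ d) : ∃ σ : Perm (Fin (m + 4)), σ 0 = a ∧ σ 1 = b ∧ σ 2 = c ∧ σ 3 = d := by
  let s1 : Perm (Fin (m + 4)) := swap 0 a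
  let s2 : Perm (Fin (m + 4)) := swap (s1 1) b * s1
  let s3 : Perm (Fin (m + 4)) := swap (s2 2) c * s2
  let s4 : Perm (Fin (m + 4)) := swap (s3 3) d * s3
  have h10 : s1 0 = a := swap_apply_left _ _
  have h20 : s2 0 = a := by
    show swap (s1 1) b (s1 0) = a
    rw [h10]
    exact swap_apply_of_ne_of_ne (h10 ▸ s1.injective.ne ne01) hab
  have h21 : s2 1 = b := swap_apply_left _ _
  have h30 : s3 0 = a := by
    show swap (s2 2) c (s2 0) = a
    rw [h20]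
    exact swap_apply_of_ne_of_ne (h20 ▸ s2.injective.ne ne02) hac
  have h31 : s3 1 = b := by
    show swap (s2 2) c (s2 1) = b
    rw [h21]
    exact swap_apply_of_ne_of_ne (h21 ▸ s2.injective.ne ne12) hbc
  have h32 : s3 2 = c := swap_apply_left _ _
  refine ⟨s4, ?_, ?_, ?_, swap_apply_left _ _⟩
  · show swap (s3 3) d (s3 0) = a
    rw [h30]
    exact swap_apply_of_ne_of_ne (h30 ▸ s3.injective.ne ne03) had
  · show swap (s3 3) d (s3 1) = b
    rw [h31]
    exact swap_apply_of_ne_of_ne (h31 ▸ s3.injective.ne ne13) hbd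
  · show swap (s3 3) d (s3 2) = c
    rw [h32]
    exact swap_apply_of_ne_of_ne (h32 ▸ s3.injective.ne ne23) hcd

/-- An even permutation maps the first four points to four given ones, up to exchanging two prescribed
positions. -/
theorem exists_alt_quad {a b c d : Fin (m + 4)} (hab : a ≠ b) (hac : a ≠ c) (had : a ≠ d) (hbc : b ≠ c)
    (hbd : b ≠ d) (hcd : c ≠ d) {x y : Fin (m + 4)} (hxy : x ≠ y) :
    ∃ σ : alternatingGroup (Fin (m + 4)),
      ((σ : Perm (Fin (m + 4))) 0 = a ∧ (σ : Perm (Fin (m + 4))) 1 = b ∧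
        (σ : Perm (Fin (m + 4))) 2 = c ∧ (σ : Perm (Fin (m + 4))) 3 = d) ∨
      ((σ : Perm (Fin (m + 4))) (swap x y 0) = a ∧ (σ : Perm (Fin (m + 4))) (swap x y 1) = b ∧
        (σ : Perm (Fin (m + 4))) (swap x y 2) = c ∧ (σ : Perm (Fin (m + 4))) (swap x y 3) = d) := by
  obtain ⟨s, h0, h1, h2, h3⟩ := exists_perm hab hac had hbc hbd hcd
  rcases Int.units_eq_one_or (Perm.sign s) with h | h
  · exact ⟨⟨s, Perm.mem_alternatingGroup.2 h⟩, Or.inl ⟨h0, h1, h2, h3⟩⟩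
  · refine ⟨⟨s * swap x y, Perm.mem_alternatingGroup.2 ?_⟩, Or.inr ?_⟩
    · rw [map_mul, h, Perm.sign_swap hxy]; decide
    · simp [h0, h1, h2, h3]

theorem swap01 : swap (0 : Fin (m + 4)) 1 0 = 1 ∧ swap (0 : Fin (m + 4)) 1 1 = 0 ∧
    swap (0 : Fin (m + 4)) 1 2 = 2 ∧ swap (0 : Fin (m + 4)) 1 3 = 3 :=
  ⟨swap_apply_left _ _, swap_apply_right _ _, swap_apply_of_ne_of_ne ne02.symm ne12.symm,
    swap_apply_of_ne_of_ne ne03.symm ne13.symm⟩

theorem swap02 : swap (0 : Fin (m + 4)) 2 0 = 2 ∧ swap (0 : Fin (m + 4)) 2 1 = 1 ∧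
    swap (0 : Fin (m + 4)) 2 2 = 0 ∧ swap (0 : Fin (m + 4)) 2 3 = 3 :=
  ⟨swap_apply_left _ _, swap_apply_of_ne_of_ne ne01.symm ne12, swap_apply_right _ _,
    swap_apply_of_ne_of_ne ne03.symm ne23.symm⟩

theorem swap12 : swap (1 : Fin (m + 4)) 2 0 = 0 ∧ swap (1 : Fin (m + 4)) 2 1 = 2 ∧
    swap (1 : Fin (m + 4)) 2 2 = 1 ∧ swap (1 : Fin (m + 4)) 2 3 = 3 :=
  ⟨swap_apply_of_ne_of_ne ne01 ne02, swap_apply_left _ _, swap_apply_right _ _,
    swap_apply_of_ne_of_ne ne13.symm ne23.symm⟩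

theorem swap23 : swap (2 : Fin (m + 4)) 3 0 = 0 ∧ swap (2 : Fin (m + 4)) 3 1 = 1 ∧
    swap (2 : Fin (m + 4)) 3 2 = 3 ∧ swap (2 : Fin (m + 4)) 3 3 = 2 :=
  ⟨swap_apply_of_ne_of_ne ne02 ne03, swap_apply_of_ne_of_ne ne12 ne13, swap_apply_left _ _,
    swap_apply_right _ _⟩

/-- An even permutation maps `(0, 1)` to a given pair. -/
theorem exists_alt_pair {i j : Fin (m + 4)} (hij : i ≠ j) :
    ∃ σ : alternatingGroup (Fin (m + 4)), (σ : Perm (Fin (m + 4))) 0 = i ∧ (σ : Perm (Fin (m + 4))) 1 = j := by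
  obtain ⟨k, hk1, hk2, -⟩ := exists_other i j j
  obtain ⟨l, hl1, hl2, hl3⟩ := exists_other i j k
  obtain ⟨σ, ⟨h0, h1, -⟩ | ⟨h0, h1, -⟩⟩ :=
    exists_alt_quad hij hk1.symm hl1.symm hk2.symm hl2.symm hl3.symm (ne23 (m := m))
  · exact ⟨σ, h0, h1⟩
  · rw [swap23.1] at h0; rw [swap23.2.1] at h1
    exact ⟨σ, h0, h1⟩

/-- The double transposition `(0 1)(2 3)`. -/
def s0 : alternatingGroup (Fin (m + 4)) :=
  ⟨swap 0 1 * swap 2 3, Perm.mem_alternatingGroup.2 (by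
    rw [map_mul, Perm.sign_swap ne01, Perm.sign_swap ne23]; decide)⟩

theorem s0_apply : (s0 (m := m) : Perm (Fin (m + 4))) 0 = 1 ∧ (s0 (m := m) : Perm (Fin (m + 4))) 1 = 0 := by
  constructor
  · show swap (0 : Fin (m + 4)) 1 (swap 2 3 0) = 1
    rw [swap23.1, swap01.1]
  · show swap (0 : Fin (m + 4)) 1 (swap 2 3 1) = 0
    rw [swap23.2.1, swap01.2.1]

/-- The three-cycle `(0 1 2)`. -/
def tau : alternatingGroup (Fin (m + 4)) :=
  ⟨swap 0 1 * swap 1 2, Perm.mem_alternatingGroup.2 (by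
    rw [map_mul, Perm.sign_swap ne01, Perm.sign_swap ne12]; decide)⟩

/-- The kernel element obtained from `tau` and `s0`. -/
theorem s0_tau : ((s0 * tau * s0 * tau : alternatingGroup (Fin (m + 4))) : Perm (Fin (m + 4))) =
    swap 1 2 * swap 2 3 := by
  refine Equiv.ext fun x => ?_
  simp only [s0, tau, Subgroup.coe_mul, Perm.mul_apply]
  obtain ⟨a0, a1, a2, a3⟩ := swap01 (m := m)
  obtain ⟨b0, b1, b2, b3⟩ := swap12 (m := m)
  obtain ⟨c0, c1, c2, c3⟩ := swap23 (m := m)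
  by_cases h0 : x = 0
  · subst h0; simp [a0, a1, a2, a3, b0, b1, b2, b3, c0, c1, c2, c3]
  by_cases h1 : x = 1
  · subst h1; simp [a0, a1, a2, a3, b0, b1, b2, b3, c0, c1, c2, c3]
  by_cases h2 : x = 2
  · subst h2; simp [a0, a1, a2, a3, b0, b1, b2, b3, c0, c1, c2, c3]
  by_cases h3 : x = 3
  · subst h3; simp [a0, a1, a2, a3, b0, b1, b2, b3, c0, c1, c2, c3]
  simp [swap_apply_of_ne_of_ne h0 h1, swap_apply_of_ne_of_ne h1 h2, swap_apply_of_ne_of_ne h2 h3]

/-- A normal subgroup containing `(1 2 3)` is everything. -/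
theorem normal_eq_top (K : Subgroup (alternatingGroup (Fin (m + 4)))) [K.Normal]
    (c : alternatingGroup (Fin (m + 4))) (hc : (c : Perm (Fin (m + 4))) = swap 1 2 * swap 2 3) (hK : c ∈ K) :
    K = ⊤ := by
  have key : ∀ g : Perm (Fin (m + 4)), g.IsThreeCycle → g ∈ K.map (alternatingGroup (Fin (m + 4))).subtype := by
    intro g hg
    obtain ⟨s, hs⟩ := isConj_iff.1 ((Perm.isConj_iff_cycleType_eq (σ := (c : Perm (Fin (m + 4)))) (τ := g)).2 (by
      have h3 : (c : Perm (Fin (m + 4))).IsThreeCycle := by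
        rw [hc, swap_comm (1 : Fin (m + 4)) 2]
        exact Perm.isThreeCycle_swap_mul_swap_same (ne12 (m := m)).symm ne23 ne13
      rw [h3.cycleType, hg.cycleType]))
    rcases Int.units_eq_one_or (Perm.sign s) with h | h
    · exact ⟨⟨s, Perm.mem_alternatingGroup.2 h⟩ * c * ⟨s, Perm.mem_alternatingGroup.2 h⟩⁻¹,
        Subgroup.Normal.conj_mem inferInstance c hK _, hs⟩
    · have hse : Perm.sign (s * swap 1 3) = 1 := by
        rw [map_mul, h, Perm.sign_swap ne13]; decide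
      let s' : alternatingGroup (Fin (m + 4)) := ⟨s * swap 1 3, Perm.mem_alternatingGroup.2 hse⟩
      refine ⟨s' * c⁻¹ * s'⁻¹, Subgroup.Normal.conj_mem inferInstance _ (inv_mem hK) _, ?_⟩
      show (s * swap 1 3) * (c : Perm (Fin (m + 4)))⁻¹ * (s * swap 1 3)⁻¹ = g
      rw [← hs, hc]
      have e : swap (1 : Fin (m + 4)) 3 * (swap 1 2 * swap 2 3)⁻¹ * (swap 1 3)⁻¹ = swap 1 2 * swap 2 3 := by
        refine Equiv.ext fun x => ?_
        have d1 : swap (1 : Fin (m + 4)) 3 2 = 2 := swap_apply_of_ne_of_ne ne12.symm ne23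
        have d0 : swap (1 : Fin (m + 4)) 3 1 = 3 := swap_apply_left _ _
        have d3 : swap (1 : Fin (m + 4)) 3 3 = 1 := swap_apply_right _ _
        obtain ⟨b0, b1, b2, b3⟩ := swap12 (m := m)
        obtain ⟨c0, c1, c2, c3⟩ := swap23 (m := m)
        simp only [mul_inv_rev, swap_inv, Perm.mul_apply]
        by_cases h1 : x = 1
        · subst h1; simp [d0, d1, d3, b1, b2, b3, c1, c2, c3]
        by_cases h2 : x = 2
        · subst h2; simp [d0, d1, d3, b1, b2, b3, c1, c2, c3]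
        by_cases h3 : x = 3
        · subst h3; simp [d0, d1, d3, b1, b2, b3, c1, c2, c3]
        simp [swap_apply_of_ne_of_ne h1 h3, swap_apply_of_ne_of_ne h1 h2, swap_apply_of_ne_of_ne h2 h3]
      conv_rhs => rw [← e]
      group
  rw [eq_top_iff]
  intro x _
  have hle : alternatingGroup (Fin (m + 4)) ≤ K.map (alternatingGroup (Fin (m + 4))).subtype :=
    (Equiv.Perm.closure_three_cycles_eq_alternating (α := Fin (m + 4))).symm.trans_le
      ((Subgroup.closure_le _).2 key)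
  obtain ⟨y, hy, hyx⟩ := hle x.2
  rwa [← Subtype.ext hyx]

end Cfsg.Agent.H81.SLnPres
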