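import Cfsg.Agent.H81.SLnPres.Core
import Cfsg.Agent.S2401

/-!
# The Steinberg relations from the relations on representatives
-/

set_option autoImplicit false

namespace Cfsg.Agent.H81.SLnPres

open Equiv Cfsg.Agent.H81.SLPres Cfsg.Agent.H64.SLCover
open scoped commutatorElement

variable {G : Type*} [Group G] {F : Type*} [Field F]

/-- Induction along the powers of a generator of the field. -/
theorem ind_b {p : ℕ} [Fact p.Prime] [Algebra (ZMod p) F] {b : F}
    (hb : Function.Surjective (Polynomial.aeval (R := ZMod p) b)) (Q : F → Prop) (h0 : Q 0)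
    (hadd : ∀ s t, Q s → Q t → Q (s + t)) (hpow : ∀ i : ℕ, Q (b ^ i)) (t : F) : Q t := by
  obtain ⟨P, rfl⟩ := hb t
  induction P using Polynomial.induction_on' with
  | add P P' hP hP' => rw [map_add]; exact hadd _ _ hP hP'
  | monomial i c =>
    rw [Polynomial.aeval_monomial, ← ZMod.natCast_zmod_val c, map_natCast, ← nsmul_eq_mul]
    generalize c.val = k
    induction k with
    | zero => simpa using h0
    | succ k ih => rw [succ_nsmul]; exact hadd _ _ ih (hpow i)

/-- Root elements satisfying the Steinberg relations define a homomorphism on `SL_n`. -/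
theorem steinberg_hom [Finite F] {n : ℕ} (hn : 3 ≤ n) (X : Fin n → Fin n → F → G)
    (hadd : ∀ i j, i ≠ j → ∀ s t : F, X i j (s + t) = X i j s * X i j t)
    (hcomm : ∀ i j k l : Fin n, i ≠ j → k ≠ l → j ≠ k → i ≠ l → ∀ s t : F, Commute (X i j s) (X k l t))
    (hbr : ∀ i j k : Fin n, i ≠ j → i ≠ k → j ≠ k → ∀ s t : F, ⁅X i j s, X j k t⁆ = X i k (s * t)) :
    ∃ Ψ : Matrix.SpecialLinearGroup (Fin n) F →* G, ∀ i j, i ≠ j → ∀ t : F, Ψ (rx i j t) = X i j t := by
  obtain ⟨e, he⟩ := Cfsg.Agent.S2401.result (K := F) n hn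
  let f : {ij : Fin n × Fin n // ij.1 ≠ ij.2} × F → G := fun q => X q.1.1.1 q.1.1.2 q.2
  refine ⟨(PresentedGroup.toGroup (f := f) (h := ?hh)).comp e.symm.toMonoidHom, fun i j hij t => ?_⟩
  case hh =>
    rintro g ((⟨a, t, u, rfl⟩ | ⟨a, b, t, u, h1, h2, rfl⟩) | ⟨a, b, h, t, u, h2, rfl⟩)
    · simp only [map_mul, map_inv, FreeGroup.lift_apply_of, f, mul_inv_eq_one]
      exact (hadd _ _ a.2 t u).symm
    · simp only [map_mul, map_inv, FreeGroup.lift_apply_of, f]
      exact commutatorElement_eq_one_iff_commute.mpr (hcomm _ _ _ _ a.2 b.2 h2 h1 t u)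
    · simp only [map_mul, map_inv, FreeGroup.lift_apply_of, f, mul_inv_eq_one]
      have hb' := b.2
      rw [← h2] at hb' ⊢
      exact hbr _ _ _ a.2 h hb' t u
  · have e1 : e.symm (rx i j t) = PresentedGroup.of (⟨(i, j), hij⟩, t) := by
      rw [MulEquiv.symm_apply_eq]
      apply Subtype.ext
      rw [he, rx_coe hij, Matrix.transvection]
    rw [MonoidHom.comp_apply, MulEquiv.coe_toMonoidHom, e1]
    exact PresentedGroup.toGroup.of (h := _)

namespace Base

variable {m : ℕ} {B : Base G m} (R : B.Rels)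

omit R in
theorem cj_eq_v (i : ℕ) : cj B.u B.h i = B.v 0 1 (i : ℤ) := by
  rw [cj, v, uu_zero_one, hh_zero_one, zpow_natCast]

include R

theorem exists_roots [Fintype F] {p : ℕ} [Fact p.Prime] [Algebra (ZMod p) F] {b : F}
    (hb : Function.Surjective (Polynomial.aeval (R := ZMod p) b)) (hp : B.u ^ p = 1)
    (hm : wd B.u B.h (minpoly (ZMod p) b) = 1) :
    ∃ X : Fin (m + 4) → Fin (m + 4) → F → G,
      (∀ i j, i ≠ j → ∀ s t : F, X i j (s + t) = X i j s * X i j t) ∧
      (∀ i j, i ≠ j → ∀ a : ℕ, X i j (b ^ a) = B.v i j a) ∧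
      (∀ (σ : alternatingGroup (Fin (m + 4))) (i j), i ≠ j → ∀ t : F,
        B.θ σ * X i j t * (B.θ σ)⁻¹ = X ((σ : Perm (Fin (m + 4))) i) ((σ : Perm (Fin (m + 4))) j) t) ∧
      (∀ i j k l : Fin (m + 4), i ≠ j → k ≠ l → j ≠ k → i ≠ l → ∀ s t : F,
        Commute (X i j s) (X k l t)) ∧
      (∀ i j k : Fin (m + 4), i ≠ j → i ≠ k → j ≠ k → ∀ s t : F, ⁅X i j s, X j k t⁆ = X i k (s * t)) := by
  let S : Set G := Set.range (B.v 0 1)
  have hv : B.v 0 1 0 = B.u := by rw [v_zero, uu_zero_one]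
  have hmv : ∀ a, B.h * B.v 0 1 a * B.h⁻¹ = B.v 0 1 (a + 1) := fun a => by
    have := B.mv_self 0 1 1 a
    rwa [zpow_one, hh_zero_one] at this
  have hcS : ∀ x ∈ S, ∀ y ∈ S, x * y = y * x := by
    rintro _ ⟨a, rfl⟩ _ ⟨c, rfl⟩
    exact self_v R ne01 a c
  obtain ⟨φ, H⟩ := exists_isPhi (p := p) b hb B.u B.h (Subgroup.closure S) (closure_comm hcS)
    (closure_pow_eq_one hcS (by
      rintro _ ⟨a, rfl⟩
      rw [v, conj_pow, uu_zero_one, hp]
      group))
    (Subgroup.subset_closure ⟨0, hv⟩)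
    (closure_conj_mem B.h (by
      rintro _ ⟨a, rfl⟩
      exact Subgroup.subset_closure ⟨a + 1, (hmv a).symm⟩)) hm
  have hφ : ∀ a : ℕ, φ (b ^ a) = B.v 0 1 a := fun a => by rw [← cj_eq_v, H.cj_eq]
  have hst : ∀ σ : alternatingGroup (Fin (m + 4)), (σ : Perm (Fin (m + 4))) 0 = 0 →
      (σ : Perm (Fin (m + 4))) 1 = 1 → ∀ t, Commute (B.θ σ) (φ t) := by
    intro σ h0 h1 t
    induction t using ind_b (p := p) hb with
    | h0 => rw [H.zero]; exact Commute.one_right _
    | hadd s t hs ht => rw [H.add]; exact hs.mul_right ht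
    | hpow a =>
      rw [hφ, v, uu_zero_one, hh_zero_one]
      have := (B.stab_h σ h0 h1).zpow_right (a : ℤ)
      exact (this.mul_right (B.stab_u σ h0 h1)).mul_right this.inv_right
  let X : Fin (m + 4) → Fin (m + 4) → F → G :=
    fun i j t => B.θ (pick i j) * φ t * (B.θ (pick i j))⁻¹
  have Xadd : ∀ i j, ∀ s t : F, X i j (s + t) = X i j s * X i j t := fun i j s t => by
    simp only [X, H.add]; group
  have Xzero : ∀ i j, X i j 0 = 1 := fun i j => by simp only [X, H.zero]; group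
  have Xpow : ∀ i j, i ≠ j → ∀ a : ℕ, X i j (b ^ a) = B.v i j a := fun i j hij a => by
    obtain ⟨p0, p1⟩ := pick_spec hij
    simp only [X, hφ]
    rw [B.conj_v _ ne01, p0, p1]
  have Xcomm : ∀ i j k l : Fin (m + 4), i ≠ j → k ≠ l → j ≠ k → i ≠ l → ∀ s t : F,
      Commute (X i j s) (X k l t) := by
    intro i j k l hij hkl hjk hil s t
    induction s using ind_b (p := p) hb with
    | h0 => rw [Xzero]; exact Commute.one_left _
    | hadd s s' hs hs' => rw [Xadd]; exact hs.mul_left hs'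
    | hpow a =>
      induction t using ind_b (p := p) hb with
      | h0 => rw [Xzero]; exact Commute.one_right _
      | hadd t t' ht ht' => rw [Xadd]; exact ht.mul_right ht'
      | hpow c =>
        rw [Xpow i j hij, Xpow k l hkl]
        by_cases hik : i = k
        · subst hik
          by_cases hjl : j = l
          · subst hjl; exact self_v R hij _ _
          · exact rowc_v R hij hil hjl _ _
        · by_cases hjl : j = l
          · subst hjl; exact colc_v R hij hik hjk _ _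
          · exact disc_v R hij hik hil hjk hjl hkl _ _
  refine ⟨X, fun i j _ => Xadd i j, Xpow, fun σ i j hij t => B.conj_pick
    (fun σ h0 h1 => hst σ h0 h1 t) σ hij, Xcomm, ?_⟩
  intro i j k hij hik hjk s t
  induction s using ind_b (p := p) hb with
  | h0 => rw [zero_mul, Xzero, Xzero, commutatorElement_one_left]
  | hadd s s' hs hs' =>
    rw [Xadd, add_mul, Xadd]
    have e : ⁅X i j s * X i j s', X j k t⁆ = X i j s * ⁅X i j s', X j k t⁆ * (X i j s)⁻¹ * ⁅X i j s, X j k t⁆ := by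
      simp only [commutatorElement_def]; group
    rw [e, hs, hs', (Xcomm i j i k hij hik hij.symm hik s (s' * t)).eq, mul_inv_cancel_right]
    exact (Xcomm i k i k hik hik hik.symm hik (s' * t) (s * t)).eq
  | hpow a =>
    induction t using ind_b (p := p) hb with
    | h0 => rw [mul_zero, Xzero, Xzero, commutatorElement_one_right]
    | hadd t t' ht ht' =>
      rw [Xadd, mul_add, Xadd]
      have e : ⁅X i j (b ^ a), X j k t * X j k t'⁆ = ⁅X i j (b ^ a), X j k t⁆ *
          (X j k t * ⁅X i j (b ^ a), X j k t'⁆ * (X j k t)⁻¹) := by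
        simp only [commutatorElement_def]; group
      rw [e, ht, ht', (Xcomm j k i k hjk hik hik.symm hjk t _).eq, mul_inv_cancel_right]
    | hpow c =>
      rw [← pow_add, Xpow i j hij, Xpow j k hjk, Xpow i k hik, adj_v R hij hik hjk]
      push_cast
      rfl

theorem bijective_of_rels [Fintype F] {p : ℕ} [Fact p.Prime] [Algebra (ZMod p) F] {b : F}
    (hb : Function.Surjective (Polynomial.aeval (R := ZMod p) b)) (hp : B.u ^ p = 1)
    (hm : wd B.u B.h (minpoly (ZMod p) b) = 1)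
    (hgen : Subgroup.closure (Set.range B.θ ∪ {B.u, B.h}) = ⊤)
    (f : G →* Matrix.SpecialLinearGroup (Fin (m + 4)) F)
    (hf : ∀ i j, i ≠ j → ∀ a : ℕ, f (B.v i j a) = rx i j (b ^ a))
    (hw : B.h * B.θ tau ∈ Subgroup.closure
      {x | ∃ (i j : Fin (m + 4)) (a : ℕ), i ≠ j ∧ x = B.v i j a}) :
    Function.Bijective f := by
  obtain ⟨X, Xadd, Xpow, Xconj, Xcomm, Xbr⟩ := exists_roots R hb hp hm
  have hsv : B.θ s0 * B.h * (B.θ s0)⁻¹ = B.h⁻¹ := by
    rw [← hh_zero_one, B.conj_hh s0 ne01, s0_apply.1, s0_apply.2, R.hinv]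
  obtain ⟨Ψ, hΨ⟩ := steinberg_hom (n := m + 4) (by omega) X Xadd Xcomm Xbr
  have hX0 : ∀ i j, i ≠ j → X i j 0 = 1 := fun i j hij => by
    simpa using Xadd i j hij 0 0
  have hfX : ∀ i j, i ≠ j → ∀ t : F, f (X i j t) = rx i j t := by
    intro i j hij t
    induction t using ind_b (p := p) hb with
    | h0 => rw [hX0 i j hij, map_one, rx_zero]
    | hadd s t hs ht => rw [Xadd i j hij, map_mul, hs, ht, rx_add]
    | hpow a => rw [Xpow i j hij, hf i j hij]
  have hid : ∀ y, f (Ψ y) = y := by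
    have htop := Cfsg.Agent.H1.SL_eq_top_of_transvection_mem (MonoidHom.eqLocus (f.comp Ψ) (MonoidHom.id _))
      (fun i j hij c => by
        rw [← rx_of_ne hij]
        show f (Ψ (rx i j c)) = rx i j c
        rw [hΨ i j hij, hfX i j hij])
    intro y
    exact (show y ∈ MonoidHom.eqLocus (f.comp Ψ) (MonoidHom.id _) by rw [htop]; trivial)
  -- the image is normal
  have hθ : ∀ σ, B.θ σ ∈ Subgroup.normalizer (Ψ.range : Set G) := by
    have key : ∀ σ : alternatingGroup (Fin (m + 4)), ∀ x ∈ Ψ.range, B.θ σ * x * (B.θ σ)⁻¹ ∈ Ψ.range := by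
      rintro σ _ ⟨y, rfl⟩
      have htop := Cfsg.Agent.H1.SL_eq_top_of_transvection_mem
        ((Ψ.range.comap (MulAut.conj (B.θ σ)).toMonoidHom).comap Ψ) (fun i j hij c => by
          rw [← rx_of_ne hij]
          show B.θ σ * Ψ (rx i j c) * (B.θ σ)⁻¹ ∈ Ψ.range
          rw [hΨ i j hij, Xconj σ i j hij]
          exact ⟨_, hΨ _ _ ((σ : Perm (Fin (m + 4))).injective.ne hij) _⟩)
      exact (show y ∈ (Ψ.range.comap (MulAut.conj (B.θ σ)).toMonoidHom).comap Ψ by rw [htop]; trivial)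
    intro σ
    rw [Subgroup.mem_normalizer_iff]
    intro x
    refine ⟨key σ x, fun hx => ?_⟩
    have := key σ⁻¹ _ hx
    rw [map_inv, show (B.θ σ)⁻¹ * (B.θ σ * x * (B.θ σ)⁻¹) * (B.θ σ)⁻¹⁻¹ = x by group] at this
    exact this
  have hwN : B.h * B.θ tau ∈ Ψ.range := by
    refine (Subgroup.closure_le _).2 ?_ hw
    rintro _ ⟨i, j, a, hij, rfl⟩
    exact ⟨rx i j (b ^ a), by rw [hΨ i j hij, Xpow i j hij]⟩
  have hu : B.u ∈ Ψ.range := ⟨rx 0 1 (b ^ 0), by
    rw [hΨ 0 1 ne01, Xpow 0 1 ne01, Nat.cast_zero, v_zero, uu_zero_one]⟩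
  have hnorm : Subgroup.normalizer (Ψ.range : Set G) = ⊤ := by
    rw [eq_top_iff, ← hgen, Subgroup.closure_le]
    rintro x (⟨σ, rfl⟩ | hx)
    · exact hθ σ
    · rcases hx with rfl | hx
      · exact Subgroup.le_normalizer hu
      · rw [Set.mem_singleton_iff.1 hx]
        have := mul_mem (Subgroup.le_normalizer hwN) (inv_mem (hθ tau))
        rwa [mul_inv_cancel_right] at this
  haveI : Ψ.range.Normal := Subgroup.normalizer_eq_top_iff.1 hnorm
  let q := QuotientGroup.mk' Ψ.range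
  have hq : q B.h * q (B.θ tau) = 1 := by
    rw [← map_mul]; exact (QuotientGroup.eq_one_iff _).2 hwN
  let K := (q.comp B.θ).ker
  have hc : s0 * tau * s0 * tau ∈ K := by
    show q (B.θ (s0 * tau * s0 * tau)) = 1
    have hs2 : (s0 (m := m))⁻¹ = s0 := by
      apply Subtype.ext
      show (swap (0 : Fin (m + 4)) 1 * swap 2 3)⁻¹ = swap 0 1 * swap 2 3
      have hd : Perm.Disjoint (swap (2 : Fin (m + 4)) 3) (swap 0 1) := by
        intro x
        by_cases h0 : x = 0
        · subst h0; left; exact swap23.1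
        by_cases h1 : x = 1
        · subst h1; left; exact swap23.2.1
        · right; exact swap_apply_of_ne_of_ne h0 h1
      rw [mul_inv_rev, swap_inv, swap_inv, hd.commute.eq]
    have e1 : q (B.θ s0) * q B.h * (q (B.θ s0))⁻¹ = (q B.h)⁻¹ := by
      rw [← map_inv q B.h, ← hsv, map_mul, map_mul, map_inv]
    have e2 : (q (B.θ s0))⁻¹ = q (B.θ s0) := by rw [← map_inv q, ← map_inv B.θ, hs2]
    rw [eq_inv_of_mul_eq_one_left hq] at e1
    simp only [map_mul]
    generalize q (B.θ s0) = s at *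
    generalize q (B.θ tau) = t at *
    rw [inv_inv] at e1
    calc s * t * s * t = (s * t⁻¹ * s⁻¹)⁻¹ * t := by
          conv_lhs => arg 1; arg 2; rw [← e2]
          group
      _ = 1 := by rw [e1, inv_mul_cancel]
  have hK : K = ⊤ := normal_eq_top K _ s0_tau hc
  have hall : ∀ x : G, x ∈ Ψ.range := by
    have hθN : ∀ σ, B.θ σ ∈ Ψ.range := fun σ => by
      have : σ ∈ K := hK ▸ Subgroup.mem_top σ
      exact (QuotientGroup.eq_one_iff _).1 this
    have hh : B.h ∈ Ψ.range := by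
      have := mul_mem hwN (inv_mem (hθN tau))
      rwa [mul_inv_cancel_right] at this
    intro x
    have hx : x ∈ Subgroup.closure (Set.range B.θ ∪ {B.u, B.h}) := hgen ▸ Subgroup.mem_top x
    refine (Subgroup.closure_le _).2 ?_ hx
    rintro y (⟨σ, rfl⟩ | rfl | rfl)
    exacts [hθN σ, hu, hh]
  refine ⟨fun x y hxy => ?_, fun y => ⟨Ψ y, hid y⟩⟩
  obtain ⟨x', rfl⟩ := hall x
  obtain ⟨y', rfl⟩ := hall y
  rw [hid, hid] at hxy
  rw [hxy]

end Base

end Cfsg.Agent.H81.SLnPres
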