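import Cfsg.Agent.H81.SLnPres.SL3Core
import Cfsg.Agent.H81.SLnPres.Image
import Cfsg.Agent.H64.SLCover.RankOne
import Cfsg.Agent.S2286

/-!
# A presentation of `SL₃(q)` with a generous number of relations
-/

set_option autoImplicit false
set_option maxHeartbeats 800000

namespace Cfsg.Agent.H81.SLnPres

open Equiv Cfsg.Agent.H81.SLPres Cfsg.Agent.H64.SLCover
open scoped commutatorElement MatrixGroups

/-- The three-cycle `i ↦ i + 1` of `Fin 3`. -/
def rot3 : alternatingGroup (Fin 3) := ⟨finRotate 3, Perm.mem_alternatingGroup.2 (by decide)⟩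

theorem rot3_apply (i : Fin 3) : (rot3 : Perm (Fin 3)) i = i + 1 := finRotate_succ_apply i

theorem sl3_pres {F : Type*} [Field F] [Fintype F] :
    ∃ rels : Finset (FreeGroup (Fin 3 ⊕ Unit)), rels.card ≤ 28 ∧
      Nonempty (PresentedGroup (↑rels : Set (FreeGroup (Fin 3 ⊕ Unit))) ≃*
        Matrix.SpecialLinearGroup (Fin 3) F) := by
  classical
  obtain ⟨p, hpF⟩ := CharP.exists F
  haveI : Fact p.Prime := ⟨CharP.char_is_prime F p⟩
  letI : Algebra (ZMod p) F := ZMod.algebra F p
  obtain ⟨a, ha0, hgen, hord⟩ := exists_gen (F := F)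
  let g : Fˣ := Units.mk0 a ha0
  have hb : Function.Surjective (Polynomial.aeval (R := ZMod p) ((g : F) ^ 2)) := gen_sq (p := p) a hord
  obtain ⟨⟨R2, hR2, ⟨e2⟩⟩, -, -⟩ := Cfsg.Agent.S2286.result (F := F)
  let m2 := PresentedGroup.mk (↑R2 : Set (FreeGroup (Fin 3)))
  let L : SL(2, F) → FreeGroup (Fin 3 ⊕ Unit) := fun y =>
    FreeGroup.map Sum.inl (Function.surjInv (PresentedGroup.mk_surjective (↑R2 : Set (FreeGroup (Fin 3))))
      (e2.symm y))
  let C : FreeGroup (Fin 3 ⊕ Unit) := FreeGroup.of (Sum.inr ())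
  let fE : Fin 3 → F → FreeGroup (Fin 3 ⊕ Unit) := fun k t => C ^ (k : ℕ) * L (H92.sx t) * (C ^ (k : ℕ))⁻¹
  let fN : Fin 3 → F → FreeGroup (Fin 3 ⊕ Unit) :=
    fun k t => C ^ (k : ℕ) * L (H92.sy (-t)) * (C ^ (k : ℕ))⁻¹
  let fX : Fin 3 → Fin 3 → F → FreeGroup (Fin 3 ⊕ Unit) := fun i j t => if j = i + 1 then fE i t else fN j t
  let fD : Fin 3 → FreeGroup (Fin 3 ⊕ Unit) :=
    fun k => C ^ (k : ℕ) * L (hm (g : F) g.ne_zero) * (C ^ (k : ℕ))⁻¹
  let P : SL(2, F) →* Matrix.SpecialLinearGroup (Fin 3) F := planeHom (show (0 : Fin 3) ≠ 1 by decide)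
  let f0 : Fin 3 ⊕ Unit → Matrix.SpecialLinearGroup (Fin 3) F :=
    Sum.elim (fun x => P (e2 (PresentedGroup.of x))) (fun _ => pHom rot3)
  let ψ := FreeGroup.lift f0
  have hψR : ∀ r : FreeGroup (Fin 3), ψ (FreeGroup.map Sum.inl r) = P (e2 (m2 r)) := fun r =>
    DFunLike.congr_fun (FreeGroup.ext_hom (ψ.comp (FreeGroup.map Sum.inl))
      ((P.comp e2.toMonoidHom).comp m2) fun x => by simp [ψ, f0]; rfl) r
  have hψL : ∀ y, ψ (L y) = P y := fun y => by
    rw [hψR]
    exact congrArg P ((congrArg e2 (Function.surjInv_eq _ _)).trans (e2.apply_symm_apply y))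
  have hψC : ψ C = pHom rot3 := by simp [ψ, C, f0]
  have hsx : ∀ t : F, P (H92.sx t) = rx 0 1 t := fun t => by
    rw [show H92.sx t = Cfsg.Agent.H64.SL2.upperU t from ?_, planeHom_upperU]
    apply Subtype.ext
    rw [Cfsg.Agent.H64.SL2.upperU_coe]
    rfl
  have hsy : ∀ t : F, P (H92.sy (-t)) = rx 1 0 t := fun t => by
    rw [show H92.sy (-t) = Matrix.SpecialLinearGroup.transvection (show (1 : Fin 2) ≠ 0 by decide) t from ?_,
      planeHom_transvection]
    · rfl
    apply Subtype.ext
    rw [Matrix.SpecialLinearGroup.transvection_coe]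
    ext i j
    fin_cases i <;> fin_cases j <;> simp [H92.sy]
  have hD : P (hm (g : F) g.ne_zero) = tor 0 1 g := by
    have e : hm (g : F) g.ne_zero = Cfsg.Agent.H64.SL2.diagU g := by
      apply H92.sl2_ext <;> simp [Cfsg.Agent.H64.SL2.diagU]
    rw [e]
    refine eq_of_monoAt' id (dd 0 1 g) (fun x => ?_) (tor_monoAt 0 1 g)
    have := planeHom_diagU_monoAt (show (0 : Fin 3) ≠ 1 by decide) g x
    have e : dd 0 1 g x = if x = 0 then (g : F) else if x = 1 then ((g⁻¹ : Fˣ) : F) else 1 := by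
      fin_cases x <;> simp [dd]
    rw [e]
    exact this
  have hshift : ∀ (k : Fin 3) (i : Fin 3), ((rot3 ^ (k : ℕ) : alternatingGroup (Fin 3)) : Perm (Fin 3)) i = i + k := by
    decide
  have hψE : ∀ k t, ψ (fE k t) = rx k (k + 1) t := fun k t => by
    simp only [fE, map_mul, map_inv, map_pow, hψC, hψL, hsx]
    rw [← map_pow pHom, pHom_rx, hshift, hshift, zero_add, add_comm 1 k]
  have hψN : ∀ k t, ψ (fN k t) = rx (k + 1) k t := fun k t => by
    simp only [fN, map_mul, map_inv, map_pow, hψC, hψL, hsy]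
    rw [← map_pow pHom, pHom_rx, hshift, hshift, zero_add, add_comm 1 k]
  have hψX : ∀ i j, i ≠ j → ∀ t, ψ (fX i j t) = rx i j t := fun i j hij t => by
    simp only [fX]
    split_ifs with h
    · rw [hψE, h]
    · have : j + 1 = i := by revert hij h; clear * - ; revert i j; decide
      rw [hψN, this]
  have hψD : ∀ k, ψ (fD k) = tor k (k + 1) g := fun k => by
    simp only [fD, map_mul, map_inv, map_pow, hψC, hψL, hD]
    rw [← map_pow pHom, pHom_tor, hshift, hshift, zero_add, add_comm 1 k]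
  let S0 := Subgroup.closure {x | ∃ (i j : Fin 3) (t : F), i ≠ j ∧ x = fX i j t}
  have hS0 : S0.map ψ = ⊤ := Cfsg.Agent.H1.SL_eq_top_of_transvection_mem _ fun i j hij t => by
    rw [← rx_of_ne hij]
    exact ⟨fX i j t, Subgroup.subset_closure ⟨i, j, t, hij, rfl⟩, hψX i j hij t⟩
  obtain ⟨w, hwS, hw⟩ : ∃ w ∈ S0, ψ w = pHom rot3 := by
    have : pHom rot3 ∈ S0.map ψ := by rw [hS0]; trivial
    exact this
  let mix : List (Fin 3 × Fin 3) := [(1, 2), (2, 0), (2, 1), (0, 2)]
  let actW : Fin 3 × Fin 3 → FreeGroup (Fin 3 ⊕ Unit) := fun ij =>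
    fD 0 * fX ij.1 ij.2 1 * (fD 0)⁻¹ * (fX ij.1 ij.2 ((g : F) ^ (Base3.ep 0 ij.1 - Base3.ep 0 ij.2)))⁻¹
  let rowW : ℕ → FreeGroup (Fin 3 ⊕ Unit) := fun r => ⁅fX 0 1 1, fX 0 2 ((g : F) ^ r)⁆
  let colW : ℕ → FreeGroup (Fin 3 ⊕ Unit) := fun r => ⁅fX 0 1 1, fX 2 1 ((g : F) ^ r)⁆
  let adjW : ℕ → FreeGroup (Fin 3 ⊕ Unit) :=
    fun r => ⁅fX 0 1 1, fX 1 2 ((g : F) ^ r)⁆ * (fX 0 2 ((g : F) ^ r))⁻¹
  let adjW' : ℕ → FreeGroup (Fin 3 ⊕ Unit) :=
    fun r => ⁅fX 1 0 1, fX 0 2 ((g : F) ^ r)⁆ * (fX 1 2 ((g : F) ^ r))⁻¹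
  let Ls : List (FreeGroup (Fin 3 ⊕ Unit)) :=
    R2.toList.map (FreeGroup.map Sum.inl) ++ [C ^ 3, ⁅fD 0, fD 1⁆, C * w⁻¹] ++ mix.map actW ++
      (List.range 3).map rowW ++ (List.range 3).map colW ++ (List.range 3).map adjW ++
      (List.range 3).map adjW'
  refine ⟨Ls.toFinset, (List.toFinset_card_le _).trans ?_, ?_⟩
  · simp only [Ls, mix, List.length_append, List.length_map, Finset.length_toList, List.length_cons,
      List.length_nil, List.length_range]
    omega
  have hrel : ∀ r ∈ (↑Ls.toFinset : Set (FreeGroup (Fin 3 ⊕ Unit))), ψ r = 1 := by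
    intro r hr
    simp only [Finset.mem_coe, List.mem_toFinset, Ls, List.mem_append, List.mem_map, List.mem_range] at hr
    rcases hr with (((((⟨x, hx, rfl⟩ | hx) | ⟨ij, hij, rfl⟩) | ⟨r, hr, rfl⟩) | ⟨r, hr, rfl⟩) | ⟨r, hr, rfl⟩) |
      ⟨r, hr, rfl⟩
    · rw [hψR, show m2 x = 1 from PresentedGroup.one_of_mem (Finset.mem_toList.1 hx), map_one, map_one]
    · simp only [List.mem_cons, List.not_mem_nil, or_false] at hx
      rcases hx with rfl | rfl | rfl
      · rw [map_pow, hψC, ← map_pow pHom, show (rot3 : alternatingGroup (Fin 3)) ^ 3 = 1 by decide, map_one]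
      · rw [map_commutatorElement, hψD, hψD]
        exact commutatorElement_eq_one_iff_commute.2 (tor_commute _ _ _ _ _ _)
      · rw [map_mul, map_inv, hψC, hw, mul_inv_cancel]
    · have hne : ij.1 ≠ ij.2 := by revert hij; revert ij; decide
      simp only [actW, map_mul, map_inv, hψD, hψX _ _ hne, tor_rx]
      rw [mul_inv_eq_one]
      congr 1
      simp only [mix, List.mem_cons, List.not_mem_nil, or_false] at hij
      rcases hij with rfl | rfl | rfl | rfl <;> simp [dd, Base3.ep]
    · simp only [rowW, map_commutatorElement, hψX _ _ (show (0 : Fin 3) ≠ 1 by decide),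
        hψX _ _ (show (0 : Fin 3) ≠ 2 by decide)]
      exact commutatorElement_eq_one_iff_commute.2 (rx_commute (by decide) (by decide) _ _)
    · simp only [colW, map_commutatorElement, hψX _ _ (show (0 : Fin 3) ≠ 1 by decide),
        hψX _ _ (show (2 : Fin 3) ≠ 1 by decide)]
      exact commutatorElement_eq_one_iff_commute.2 (rx_commute (by decide) (by decide) _ _)
    · simp only [adjW, map_mul, map_inv, map_commutatorElement, hψX _ _ (show (0 : Fin 3) ≠ 1 by decide),
        hψX _ _ (show (1 : Fin 3) ≠ 2 by decide), hψX _ _ (show (0 : Fin 3) ≠ 2 by decide)]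
      rw [rx_bracket (by decide) (by decide) (by decide), one_mul, mul_inv_cancel]
    · simp only [adjW', map_mul, map_inv, map_commutatorElement, hψX _ _ (show (1 : Fin 3) ≠ 0 by decide),
        hψX _ _ (show (1 : Fin 3) ≠ 2 by decide), hψX _ _ (show (0 : Fin 3) ≠ 2 by decide)]
      rw [rx_bracket (by decide) (by decide) (by decide), one_mul, mul_inv_cancel]
  let f := PresentedGroup.toGroup hrel
  let q := PresentedGroup.mk (↑Ls.toFinset : Set (FreeGroup (Fin 3 ⊕ Unit)))
  have hone : ∀ r ∈ Ls, q r = 1 := fun r hr =>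
    PresentedGroup.one_of_mem (Finset.mem_coe.2 (List.mem_toFinset.2 hr))
  let k0 : Fin 3 → PresentedGroup (↑Ls.toFinset : Set (FreeGroup (Fin 3 ⊕ Unit))) :=
    fun x => PresentedGroup.of (Sum.inl x)
  have hk0 : ∀ r : FreeGroup (Fin 3), FreeGroup.lift k0 r = q (FreeGroup.map Sum.inl r) := fun r =>
    DFunLike.congr_fun (FreeGroup.ext_hom (FreeGroup.lift k0) (q.comp (FreeGroup.map Sum.inl))
      fun x => by simp [k0]; rfl) r
  let Φ0 : PresentedGroup (↑R2 : Set (FreeGroup (Fin 3))) →* PresentedGroup (↑Ls.toFinset : Set (FreeGroup (Fin 3 ⊕ Unit))) :=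
    PresentedGroup.toGroup (f := k0) fun r hr => by
      rw [hk0]
      exact hone _ (by
        simp only [Ls, List.mem_append, List.mem_map]
        exact Or.inl (Or.inl (Or.inl (Or.inl (Or.inl (Or.inl ⟨r, Finset.mem_toList.2 (Finset.mem_coe.1 hr), rfl⟩))))))
  let B : Base3 (PresentedGroup (↑Ls.toFinset : Set (FreeGroup (Fin 3 ⊕ Unit)))) F :=
    ⟨Φ0.comp e2.symm.toMonoidHom, q C, g⟩
  have hΦ : ∀ y, B.Φ y = q (L y) := fun y => by
    show Φ0 (e2.symm y) = _
    conv_lhs => rw [← Function.surjInv_eq (PresentedGroup.mk_surjective (↑R2 : Set (FreeGroup (Fin 3)))) (e2.symm y)]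
    exact hk0 _
  have hX : ∀ i j t, q (fX i j t) = B.X i j t := fun i j t => by
    simp only [fX, Base3.X]
    split_ifs
    · simp only [fE, Base3.E, map_mul, map_inv, map_pow, hΦ]
      rfl
    · simp only [fN, Base3.N, map_mul, map_inv, map_pow, hΦ]
      rfl
  have hDq : ∀ k, q (fD k) = B.D k := fun k => by
    simp only [fD, Base3.D, map_mul, map_inv, map_pow, hΦ]
    rfl
  have R : B.Rels :=
    { cube := by
        show q C ^ 3 = 1
        rw [← map_pow]; exact hone _ (by simp [Ls])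
      dd := by
        rw [← hDq, ← hDq]
        refine commutatorElement_eq_one_iff_commute.1 ?_
        rw [← map_commutatorElement]; exact hone _ (by simp [Ls])
      act := fun i j hij h2 => by
        have hm : (i, j) ∈ mix := by
          simp only [Set.mem_insert_iff, Set.mem_singleton_iff] at h2
          simp only [mix, List.mem_cons, List.not_mem_nil, or_false, Prod.mk.injEq]
          revert hij h2; clear * - ; revert i j; decide
        have e : q (actW (i, j)) = 1 := hone _ (by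
          simp only [Ls, List.mem_append, List.mem_map]
          exact Or.inl (Or.inl (Or.inl (Or.inl (Or.inr ⟨_, hm, rfl⟩)))))
        simp only [actW, map_mul, map_inv, hX, hDq, mul_inv_eq_one] at e
        exact e
      row := fun r hr => by
        have e : q (rowW r) = 1 := hone _ (by
          simp only [Ls, List.mem_append, List.mem_map, List.mem_range]
          exact Or.inl (Or.inl (Or.inl (Or.inr ⟨r, hr, rfl⟩))))
        simp only [rowW, map_commutatorElement, hX] at e
        exact commutatorElement_eq_one_iff_commute.1 e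
      col := fun r hr => by
        have e : q (colW r) = 1 := hone _ (by
          simp only [Ls, List.mem_append, List.mem_map, List.mem_range]
          exact Or.inl (Or.inl (Or.inr ⟨r, hr, rfl⟩)))
        simp only [colW, map_commutatorElement, hX] at e
        exact commutatorElement_eq_one_iff_commute.1 e
      adj := fun r hr => by
        have e : q (adjW r) = 1 := hone _ (by
          simp only [Ls, List.mem_append, List.mem_map, List.mem_range]
          exact Or.inl (Or.inr ⟨r, hr, rfl⟩))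
        simp only [adjW, map_mul, map_inv, map_commutatorElement, hX, mul_inv_eq_one] at e
        exact e
      adj' := fun r hr => by
        have e : q (adjW' r) = 1 := hone _ (by
          simp only [Ls, List.mem_append, List.mem_map, List.mem_range]
          exact Or.inr ⟨r, hr, rfl⟩)
        simp only [adjW', map_mul, map_inv, map_commutatorElement, hX, mul_inv_eq_one] at e
        exact e }
  refine ⟨MulEquiv.ofBijective f (Base3.bijective_of_rels R (p := p) hb ?_ ?_ ?_ f ?_)⟩
  · intro t ht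
    obtain ⟨l, hl⟩ := hgen t ht
    exact ⟨l, hl⟩
  · rw [eq_top_iff, ← PresentedGroup.closure_range_of, Subgroup.closure_le]
    rintro _ ⟨x | x, rfl⟩
    · refine Subgroup.subset_closure (Or.inl ⟨e2 (PresentedGroup.of x), ?_⟩)
      show Φ0 (e2.symm (e2 (PresentedGroup.of x))) = _
      rw [e2.symm_apply_apply]
      exact PresentedGroup.toGroup.of (h := _)
    · exact Subgroup.subset_closure (Or.inr rfl)
  · show q C ∈ _
    have e : q C = q w := by
      have := hone (C * w⁻¹) (by simp [Ls])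
      rwa [map_mul, map_inv, mul_inv_eq_one] at this
    rw [e]
    have hle : S0.map q ≤ Subgroup.closure {x | ∃ (i j : Fin 3) (t : F), i ≠ j ∧ x = B.X i j t} := by
      rw [MonoidHom.map_closure]
      refine Subgroup.closure_mono ?_
      rintro _ ⟨_, ⟨i, j, t, hij, rfl⟩, rfl⟩
      exact ⟨i, j, t, hij, hX i j t⟩
    exact hle (Subgroup.mem_map_of_mem q hwS)
  · intro i j hij t
    rw [← hX]
    exact hψX i j hij t

end Cfsg.Agent.H81.SLnPres
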