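import Cfsg.Agent.H81.SLnPres.Roots
import Cfsg.Agent.H81.SLPresField

/-!
# Steinberg relations of `SL₃` from a copy of `SL₂` and a three-cycle
-/

set_option autoImplicit false

namespace Cfsg.Agent.H81.SLnPres

open Cfsg.Agent.H81.SLPres
open scoped commutatorElement MatrixGroups

/-- A copy of `SL₂` and an element `c`. -/
structure Base3 (G : Type*) [Group G] (F : Type*) [Field F] where
  /-- the copy of `SL₂` -/
  Φ : SL(2, F) →* G
  /-- the three-cycle -/
  c : G
  /-- the generator of the torus -/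
  g : Fˣ

namespace Base3

variable {G : Type*} [Group G] {F : Type*} [Field F] (B : Base3 G F)

/-- The torus elements. -/
noncomputable def D (k : Fin 3) : G :=
  B.c ^ (k : ℕ) * B.Φ (hm (B.g : F) B.g.ne_zero) * (B.c ^ (k : ℕ))⁻¹

/-- The positive cyclic roots. -/
noncomputable def E (k : Fin 3) (t : F) : G :=
  B.c ^ (k : ℕ) * B.Φ (H92.sx t) * (B.c ^ (k : ℕ))⁻¹

/-- The negative cyclic roots. -/
noncomputable def N (k : Fin 3) (t : F) : G :=
  B.c ^ (k : ℕ) * B.Φ (H92.sy (-t)) * (B.c ^ (k : ℕ))⁻¹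

/-- The root elements. -/
noncomputable def X (i j : Fin 3) (t : F) : G := if j = i + 1 then B.E i t else B.N j t

/-- The exponent of the `k`-th torus element at a coordinate. -/
def ep (k i : Fin 3) : ℤ := if i = k then 1 else if i = k + 1 then -1 else 0

/-- The relations on the torus. -/
structure Tor : Prop where
  cube : B.c ^ 3 = 1
  dd : Commute (B.D 0) (B.D 1)
  act : ∀ i j : Fin 3, i ≠ j → 2 ∈ ({i, j} : Set (Fin 3)) →
    B.D 0 * B.X i j 1 * (B.D 0)⁻¹ = B.X i j ((B.g : F) ^ (ep 0 i - ep 0 j))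

/-- The relations. -/
structure Rels : Prop extends Tor B where
  row : ∀ r : ℕ, r < 3 → Commute (B.X 0 1 1) (B.X 0 2 ((B.g : F) ^ r))
  col : ∀ r : ℕ, r < 3 → Commute (B.X 0 1 1) (B.X 2 1 ((B.g : F) ^ r))
  adj : ∀ r : ℕ, r < 3 → ⁅B.X 0 1 1, B.X 1 2 ((B.g : F) ^ r)⁆ = B.X 0 2 ((B.g : F) ^ r)
  adj' : ∀ r : ℕ, r < 3 → ⁅B.X 1 0 1, B.X 0 2 ((B.g : F) ^ r)⁆ = B.X 1 2 ((B.g : F) ^ r)

theorem X_add (i j : Fin 3) (s t : F) : B.X i j (s + t) = B.X i j s * B.X i j t := by
  simp only [X]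
  split_ifs
  · simp only [E, H92.sx_add, map_mul]; group
  · simp only [N, neg_add, H92.sy_add, map_mul]; group

theorem X_zero (i j : Fin 3) : B.X i j 0 = 1 := by
  simp [X, E, N]

variable {B} (R : B.Tor)

include R

theorem cpow_succ (k : Fin 3) : B.c * B.c ^ (k : ℕ) = B.c ^ ((k + 1 : Fin 3) : ℕ) := by
  fin_cases k
  · simp
  · show B.c * B.c ^ 1 = B.c ^ 2
    rw [← pow_succ']
  · show B.c * B.c ^ 2 = B.c ^ 0
    rw [← pow_succ', R.cube, pow_zero]

theorem conjc (y : G) (k : Fin 3) : B.c * (B.c ^ (k : ℕ) * y * (B.c ^ (k : ℕ))⁻¹) * B.c⁻¹ =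
    B.c ^ ((k + 1 : Fin 3) : ℕ) * y * (B.c ^ ((k + 1 : Fin 3) : ℕ))⁻¹ := by
  rw [← cpow_succ R k]; group

theorem conjD (k : Fin 3) : B.c * B.D k * B.c⁻¹ = B.D (k + 1) := conjc R _ k

theorem conjX {i j : Fin 3} (t : F) : B.c * B.X i j t * B.c⁻¹ = B.X (i + 1) (j + 1) t := by
  simp only [X, add_left_inj]
  split_ifs
  · exact conjc R _ i
  · exact conjc R _ j

theorem D_commute (k l : Fin 3) : Commute (B.D k) (B.D l) := by
  have h01 := R.dd
  have h12 : Commute (B.D 1) (B.D 2) := by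
    have := conj_commute (g := B.c) h01
    rwa [conjD R 0, conjD R 1] at this
  have h20 : Commute (B.D 2) (B.D 0) := by
    have := conj_commute (g := B.c) h12
    rwa [conjD R 1, conjD R 2] at this
  fin_cases k <;> fin_cases l
  exacts [Commute.refl _, h01, h20.symm, h01.symm, Commute.refl _, h12, h20, h12.symm, Commute.refl _]

omit R in
theorem own_pos (t : F) : B.D 0 * B.X 0 1 t * (B.D 0)⁻¹ = B.X 0 1 ((B.g : F) ^ 2 * t) := by
  have h := (img_phi (B.g : F) B.g.ne_zero).conj t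
  simp only [D, X, zero_add, if_true, E, Fin.val_zero, pow_zero, one_mul, inv_one, mul_one]
  rw [← h, map_mul, map_mul, map_inv]

omit R in
theorem own_neg (t : F) : B.D 0 * B.X 1 0 t * (B.D 0)⁻¹ = B.X 1 0 ((B.g : F) ^ (-2 : ℤ) * t) := by
  have h : hm (B.g : F) B.g.ne_zero * H92.sy (-t) * (hm (B.g : F) B.g.ne_zero)⁻¹ =
      H92.sy (-((B.g : F) ^ (-2 : ℤ) * t)) := by
    rw [mul_inv_eq_iff_eq_mul]
    have := B.g.ne_zero
    apply H92.sl2_ext <;> simp [H92.sl2_mul_apply, zpow_neg, zpow_two] <;> field_simp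
  simp only [D, X, show ¬ ((0 : Fin 3) = 1 + 1) by decide, if_false, N, Fin.val_zero, pow_zero, one_mul,
    inv_one, mul_one]
  rw [← h, map_mul, map_mul, map_inv]

theorem ep_shift (k i : Fin 3) : ep (k + 1) (i + 1) = ep k i := by
  revert k i; decide

theorem act_shift {k i j : Fin 3}
    (h : ∀ t, B.D k * B.X i j t * (B.D k)⁻¹ = B.X i j ((B.g : F) ^ (ep k i - ep k j) * t)) (t : F) :
    B.D (k + 1) * B.X (i + 1) (j + 1) t * (B.D (k + 1))⁻¹ =
      B.X (i + 1) (j + 1) ((B.g : F) ^ (ep (k + 1) (i + 1) - ep (k + 1) (j + 1)) * t) := by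
  rw [ep_shift R, ep_shift R, ← conjX R, ← conjX R, ← h, ← conjD R k]
  group

/-- The own torus element of a root. -/
theorem own_all (k : Fin 3) (t : F) :
    B.D k * B.X k (k + 1) t * (B.D k)⁻¹ = B.X k (k + 1) ((B.g : F) ^ (2 : ℤ) * t) ∧
    B.D k * B.X (k + 1) k t * (B.D k)⁻¹ = B.X (k + 1) k ((B.g : F) ^ (-2 : ℤ) * t) := by
  have base : ∀ t, B.D 0 * B.X 0 1 t * (B.D 0)⁻¹ = B.X 0 1 ((B.g : F) ^ (ep 0 0 - ep 0 1) * t) := fun t => by
    rw [own_pos, show ep 0 0 - ep 0 1 = ((2 : ℕ) : ℤ) from rfl, zpow_natCast]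
  have base' : ∀ t, B.D 0 * B.X 1 0 t * (B.D 0)⁻¹ = B.X 1 0 ((B.g : F) ^ (ep 0 1 - ep 0 0) * t) := fun t => by
    rw [own_neg]; rfl
  have s1 := act_shift R base
  have s1' := act_shift R base'
  have s2 := act_shift R s1
  have s2' := act_shift R s1'
  fin_cases k
  exacts [⟨base t, base' t⟩, ⟨s1 t, s1' t⟩, ⟨s2 t, s2' t⟩]

theorem own_pow (k : Fin 3) (a : ℕ) :
    B.D k ^ a * B.X k (k + 1) 1 * (B.D k ^ a)⁻¹ = B.X k (k + 1) (((B.g : F) ^ 2) ^ a) ∧
    (B.D k ^ a)⁻¹ * B.X (k + 1) k 1 * B.D k ^ a = B.X (k + 1) k (((B.g : F) ^ 2) ^ a) := by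
  induction a with
  | zero => simp
  | succ a ih =>
    constructor
    · rw [pow_succ' (B.D k), show ∀ x y z : G, x * y * z * (x * y)⁻¹ = x * (y * z * y⁻¹) * x⁻¹ from
        fun x y z => by group, ih.1, (own_all R k _).1, pow_succ' ((B.g : F) ^ 2), zpow_two, pow_two]
    · have e := (own_all R k (((B.g : F) ^ 2) ^ (a + 1))).2
      have hg : (B.g : F) ^ (-2 : ℤ) * ((B.g : F) ^ 2) ^ (a + 1) = ((B.g : F) ^ 2) ^ a := by
        rw [zpow_neg, zpow_two, pow_two, pow_succ', ← mul_assoc,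
          inv_mul_cancel₀ (mul_ne_zero B.g.ne_zero B.g.ne_zero), one_mul]
      rw [hg, ← ih.2] at e
      rw [pow_succ (B.D k), show ∀ x y z : G, (x * y)⁻¹ * z * (x * y) = y⁻¹ * (x⁻¹ * z * x) * y from
        fun x y z => by group, ← e]
      group

variable {p : ℕ} [Fact p.Prime] [Algebra (ZMod p) F]

theorem act_base (hb : Function.Surjective (Polynomial.aeval (R := ZMod p) ((B.g : F) ^ 2)))
    {i j : Fin 3} (hij : i ≠ j) (t : F) :
    B.D 0 * B.X i j t * (B.D 0)⁻¹ = B.X i j ((B.g : F) ^ (ep 0 i - ep 0 j) * t) := by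
  by_cases h2 : 2 ∈ ({i, j} : Set (Fin 3))
  · induction t using ind_b (p := p) hb with
    | h0 => rw [mul_zero, X_zero, mul_one, mul_inv_cancel]
    | hadd s t hs ht => rw [mul_add, X_add, X_add, ← hs, ← ht]; group
    | hpow a =>
      have hfix : ∀ z : G, Commute (B.D 0) z →
          B.X i j (((B.g : F) ^ 2) ^ a) = z * B.X i j 1 * z⁻¹ →
          z * B.X i j ((B.g : F) ^ (ep 0 i - ep 0 j)) * z⁻¹ =
            B.X i j ((B.g : F) ^ (ep 0 i - ep 0 j) * ((B.g : F) ^ 2) ^ a) →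
          B.D 0 * B.X i j (((B.g : F) ^ 2) ^ a) * (B.D 0)⁻¹ =
            B.X i j ((B.g : F) ^ (ep 0 i - ep 0 j) * ((B.g : F) ^ 2) ^ a) := by
        intro z hz e1 e2
        rw [e1, ← e2, ← R.act i j hij h2]
        calc B.D 0 * (z * B.X i j 1 * z⁻¹) * (B.D 0)⁻¹
            = (B.D 0 * z) * B.X i j 1 * (B.D 0 * z)⁻¹ := by group
          _ = _ := by rw [hz.eq]; group
      have hj : j = i + 1 ∨ i = j + 1 := by revert hij; clear * - ; revert i j; decide
      rcases hj with rfl | rfl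
      · refine hfix (B.D i ^ a) ((D_commute R 0 i).pow_right a) (own_pow R i a).1.symm ?_
        have key : ∀ s, B.D i ^ a * B.X i (i + 1) s * (B.D i ^ a)⁻¹ =
            B.X i (i + 1) (((B.g : F) ^ 2) ^ a * s) := by
          clear hfix
          intro s
          induction a generalizing s with
          | zero => simp
          | succ a ih =>
            rw [pow_succ' (B.D i), show ∀ x y z : G, x * y * z * (x * y)⁻¹ = x * (y * z * y⁻¹) * x⁻¹ from
              fun x y z => by group, ih, (own_all R i _).1, zpow_two, pow_succ' ((B.g : F) ^ 2), pow_two,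
              ← mul_assoc]
        rw [key, mul_comm]
      · refine hfix ((B.D j ^ a)⁻¹) ((D_commute R 0 j).pow_right a).inv_right
          (by rw [inv_inv]; exact (own_pow R j a).2.symm) ?_
        have key : ∀ s, (B.D j ^ a)⁻¹ * B.X (j + 1) j (s) * B.D j ^ a =
            B.X (j + 1) j (((B.g : F) ^ 2) ^ a * s) := by
          clear hfix
          intro s
          induction a generalizing s with
          | zero => simp
          | succ a ih =>
            have e := (own_all R j (((B.g : F) ^ 2) ^ (a + 1) * s)).2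
            have hg : (B.g : F) ^ (-2 : ℤ) * (((B.g : F) ^ 2) ^ (a + 1) * s) = ((B.g : F) ^ 2) ^ a * s := by
              rw [zpow_neg, zpow_two, pow_two, pow_succ', ← mul_assoc, ← mul_assoc,
                inv_mul_cancel₀ (mul_ne_zero B.g.ne_zero B.g.ne_zero), one_mul]
            rw [hg, ← ih] at e
            rw [pow_succ (B.D j), show ∀ x y z : G, (x * y)⁻¹ * z * (x * y) = y⁻¹ * (x⁻¹ * z * x) * y from
              fun x y z => by group, ← e]
            group
        rw [inv_inv, key, mul_comm]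
  · have hj : (i = 0 ∧ j = 1) ∨ (i = 1 ∧ j = 0) := by
      simp only [Set.mem_insert_iff, Set.mem_singleton_iff] at h2
      revert hij h2; clear * - ; revert i j; decide
    rcases hj with ⟨rfl, rfl⟩ | ⟨rfl, rfl⟩
    · rw [own_pos]; norm_num [ep, zpow_two, pow_two]
    · rw [own_neg]; norm_num [ep]

theorem act_all (hb : Function.Surjective (Polynomial.aeval (R := ZMod p) ((B.g : F) ^ 2)))
    (k : Fin 3) {i j : Fin 3} (hij : i ≠ j) (t : F) :
    B.D k * B.X i j t * (B.D k)⁻¹ = B.X i j ((B.g : F) ^ (ep k i - ep k j) * t) := by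
  have s0 : ∀ i j : Fin 3, i ≠ j → ∀ t,
      B.D 0 * B.X i j t * (B.D 0)⁻¹ = B.X i j ((B.g : F) ^ (ep 0 i - ep 0 j) * t) :=
    fun i j h t => act_base R hb h t
  have s1 : ∀ i j : Fin 3, i ≠ j → ∀ t,
      B.D 1 * B.X i j t * (B.D 1)⁻¹ = B.X i j ((B.g : F) ^ (ep 1 i - ep 1 j) * t) := by
    intro i j h t
    have := act_shift R (k := 0) (i := i - 1) (j := j - 1) (s0 _ _ (by simpa using h)) t
    simpa only [sub_add_cancel, zero_add] using this
  have s2 : ∀ i j : Fin 3, i ≠ j → ∀ t,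
      B.D 2 * B.X i j t * (B.D 2)⁻¹ = B.X i j ((B.g : F) ^ (ep 2 i - ep 2 j) * t) := by
    intro i j h t
    have := act_shift R (k := 1) (i := i - 1) (j := j - 1) (s1 _ _ (by simpa using h)) t
    simpa only [sub_add_cancel, show (1 : Fin 3) + 1 = 2 from rfl] using this
  fin_cases k
  exacts [s0 i j hij t, s1 i j hij t, s2 i j hij t]

theorem move (hb : Function.Surjective (Polynomial.aeval (R := ZMod p) ((B.g : F) ^ 2)))
    (n k : ℤ) {i j : Fin 3} (hij : i ≠ j) (z : ℤ) :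
    B.D 0 ^ n * B.D 1 ^ k * B.X i j ((B.g : F) ^ z) * (B.D 0 ^ n * B.D 1 ^ k)⁻¹ =
      B.X i j ((B.g : F) ^ (z + k * (ep 1 i - ep 1 j) + n * (ep 0 i - ep 0 j))) := by
  have one : ∀ (l : Fin 3) (n z : ℤ), B.D l ^ n * B.X i j ((B.g : F) ^ z) * (B.D l ^ n)⁻¹ =
      B.X i j ((B.g : F) ^ (z + n * (ep l i - ep l j))) := by
    intro l n z
    set d := ep l i - ep l j
    induction n using Int.induction_on generalizing z with
    | zero => simp
    | succ n ih =>
      rw [zpow_add_one, show z + (↑n + 1) * d = (d + z) + ↑n * d by ring, ← ih, zpow_add₀ B.g.ne_zero,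
        ← act_all R hb l hij]
      group
    | pred n ih =>
      have e := act_all R hb l hij ((B.g : F) ^ (-d + z))
      rw [← zpow_add₀ B.g.ne_zero, show d + (-d + z) = z by ring] at e
      rw [zpow_sub_one, show z + (-↑n - 1) * d = (-d + z) + -↑n * d by ring, ← ih, ← e]
      group
  rw [show ∀ x y w : G, x * y * w * (x * y)⁻¹ = x * (y * w * y⁻¹) * x⁻¹ from fun x y w => by group,
    one, one]

theorem adj_gen (hb : Function.Surjective (Polynomial.aeval (R := ZMod p) ((B.g : F) ^ 2))) (hadj : ∀ r : ℕ, r < 3 → ⁅B.X 0 1 1, B.X 1 2 ((B.g : F) ^ r)⁆ = B.X 0 2 ((B.g : F) ^ r)) (a b : ℤ) :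
    ⁅B.X 0 1 ((B.g : F) ^ a), B.X 1 2 ((B.g : F) ^ b)⁆ = B.X 0 2 ((B.g : F) ^ (a + b)) := by
  obtain ⟨r, hr, n, k, ha, hb'⟩ : ∃ (r : ℕ), r < 3 ∧ ∃ n k : ℤ, a = 2 * n - k ∧ b = r - n + 2 * k :=
    ⟨((2 * a + b) % 3).toNat, by omega, (2 * a + b) / 3, 2 * ((2 * a + b) / 3) - a, by omega, by omega⟩
  have e1 := move R hb n k (i := 0) (j := 1) (by decide) 0
  have e2 := move R hb n k (i := 1) (j := 2) (by decide) r
  have e3 := move R hb n k (i := 0) (j := 2) (by decide) r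
  have h := congrArg (fun z => B.D 0 ^ n * B.D 1 ^ k * z * (B.D 0 ^ n * B.D 1 ^ k)⁻¹) (hadj r hr)
  simp only [Base.conj_bracket] at h
  rw [show (1 : F) = (B.g : F) ^ (0 : ℤ) from (zpow_zero _).symm, ← zpow_natCast, e1, e2, e3] at h
  have l1 : (0 : ℤ) + k * (ep 1 0 - ep 1 1) + n * (ep 0 0 - ep 0 1) = a := by simp [ep]; omega
  have l2 : (r : ℤ) + k * (ep 1 1 - ep 1 2) + n * (ep 0 1 - ep 0 2) = b := by simp [ep]; omega
  have l3 : (r : ℤ) + k * (ep 1 0 - ep 1 2) + n * (ep 0 0 - ep 0 2) = a + b := by simp [ep]; omega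
  rw [l1, l2, l3] at h
  exact h

end Base3

namespace Base3

section

variable {G : Type*} [Group G] {F : Type*} [Field F] {B : Base3 G F} (R : B.Rels)

include R

variable {p : ℕ} [Fact p.Prime] [Algebra (ZMod p) F]

theorem row_all (hb : Function.Surjective (Polynomial.aeval (R := ZMod p) ((B.g : F) ^ 2))) (a b : ℤ) :
    Commute (B.X 0 1 ((B.g : F) ^ a)) (B.X 0 2 ((B.g : F) ^ b)) := by
  obtain ⟨r, hr, n, k, ha, hb'⟩ : ∃ (r : ℕ), r < 3 ∧ ∃ n k : ℤ, a = 2 * n - k ∧ b = r + n + k :=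
    ⟨((a + b) % 3).toNat, by omega, (a + b) / 3, 2 * ((a + b) / 3) - a, by omega, by omega⟩
  have e1 := move R.toTor hb n k (i := 0) (j := 1) (by decide) 0
  have e2 := move R.toTor hb n k (i := 0) (j := 2) (by decide) r
  have h := conj_commute (g := B.D 0 ^ n * B.D 1 ^ k) (R.row r hr)
  rw [show (1 : F) = (B.g : F) ^ (0 : ℤ) from (zpow_zero _).symm, ← zpow_natCast, e1, e2] at h
  simp only [ep] at h
  convert h using 4 <;> simp <;> omega

theorem col_all (hb : Function.Surjective (Polynomial.aeval (R := ZMod p) ((B.g : F) ^ 2))) (a b : ℤ) :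
    Commute (B.X 0 1 ((B.g : F) ^ a)) (B.X 2 1 ((B.g : F) ^ b)) := by
  obtain ⟨r, hr, n, k, ha, hb'⟩ : ∃ (r : ℕ), r < 3 ∧ ∃ n k : ℤ, a = 2 * n - k ∧ b = r + n - 2 * k :=
    ⟨((a + b) % 3).toNat, by omega, (2 * a - b + (a + b) % 3) / 3,
      2 * ((2 * a - b + (a + b) % 3) / 3) - a, by omega, by omega⟩
  have e1 := move R.toTor hb n k (i := 0) (j := 1) (by decide) 0
  have e2 := move R.toTor hb n k (i := 2) (j := 1) (by decide) r
  have h := conj_commute (g := B.D 0 ^ n * B.D 1 ^ k) (R.col r hr)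
  rw [show (1 : F) = (B.g : F) ^ (0 : ℤ) from (zpow_zero _).symm, ← zpow_natCast, e1, e2] at h
  simp only [ep] at h
  convert h using 4 <;> simp <;> omega

theorem adj_all (hb : Function.Surjective (Polynomial.aeval (R := ZMod p) ((B.g : F) ^ 2))) (a b : ℤ) :
    ⁅B.X 0 1 ((B.g : F) ^ a), B.X 1 2 ((B.g : F) ^ b)⁆ = B.X 0 2 ((B.g : F) ^ (a + b)) :=
  adj_gen R.toTor hb R.adj a b

theorem adj'_all (hb : Function.Surjective (Polynomial.aeval (R := ZMod p) ((B.g : F) ^ 2))) (a b : ℤ) :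
    ⁅B.X 1 0 ((B.g : F) ^ a), B.X 0 2 ((B.g : F) ^ b)⁆ = B.X 1 2 ((B.g : F) ^ (a + b)) := by
  obtain ⟨r, hr, n, k, ha, hb'⟩ : ∃ (r : ℕ), r < 3 ∧ ∃ n k : ℤ, a = -2 * n + k ∧ b = r + n + k :=
    ⟨((b - a) % 3).toNat, by omega, (b - a) / 3, a + 2 * ((b - a) / 3), by omega, by omega⟩
  have e1 := move R.toTor hb n k (i := 1) (j := 0) (by decide) 0
  have e2 := move R.toTor hb n k (i := 0) (j := 2) (by decide) r
  have e3 := move R.toTor hb n k (i := 1) (j := 2) (by decide) r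
  have h := congrArg (fun z => B.D 0 ^ n * B.D 1 ^ k * z * (B.D 0 ^ n * B.D 1 ^ k)⁻¹) (R.adj' r hr)
  simp only [Base.conj_bracket] at h
  rw [show (1 : F) = (B.g : F) ^ (0 : ℤ) from (zpow_zero _).symm, ← zpow_natCast, e1, e2, e3] at h
  have l1 : (0 : ℤ) + k * (ep 1 1 - ep 1 0) + n * (ep 0 1 - ep 0 0) = a := by simp [ep]; omega
  have l2 : (r : ℤ) + k * (ep 1 0 - ep 1 2) + n * (ep 0 0 - ep 0 2) = b := by simp [ep]; omega
  have l3 : (r : ℤ) + k * (ep 1 1 - ep 1 2) + n * (ep 0 1 - ep 0 2) = a + b := by simp [ep]; omega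
  rw [l1, l2, l3] at h
  exact h

theorem bijective_of_rels [Fintype F] [CharP F p]
    (hb : Function.Surjective (Polynomial.aeval (R := ZMod p) ((B.g : F) ^ 2)))
    (hgen : ∀ t : F, t ≠ 0 → ∃ a : ℕ, t = (B.g : F) ^ a)
    (hG : Subgroup.closure (Set.range B.Φ ∪ {B.c}) = ⊤)
    (hw : B.c ∈ Subgroup.closure {x | ∃ (i j : Fin 3) (t : F), i ≠ j ∧ x = B.X i j t})
    (f : G →* Matrix.SpecialLinearGroup (Fin 3) F)
    (hf : ∀ i j, i ≠ j → ∀ t, f (B.X i j t) = Cfsg.Agent.H64.SLCover.rx i j t) :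
    Function.Bijective f := by
  open Cfsg.Agent.H64.SLCover in
  have hz : ∀ t : F, t = 0 ∨ ∃ a : ℤ, t = (B.g : F) ^ a := fun t => (em (t = 0)).imp_right fun h => by
    obtain ⟨a, rfl⟩ := hgen t h
    exact ⟨a, (zpow_natCast _ _).symm⟩
  have hrow : ∀ i s t, Commute (B.X i (i + 1) s) (B.X i (i + 2) t) := by
    have h0 : ∀ s t, Commute (B.X 0 1 s) (B.X 0 2 t) := fun s t => by
      rcases hz s with rfl | ⟨a, rfl⟩
      · rw [X_zero]; exact Commute.one_left _
      rcases hz t with rfl | ⟨b, rfl⟩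
      · rw [X_zero]; exact Commute.one_right _
      exact row_all R hb a b
    have h1 : ∀ s t, Commute (B.X 1 2 s) (B.X 1 0 t) := fun s t => by
      have := conj_commute (g := B.c) (h0 s t)
      rwa [conjX R.toTor, conjX R.toTor] at this
    have h2 : ∀ s t, Commute (B.X 2 0 s) (B.X 2 1 t) := fun s t => by
      have := conj_commute (g := B.c) (h1 s t)
      rwa [conjX R.toTor, conjX R.toTor] at this
    intro i
    fin_cases i
    exacts [h0, h1, h2]
  have hcol : ∀ j s t, Commute (B.X (j + 2) j s) (B.X (j + 1) j t) := by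
    have h0 : ∀ s t, Commute (B.X 0 1 s) (B.X 2 1 t) := fun s t => by
      rcases hz s with rfl | ⟨a, rfl⟩
      · rw [X_zero]; exact Commute.one_left _
      rcases hz t with rfl | ⟨b, rfl⟩
      · rw [X_zero]; exact Commute.one_right _
      exact col_all R hb a b
    have h1 : ∀ s t, Commute (B.X 1 2 s) (B.X 0 2 t) := fun s t => by
      have := conj_commute (g := B.c) (h0 s t)
      rwa [conjX R.toTor, conjX R.toTor] at this
    have h2 : ∀ s t, Commute (B.X 2 0 s) (B.X 1 0 t) := fun s t => by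
      have := conj_commute (g := B.c) (h1 s t)
      rwa [conjX R.toTor, conjX R.toTor] at this
    intro j
    fin_cases j
    exacts [h2, h0, h1]
  have hp : ∀ i s t, ⁅B.X i (i + 1) s, B.X (i + 1) (i + 2) t⁆ = B.X i (i + 2) (s * t) := by
    have h0 : ∀ s t, ⁅B.X 0 1 s, B.X 1 2 t⁆ = B.X 0 2 (s * t) := fun s t => by
      rcases hz s with rfl | ⟨a, rfl⟩
      · rw [zero_mul, X_zero, X_zero, commutatorElement_one_left]
      rcases hz t with rfl | ⟨b, rfl⟩
      · rw [mul_zero, X_zero, X_zero, commutatorElement_one_right]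
      rw [← zpow_add₀ B.g.ne_zero]
      exact adj_all R hb a b
    have h1 : ∀ s t, ⁅B.X 1 2 s, B.X 2 0 t⁆ = B.X 1 0 (s * t) := fun s t => by
      have := congrArg (fun z => B.c * z * B.c⁻¹) (h0 s t)
      simp only [Base.conj_bracket, conjX R.toTor] at this
      exact this
    have h2 : ∀ s t, ⁅B.X 2 0 s, B.X 0 1 t⁆ = B.X 2 1 (s * t) := fun s t => by
      have := congrArg (fun z => B.c * z * B.c⁻¹) (h1 s t)
      simp only [Base.conj_bracket, conjX R.toTor] at this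
      exact this
    intro i
    fin_cases i
    exacts [h0, h1, h2]
  have hn : ∀ i s t, ⁅B.X i (i + 2) s, B.X (i + 2) (i + 1) t⁆ = B.X i (i + 1) (s * t) := by
    have h1 : ∀ s t, ⁅B.X 1 0 s, B.X 0 2 t⁆ = B.X 1 2 (s * t) := fun s t => by
      rcases hz s with rfl | ⟨a, rfl⟩
      · rw [zero_mul, X_zero, X_zero, commutatorElement_one_left]
      rcases hz t with rfl | ⟨b, rfl⟩
      · rw [mul_zero, X_zero, X_zero, commutatorElement_one_right]
      rw [← zpow_add₀ B.g.ne_zero]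
      exact adj'_all R hb a b
    have h2 : ∀ s t, ⁅B.X 2 1 s, B.X 1 0 t⁆ = B.X 2 0 (s * t) := fun s t => by
      have := congrArg (fun z => B.c * z * B.c⁻¹) (h1 s t)
      simp only [Base.conj_bracket, conjX R.toTor] at this
      exact this
    have h0 : ∀ s t, ⁅B.X 0 2 s, B.X 2 1 t⁆ = B.X 0 1 (s * t) := fun s t => by
      have := congrArg (fun z => B.c * z * B.c⁻¹) (h2 s t)
      simp only [Base.conj_bracket, conjX R.toTor] at this
      exact this
    intro i
    fin_cases i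
    exacts [h0, h1, h2]
  obtain ⟨Ψ, hΨ⟩ := steinberg_hom (n := 3) le_rfl B.X (fun i j _ => X_add B i j)
    (fun i j k l hij hkl hjk hil s t => by
      have hcases : (k = i ∧ l = j) ∨ (k = i ∧ j = i + 1 ∧ l = i + 2) ∨ (k = i ∧ j = i + 2 ∧ l = i + 1) ∨
          (l = j ∧ i = j + 2 ∧ k = j + 1) ∨ (l = j ∧ i = j + 1 ∧ k = j + 2) := by
        revert hij hkl hjk hil; clear * - ; revert i j k l; decide
      rcases hcases with ⟨rfl, rfl⟩ | ⟨rfl, rfl, rfl⟩ | ⟨rfl, rfl, rfl⟩ | ⟨rfl, rfl, rfl⟩ | ⟨rfl, rfl, rfl⟩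
      · show B.X k l s * B.X k l t = B.X k l t * B.X k l s
        rw [← X_add, ← X_add, add_comm]
      · exact hrow _ s t
      · exact (hrow _ t s).symm
      · exact hcol _ s t
      · exact (hcol _ t s).symm)
    (fun i j k hij hik hjk s t => by
      have hcases : (j = i + 1 ∧ k = i + 2) ∨ (j = i + 2 ∧ k = i + 1) := by
        revert hij hik hjk; clear * - ; revert i j k; decide
      rcases hcases with ⟨rfl, rfl⟩ | ⟨rfl, rfl⟩
      · exact hp i s t
      · exact hn i s t)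
  have hid : ∀ y, f (Ψ y) = y := by
    have htop := Cfsg.Agent.H1.SL_eq_top_of_transvection_mem (MonoidHom.eqLocus (f.comp Ψ) (MonoidHom.id _))
      (fun i j hij t => by
        rw [← Cfsg.Agent.H64.SLCover.rx_of_ne hij]
        show f (Ψ _) = _
        rw [hΨ i j hij, hf i j hij]
        rfl)
    intro y
    exact (show y ∈ MonoidHom.eqLocus (f.comp Ψ) (MonoidHom.id _) by rw [htop]; trivial)
  have hall : ∀ x : G, x ∈ Ψ.range := by
    have hX : ∀ i j, i ≠ j → ∀ t, B.X i j t ∈ Ψ.range := fun i j hij t => ⟨_, hΨ i j hij t⟩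
    have hΦ : ∀ y, B.Φ y ∈ Ψ.range := by
      intro y
      refine (show y ∈ Ψ.range.comap B.Φ from ?_)
      have hle : (⊤ : Subgroup SL(2, F)) ≤ Ψ.range.comap B.Φ := by
        rw [← H92.sl2_closure_sx_sy, Subgroup.closure_le]
        rintro _ (⟨t, rfl⟩ | ⟨t, rfl⟩)
        · have := hX 0 1 (by decide) t
          simpa [X, E] using this
        · have := hX 1 0 (by decide) (-t)
          simpa [X, N] using this
      exact hle (Subgroup.mem_top y)
    have hc : B.c ∈ Ψ.range := by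
      refine (Subgroup.closure_le _).2 ?_ hw
      rintro _ ⟨i, j, t, hij, rfl⟩
      exact hX i j hij t
    intro x
    refine (Subgroup.closure_le _).2 ?_ (hG ▸ Subgroup.mem_top x)
    rintro y (⟨z, rfl⟩ | rfl)
    exacts [hΦ z, hc]
  refine ⟨fun x y hxy => ?_, fun y => ⟨Ψ y, hid y⟩⟩
  obtain ⟨x', rfl⟩ := hall x
  obtain ⟨y', rfl⟩ := hall y
  rw [hid, hid] at hxy
  rw [hxy]

end

end Base3

end Cfsg.Agent.H81.SLnPres
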