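import Cfsg.Agent.H81.SLnPres.SL3Core
import Cfsg.Agent.H92.SL2Hom

/-!
# `SL₃` relations from a short list
-/

set_option autoImplicit false
set_option maxHeartbeats 800000

namespace Cfsg.Agent.H81.SLnPres

open Cfsg.Agent.H81.SLPres
open scoped commutatorElement MatrixGroups

variable {G : Type*} [Group G]

theorem commute_right_of_brackets {x y z : G} (h1 : ⁅x, y⁆ = z) (h2 : ⁅x, y⁻¹⁆ = z⁻¹) : Commute y z := by
  have h3 : z⁻¹ = y⁻¹ * z⁻¹ * y := by
    refine h2.symm.trans (Eq.trans (b := y⁻¹ * ⁅x, y⁆⁻¹ * y) ?_ (by rw [h1]))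
    simp only [commutatorElement_def]; group
  have h4 : Commute y z⁻¹ := by
    show y * z⁻¹ = z⁻¹ * y
    conv_lhs => rw [h3]
    group
  simpa using h4.inv_right

theorem commute_left_of_brackets {x y z : G} (h1 : ⁅x, y⁆ = z) (h2 : ⁅x⁻¹, y⁆ = z⁻¹) : Commute x z := by
  have h3 : z⁻¹ = x⁻¹ * z⁻¹ * x := by
    refine h2.symm.trans (Eq.trans (b := x⁻¹ * ⁅x, y⁆⁻¹ * x) ?_ (by rw [h1]))
    simp only [commutatorElement_def]; group
  have h4 : Commute x z⁻¹ := by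
    show x * z⁻¹ = z⁻¹ * x
    conv_lhs => rw [h3]
    group
  simpa using h4.inv_right

namespace Base3

variable {F : Type*} [Field F] (B : Base3 G F)

/-- The short list of relations. -/
structure Short : Prop where
  cube : B.c ^ 3 = 1
  dd : Commute (B.D 0) (B.D 1)
  ddd : B.D 0 * B.D 1 * B.D 2 = 1
  weyl : B.c * (B.Φ H92.sw)⁻¹ * B.c = B.Φ H92.sw
  a12 : B.D 0 * B.X 1 2 1 * (B.D 0)⁻¹ = B.X 1 2 ((B.g : F)⁻¹)
  adj0 : ⁅B.X 0 1 1, B.X 1 2 1⁆ = B.X 0 2 1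

variable {B}

theorem X_neg (i j : Fin 3) (t : F) : B.X i j (-t) = (B.X i j t)⁻¹ := by
  rw [eq_inv_iff_mul_eq_one, ← X_add, neg_add_cancel, X_zero]

namespace Short

variable (S : B.Short)

include S

theorem cpow (k : Fin 3) : B.c * B.c ^ (k : ℕ) = B.c ^ ((k + 1 : Fin 3) : ℕ) := by
  fin_cases k
  · simp
  · show B.c * B.c ^ 1 = B.c ^ 2
    rw [← pow_succ']
  · show B.c * B.c ^ 2 = B.c ^ 0
    rw [← pow_succ', S.cube, pow_zero]

theorem shc (y : G) (k : Fin 3) : B.c * (B.c ^ (k : ℕ) * y * (B.c ^ (k : ℕ))⁻¹) * B.c⁻¹ =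
    B.c ^ ((k + 1 : Fin 3) : ℕ) * y * (B.c ^ ((k + 1 : Fin 3) : ℕ))⁻¹ := by
  rw [← cpow S k]; group

theorem shD (k : Fin 3) : B.c * B.D k * B.c⁻¹ = B.D (k + 1) := shc S _ k

theorem shX (i j : Fin 3) (t : F) : B.c * B.X i j t * B.c⁻¹ = B.X (i + 1) (j + 1) t := by
  simp only [X, add_left_inj]
  split_ifs
  · exact shc S _ i
  · exact shc S _ j

/-- Shifting an action by the three-cycle. -/
theorem sh_act {k i j : Fin 3} {t u : F} (h : B.D k * B.X i j t * (B.D k)⁻¹ = B.X i j u) :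
    B.D (k + 1) * B.X (i + 1) (j + 1) t * (B.D (k + 1))⁻¹ = B.X (i + 1) (j + 1) u := by
  rw [← shD S k, ← shX S i j, ← shX S i j, ← h]
  group

omit S in
theorem s0_X01 (t : F) : B.Φ H92.sw * B.X 0 1 t * (B.Φ H92.sw)⁻¹ = B.X 1 0 (-t) := by
  have e : (H92.sw : SL(2, F)) * H92.sx t * H92.sw⁻¹ = H92.sy (- -t) := by
    rw [mul_inv_eq_iff_eq_mul]
    apply H92.sl2_ext <;> simp [H92.sl2_mul_apply]
  simp only [X, E, N, zero_add, if_true, show ¬ ((0 : Fin 3) = 1 + 1) by decide, if_false, Fin.val_zero, pow_zero,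
    one_mul, inv_one, mul_one]
  rw [← e, map_mul, map_mul, map_inv]

omit S in
theorem s0_X01' (t : F) : (B.Φ H92.sw)⁻¹ * B.X 0 1 t * B.Φ H92.sw = B.X 1 0 (-t) := by
  have e : (H92.sw : SL(2, F))⁻¹ * H92.sx t * H92.sw = H92.sy (- -t) := by
    rw [mul_assoc, inv_mul_eq_iff_eq_mul]
    apply H92.sl2_ext <;> simp [H92.sl2_mul_apply]
  simp only [X, E, N, zero_add, if_true, show ¬ ((0 : Fin 3) = 1 + 1) by decide, if_false, Fin.val_zero, pow_zero,
    one_mul, inv_one, mul_one]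
  rw [← e, map_mul, map_mul, map_inv]

omit S in
theorem s0_D0 : (B.Φ H92.sw)⁻¹ * B.D 0 * B.Φ H92.sw = (B.D 0)⁻¹ := by
  have e := congrArg B.Φ (img_tht (B.g : F) B.g.ne_zero)
  simp only [map_mul, map_inv] at e
  have e2 := congrArg (·⁻¹) e
  simp only [_root_.mul_inv_rev, inv_inv] at e2
  simp only [D, Fin.val_zero, pow_zero, one_mul, inv_one, mul_one]
  generalize B.Φ (hm (B.g : F) B.g.ne_zero) = d at e2 ⊢
  conv_lhs => rw [← e2]
  group

/-- The key conjugation. -/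
theorem s0_X12 (t : F) : (B.Φ H92.sw)⁻¹ * B.X 1 2 t * B.Φ H92.sw = B.X 0 2 (-t) := by
  have h1 : (B.Φ H92.sw)⁻¹ * B.c = B.c⁻¹ * B.Φ H92.sw := by
    conv_rhs => rw [← S.weyl]
    group
  have h2 : B.c⁻¹ * B.X 1 0 (-t) * B.c = B.X 0 2 (-t) := by
    have := shX S 0 2 (-t)
    simp only [zero_add, show (2 : Fin 3) + 1 = 0 by decide] at this
    rw [← this]; group
  have h3 : B.X 1 2 t = B.c * B.X 0 1 t * B.c⁻¹ := by
    rw [shX S]; rfl
  rw [h3, ← h2, ← s0_X01]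
  calc (B.Φ H92.sw)⁻¹ * (B.c * B.X 0 1 t * B.c⁻¹) * B.Φ H92.sw
      = ((B.Φ H92.sw)⁻¹ * B.c) * B.X 0 1 t * ((B.Φ H92.sw)⁻¹ * B.c)⁻¹ := by group
    _ = _ := by rw [h1]; group

variable {p : ℕ} [Fact p.Prime] [Algebra (ZMod p) F]
  (hb : Function.Surjective (Polynomial.aeval (R := ZMod p) ((B.g : F) ^ 2)))

include hb

theorem p1 (t : F) : B.D 0 * B.X 1 2 t * (B.D 0)⁻¹ = B.X 1 2 ((B.g : F)⁻¹ * t) := by
  induction t using ind_b (p := p) hb with
  | h0 => rw [mul_zero, X_zero, mul_one, mul_inv_cancel]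
  | hadd s t hs ht => rw [mul_add, X_add, X_add, ← hs, ← ht]; group
  | hpow a =>
    have one : ∀ s, B.D 1 * B.X 1 2 s * (B.D 1)⁻¹ = B.X 1 2 ((B.g : F) ^ 2 * s) := fun s =>
      sh_act S (own_pos s)
    have key : ∀ (a : ℕ) (s : F), B.D 1 ^ a * B.X 1 2 s * (B.D 1 ^ a)⁻¹ = B.X 1 2 (((B.g : F) ^ 2) ^ a * s) := by
      intro a
      induction a with
      | zero => intro s; simp
      | succ a ih =>
        intro s
        rw [pow_succ' (B.D 1), show ∀ x y z : G, x * y * z * (x * y)⁻¹ = x * (y * z * y⁻¹) * x⁻¹ from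
          fun x y z => by group, ih, one, pow_succ' ((B.g : F) ^ 2), mul_assoc]
    have hz : Commute (B.D 0) (B.D 1 ^ a) := S.dd.pow_right a
    conv_lhs => rw [← mul_one (((B.g : F) ^ 2) ^ a), ← key a 1]
    rw [mul_comm, ← key a, ← S.a12]
    calc B.D 0 * (B.D 1 ^ a * B.X 1 2 1 * (B.D 1 ^ a)⁻¹) * (B.D 0)⁻¹
        = (B.D 0 * B.D 1 ^ a) * B.X 1 2 1 * (B.D 0 * B.D 1 ^ a)⁻¹ := by group
      _ = _ := by rw [hz.eq]; group

theorem p2 (t : F) : B.D 0 * B.X 0 2 t * (B.D 0)⁻¹ = B.X 0 2 ((B.g : F) * t) := by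
  have e := congrArg (fun z => (B.Φ H92.sw)⁻¹ * z * B.Φ H92.sw) (p1 S hb (-((B.g : F) * t)))
  simp only [s0_X12 S] at e
  rw [show -((B.g : F)⁻¹ * -((B.g : F) * t)) = t by
    rw [mul_neg, neg_neg, ← mul_assoc, inv_mul_cancel₀ B.g.ne_zero, one_mul]] at e
  rw [show (B.Φ H92.sw)⁻¹ * (B.D 0 * B.X 1 2 (-((B.g : F) * t)) * (B.D 0)⁻¹) * B.Φ H92.sw =
      ((B.Φ H92.sw)⁻¹ * B.D 0 * B.Φ H92.sw) * ((B.Φ H92.sw)⁻¹ * B.X 1 2 (-((B.g : F) * t)) * B.Φ H92.sw) *
        ((B.Φ H92.sw)⁻¹ * B.D 0 * B.Φ H92.sw)⁻¹ by group, s0_X12 S, s0_D0, neg_neg, inv_inv] at e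
  rw [← e]; group

theorem tor : B.Tor := by
  have hg := B.g.ne_zero
  have hD1 : B.D 1 = (B.D 0)⁻¹ * (B.D 2)⁻¹ := by
    calc B.D 1 = (B.D 0)⁻¹ * (B.D 0 * B.D 1 * B.D 2) * (B.D 2)⁻¹ := by group
      _ = _ := by rw [S.ddd, mul_one]
  have undo : ∀ {x : G} {i j : Fin 3} {t u : F}, x * B.X i j u * x⁻¹ = B.X i j t →
      x⁻¹ * B.X i j t * x⁻¹⁻¹ = B.X i j u := fun {x i j t u} h => by rw [← h]; group
  -- the torus at `D₁` on the two remaining roots
  have a01 : B.D 1 * B.X 0 1 1 * (B.D 1)⁻¹ = B.X 0 1 ((B.g : F)⁻¹) := by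
    have d2 := sh_act S (sh_act S (p1 S hb (B.g : F)))
    simp only [inv_mul_cancel₀ hg, show (0 : Fin 3) + 1 + 1 = 2 by decide, show (1 : Fin 3) + 1 + 1 = 0 by decide,
      show (2 : Fin 3) + 1 + 1 = 1 by decide] at d2
    have d0 := own_pos (B := B) ((B.g : F)⁻¹)
    rw [show (B.g : F) ^ 2 * (B.g : F)⁻¹ = (B.g : F) by field_simp] at d0
    rw [hD1, show ∀ x y z : G, x * y * z * (x * y)⁻¹ = x * (y * z * y⁻¹) * x⁻¹ from fun x y z => by group,
      undo d2, undo d0]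
  have a02 : B.D 1 * B.X 0 2 1 * (B.D 1)⁻¹ = B.X 0 2 (B.g : F) := by
    have d2 := sh_act S (sh_act S (own_pos (B := B) ((B.g : F) ^ 2)⁻¹))
    rw [mul_inv_cancel₀ (pow_ne_zero _ hg)] at d2
    simp only [show (0 : Fin 3) + 1 + 1 = 2 by decide, show (1 : Fin 3) + 1 + 1 = 0 by decide] at d2
    have d2' := sh_act S (sh_act S (own_neg (B := B) ((B.g : F) ^ 2)))
    rw [show (B.g : F) ^ (-2 : ℤ) * (B.g : F) ^ 2 = 1 by
      rw [zpow_neg, show ((B.g : F) ^ (2 : ℤ)) = (B.g : F) ^ 2 from zpow_natCast _ 2, inv_mul_cancel₀ (pow_ne_zero _ hg)]] at d2'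
    simp only [show (0 : Fin 3) + 1 + 1 = 2 by decide, show (1 : Fin 3) + 1 + 1 = 0 by decide] at d2'
    have d0 := p2 S hb (B.g : F)
    rw [hD1, show ∀ x y z : G, x * y * z * (x * y)⁻¹ = x * (y * z * y⁻¹) * x⁻¹ from fun x y z => by group,
      undo d2']
    refine undo (d0.trans ?_)
    rw [pow_two]
  refine ⟨S.cube, S.dd, fun i j hij h2 => ?_⟩
  have hm : (i, j) ∈ [((1 : Fin 3), (2 : Fin 3)), (2, 0), (2, 1), (0, 2)] := by
    simp only [Set.mem_insert_iff, Set.mem_singleton_iff] at h2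
    simp only [List.mem_cons, List.not_mem_nil, or_false, Prod.mk.injEq]
    revert hij h2; clear * - ; revert i j; decide
  simp only [List.mem_cons, List.not_mem_nil, or_false, Prod.mk.injEq] at hm
  rcases hm with ⟨rfl, rfl⟩ | ⟨rfl, rfl⟩ | ⟨rfl, rfl⟩ | ⟨rfl, rfl⟩
  · rw [S.a12, show ep 0 1 - ep 0 2 = -1 by decide, zpow_neg_one]
  · have := sh_act S (sh_act S a01)
    simp only [show (0 : Fin 3) + 1 + 1 = 2 by decide, show (1 : Fin 3) + 1 + 1 = 0 by decide] at this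
    rw [this, show ep 0 2 - ep 0 0 = -1 by decide, zpow_neg_one]
  · have := sh_act S (sh_act S a02)
    simp only [show (0 : Fin 3) + 1 + 1 = 2 by decide, show (1 : Fin 3) + 1 + 1 = 0 by decide,
      show (2 : Fin 3) + 1 + 1 = 1 by decide] at this
    rw [this, show ep 0 2 - ep 0 1 = 1 by decide, zpow_one]
  · rw [p2 S hb, mul_one, show ep 0 0 - ep 0 2 = 1 by decide, zpow_one]

theorem s0_X02 {m : ℕ} (hm : (B.g : F) ^ m = -1) (t : F) :
    (B.Φ H92.sw)⁻¹ * B.X 0 2 t * B.Φ H92.sw = B.X 1 2 t := by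
  have key : ∀ (n : ℕ) (s : F), B.D 0 ^ n * B.X 1 2 s * (B.D 0 ^ n)⁻¹ = B.X 1 2 (((B.g : F)⁻¹) ^ n * s) := by
    intro n
    induction n with
    | zero => intro s; simp
    | succ n ih =>
      intro s
      rw [pow_succ' (B.D 0), show ∀ x y z : G, x * y * z * (x * y)⁻¹ = x * (y * z * y⁻¹) * x⁻¹ from
        fun x y z => by group, ih, p1 S hb, pow_succ' ((B.g : F)⁻¹), mul_assoc]
  have hsq : B.Φ H92.sw * B.Φ H92.sw = B.D 0 ^ m := by
    simp only [D, Fin.val_zero, pow_zero, one_mul, inv_one, mul_one]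
    rw [← map_mul, ← map_pow, img_tt, hm_pow]
    simp only [hm]
  have e := key m t
  rw [inv_pow, hm, inv_neg, inv_one, neg_one_mul, ← hsq] at e
  have h := s0_X12 S (-t)
  rw [neg_neg] at h
  rw [← h, ← e]
  group

/-- All the relations follow. -/
theorem rels (hgen : ∀ t : F, t ≠ 0 → ∃ a : ℕ, t = (B.g : F) ^ a)
    (hadj : (∀ r : ℕ, r < 3 → ⁅B.X 0 1 1, B.X 1 2 ((B.g : F) ^ r)⁆ = B.X 0 2 ((B.g : F) ^ r)) ∨
      Function.Surjective (Polynomial.aeval (R := ZMod p) ((B.g : F) ^ 3))) : B.Rels := by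
  have T := tor S hb
  obtain ⟨m, hm'⟩ := hgen (-1) (neg_ne_zero.2 one_ne_zero)
  have hm : (B.g : F) ^ m = -1 := hm'.symm
  have hadj3 : ∀ r : ℕ, r < 3 → ⁅B.X 0 1 1, B.X 1 2 ((B.g : F) ^ r)⁆ = B.X 0 2 ((B.g : F) ^ r) := by
    rcases hadj with h | hb3
    · exact h
    have h0 : ⁅B.X 0 1 1, B.X 1 2 ((B.g : F) ^ (0 : ℤ))⁆ = B.X 0 2 ((B.g : F) ^ (0 : ℤ)) := by
      rw [zpow_zero]; exact S.adj0
    have hcube : ∀ e : ℤ, ⁅B.X 0 1 1, B.X 1 2 ((B.g : F) ^ (3 * e))⁆ = B.X 0 2 ((B.g : F) ^ (3 * e)) := by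
      intro e
      have e1 := move T hb e (2 * e) (i := 0) (j := 1) (by decide) 0
      have e2 := move T hb e (2 * e) (i := 1) (j := 2) (by decide) 0
      have e3 := move T hb e (2 * e) (i := 0) (j := 2) (by decide) 0
      have h := congrArg (fun z => B.D 0 ^ e * B.D 1 ^ (2 * e) * z * (B.D 0 ^ e * B.D 1 ^ (2 * e))⁻¹) h0
      simp only [Base.conj_bracket] at h
      rw [show (1 : F) = (B.g : F) ^ (0 : ℤ) from (zpow_zero _).symm, e1, e2, e3] at h
      have l1 : (0 : ℤ) + 2 * e * (ep 1 0 - ep 1 1) + e * (ep 0 0 - ep 0 1) = 0 := by simp [ep]; omega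
      have l2 : (0 : ℤ) + 2 * e * (ep 1 1 - ep 1 2) + e * (ep 0 1 - ep 0 2) = 3 * e := by simp [ep]; omega
      have l3 : (0 : ℤ) + 2 * e * (ep 1 0 - ep 1 2) + e * (ep 0 0 - ep 0 2) = 3 * e := by simp [ep]; omega
      rw [l1, l2, l3, zpow_zero] at h
      exact h
    have hc0 : Commute (B.X 1 2 1) (B.X 0 2 1) := by
      have hneg : (B.g : F) ^ (3 * (m : ℤ)) = -1 := by
        rw [mul_comm, zpow_mul, zpow_natCast, hm]
        norm_num
      have h1 := hcube (m : ℤ)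
      rw [hneg, X_neg, X_neg] at h1
      exact commute_right_of_brackets S.adj0 h1
    have hcpow : ∀ i j : ℕ, Commute (B.X 1 2 (((B.g : F) ^ 3) ^ i)) (B.X 0 2 (((B.g : F) ^ 3) ^ j)) := by
      intro i j
      have e1 := move T hb (2 * (j : ℤ) - i) ((i : ℤ) + j) (i := 1) (j := 2) (by decide) 0
      have e2 := move T hb (2 * (j : ℤ) - i) ((i : ℤ) + j) (i := 0) (j := 2) (by decide) 0
      have h := conj_commute (g := B.D 0 ^ (2 * (j : ℤ) - i) * B.D 1 ^ ((i : ℤ) + j)) hc0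
      rw [show (1 : F) = (B.g : F) ^ (0 : ℤ) from (zpow_zero _).symm, e1, e2] at h
      have l1 : (0 : ℤ) + ((i : ℤ) + j) * (ep 1 1 - ep 1 2) + (2 * (j : ℤ) - i) * (ep 0 1 - ep 0 2) = ((3 * i : ℕ) : ℤ) := by
        simp [ep]; omega
      have l2 : (0 : ℤ) + ((i : ℤ) + j) * (ep 1 0 - ep 1 2) + (2 * (j : ℤ) - i) * (ep 0 0 - ep 0 2) = ((3 * j : ℕ) : ℤ) := by
        simp [ep]; omega
      rw [l1, l2, zpow_natCast, zpow_natCast, pow_mul, pow_mul] at h
      exact h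
    have hall : ∀ s t : F, Commute (B.X 1 2 s) (B.X 0 2 t) := by
      intro s t
      induction s using ind_b (p := p) hb3 with
      | h0 => rw [X_zero]; exact Commute.one_left _
      | hadd s s' h h' => rw [X_add]; exact h.mul_left h'
      | hpow i =>
        induction t using ind_b (p := p) hb3 with
        | h0 => rw [X_zero]; exact Commute.one_right _
        | hadd t t' h h' => rw [X_add]; exact h.mul_right h'
        | hpow j => exact hcpow i j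
    have hlin : ∀ t : F, ⁅B.X 0 1 1, B.X 1 2 t⁆ = B.X 0 2 t := by
      intro t
      induction t using ind_b (p := p) hb3 with
      | h0 => rw [X_zero, X_zero, commutatorElement_one_right]
      | hadd s s' h h' =>
        rw [X_add B 1 2, X_add B 0 2, show ∀ x y y' : G, ⁅x, y * y'⁆ = ⁅x, y⁆ * (y * ⁅x, y'⁆ * y⁻¹) from
          fun x y y' => by simp only [commutatorElement_def]; group, h, h', (hall s s').eq, mul_inv_cancel_right]
      | hpow i =>
        have := hcube (i : ℤ)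
        rw [show (3 : ℤ) * (i : ℤ) = ((3 * i : ℕ) : ℤ) by push_cast; ring, zpow_natCast, pow_mul] at this
        exact this
    exact fun r _ => hlin _
  have hA : ∀ a b : F, ⁅B.X 0 1 a, B.X 1 2 b⁆ = B.X 0 2 (a * b) := by
    intro a b
    rcases eq_or_ne a 0 with rfl | ha
    · rw [zero_mul, X_zero, X_zero, commutatorElement_one_left]
    rcases eq_or_ne b 0 with rfl | hb'
    · rw [mul_zero, X_zero, X_zero, commutatorElement_one_right]
    obtain ⟨i, rfl⟩ := hgen a ha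
    obtain ⟨j, rfl⟩ := hgen b hb'
    rw [← zpow_natCast, ← zpow_natCast, ← zpow_add₀ B.g.ne_zero]
    exact adj_gen T hb hadj3 _ _
  have hA' : ∀ a b : F, ⁅B.X 1 0 a, B.X 0 2 b⁆ = B.X 1 2 (a * b) := by
    intro a b
    have h := congrArg (MulAut.conj (B.Φ H92.sw)⁻¹) (hA (-a) (-b))
    rw [map_commutatorElement] at h
    simp only [MulAut.conj_apply, inv_inv, s0_X01', s0_X12 S, neg_neg, s0_X02 S hb hm, neg_mul_neg] at h
    exact h
  have hcol : ∀ s t : F, Commute (B.X 1 2 s) (B.X 0 2 t) := by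
    intro s t
    rcases eq_or_ne s 0 with rfl | hs
    · rw [X_zero]; exact Commute.one_left _
    refine commute_right_of_brackets (x := B.X 0 1 (t / s)) ?_ ?_
    · rw [hA, div_mul_cancel₀ _ hs]
    · rw [← X_neg, hA, mul_neg, div_mul_cancel₀ _ hs, X_neg]
  have hrow : ∀ s t : F, Commute (B.X 1 0 s) (B.X 1 2 t) := by
    intro s t
    rcases eq_or_ne s 0 with rfl | hs
    · rw [X_zero]; exact Commute.one_left _
    refine commute_left_of_brackets (y := B.X 0 2 (t / s)) ?_ ?_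
    · rw [hA', mul_div_cancel₀ _ hs]
    · rw [← X_neg, hA', neg_mul, mul_div_cancel₀ _ hs, X_neg]
  refine { toTor := T, row := fun r _ => ?_, col := fun r _ => ?_, adj := hadj3, adj' := fun r _ => ?_ }
  · have h := conj_commute (g := B.c) (conj_commute (g := B.c) (hrow ((B.g : F) ^ r) 1))
    simp only [shX S, show (0 : Fin 3) + 1 + 1 = 2 by decide, show (1 : Fin 3) + 1 + 1 = 0 by decide,
      show (2 : Fin 3) + 1 + 1 = 1 by decide] at h
    exact h.symm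
  · have h := conj_commute (g := B.c) (conj_commute (g := B.c) (hcol 1 ((B.g : F) ^ r)))
    simp only [shX S, show (0 : Fin 3) + 1 + 1 = 2 by decide, show (1 : Fin 3) + 1 + 1 = 0 by decide,
      show (2 : Fin 3) + 1 + 1 = 1 by decide] at h
    exact h
  · rw [hA', one_mul]

theorem c_mem (H : Subgroup G) (hX : ∀ i j : Fin 3, i ≠ j → ∀ t, B.X i j t ∈ H) : B.c ∈ H := by
  have hs0 : ∀ y, B.Φ y ∈ H := by
    intro y
    have hle : (⊤ : Subgroup SL(2, F)) ≤ H.comap B.Φ := by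
      rw [← H92.sl2_closure_sx_sy, Subgroup.closure_le]
      rintro _ (⟨t, rfl⟩ | ⟨t, rfl⟩)
      · simpa [X, E] using hX 0 1 (by decide) t
      · simpa [X, N] using hX 1 0 (by decide) (-t)
    exact hle (Subgroup.mem_top y)
  have hs1 : B.c * B.Φ H92.sw * B.c⁻¹ ∈ H := by
    have hle : (⊤ : Subgroup SL(2, F)) ≤ H.comap ((MulAut.conj B.c).toMonoidHom.comp B.Φ) := by
      rw [← H92.sl2_closure_sx_sy, Subgroup.closure_le]
      rintro _ (⟨t, rfl⟩ | ⟨t, rfl⟩)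
      · show B.c * B.Φ (H92.sx t) * B.c⁻¹ ∈ H
        simpa [X, E] using hX 1 2 (by decide) t
      · show B.c * B.Φ (H92.sy t) * B.c⁻¹ ∈ H
        simpa [X, N] using hX 2 1 (by decide) (-t)
    exact hle (Subgroup.mem_top (H92.sw : SL(2, F)))
  have e2 : B.c * B.c = (B.c * B.Φ H92.sw * B.c⁻¹) * B.Φ H92.sw := by
    conv_rhs => arg 2; rw [← S.weyl]
    group
  have e : B.c = (B.c * B.c)⁻¹ := by
    rw [eq_inv_iff_mul_eq_one, ← mul_assoc, ← pow_two, ← pow_succ, S.cube]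
  rw [e, e2]
  exact inv_mem (mul_mem hs1 (hs0 _))

end Short

end Base3

end Cfsg.Agent.H81.SLnPres
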