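import Cfsg.Agent.H81.SLnPres.SL3Short
import Cfsg.Agent.H81.SLnPres.SL3Assemble
import Cfsg.Agent.H81.SLPresMain

/-!
# The short presentation of `SL₃(q)`
-/

set_option autoImplicit false
set_option maxHeartbeats 800000

namespace Cfsg.Agent.H81.SLnPres

open Equiv Cfsg.Agent.H81.SLPres Cfsg.Agent.H64.SLCover
open scoped commutatorElement MatrixGroups

variable {F : Type*} [Field F] [Fintype F] {p : ℕ} [Fact p.Prime] [CharP F p] [Algebra (ZMod p) F]

theorem gen_cube (hp : p ≠ 2) (a : F) (ha : orderOf a = Fintype.card F - 1) :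
    Function.Surjective (Polynomial.aeval (R := ZMod p) (a ^ 3)) := by
  rcases gen_or_small (p := p) (a ^ 3) with h | ⟨d, hQ2, hd, hx⟩
  · exact h
  · exfalso
    have hq : 2 ≤ Fintype.card F := Fintype.one_lt_card
    have hQ3 : 3 ≤ p ^ d := by
      rcases d with _ | d
      · simp at hQ2
      · have h2 := (Fact.out : p.Prime).two_le
        calc 3 ≤ p := by omega
          _ ≤ p ^ (d + 1) := Nat.le_self_pow (by omega) p
    have ha0 : a ≠ 0 := by
      rintro rfl
      rw [orderOf_zero] at ha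
      omega
    have h1 : (a ^ 3) ^ (p ^ d - 1) = 1 := by
      have e : (a ^ 3) ^ (p ^ d - 1) * a ^ 3 = 1 * a ^ 3 := by
        rw [← pow_succ, Nat.sub_add_cancel (by omega), hx, one_mul]
      exact mul_right_cancel₀ (pow_ne_zero _ ha0) e
    rw [← pow_mul] at h1
    have h2 := orderOf_le_of_pow_eq_one (by omega) h1
    rw [ha] at h2
    generalize p ^ d = Q at *
    have : 3 * Q ≤ Q * Q := Nat.mul_le_mul_right _ hQ3
    omega

theorem sl3_short_of {κ : Type} [Fintype κ] (R2 : Finset (FreeGroup κ))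
    (e2 : PresentedGroup (↑R2 : Set (FreeGroup κ)) ≃* SL(2, F)) (g : Fˣ)
    (hgen : ∀ t : F, t ≠ 0 → ∃ a : ℕ, t = (g : F) ^ a)
    (hb : Function.Surjective (Polynomial.aeval (R := ZMod p) ((g : F) ^ 2))) (extra : List ℕ)
    (hext : (∀ r : ℕ, r < 3 → r = 0 ∨ r ∈ extra) ∨
      Function.Surjective (Polynomial.aeval (R := ZMod p) ((g : F) ^ 3))) :
    ∃ rels : Finset (FreeGroup (κ ⊕ Unit)), rels.card ≤ R2.card + 6 + extra.length ∧
      Nonempty (PresentedGroup (↑rels : Set (FreeGroup (κ ⊕ Unit))) ≃*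
        Matrix.SpecialLinearGroup (Fin 3) F) := by
  classical
  let m2 := PresentedGroup.mk (↑R2 : Set (FreeGroup κ))
  let L : SL(2, F) → FreeGroup (κ ⊕ Unit) := fun y =>
    FreeGroup.map Sum.inl (Function.surjInv (PresentedGroup.mk_surjective (↑R2 : Set (FreeGroup κ)))
      (e2.symm y))
  let C : FreeGroup (κ ⊕ Unit) := FreeGroup.of (Sum.inr ())
  let fE : Fin 3 → F → FreeGroup (κ ⊕ Unit) := fun k t => C ^ (k : ℕ) * L (H92.sx t) * (C ^ (k : ℕ))⁻¹
  let fN : Fin 3 → F → FreeGroup (κ ⊕ Unit) :=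
    fun k t => C ^ (k : ℕ) * L (H92.sy (-t)) * (C ^ (k : ℕ))⁻¹
  let fX : Fin 3 → Fin 3 → F → FreeGroup (κ ⊕ Unit) := fun i j t => if j = i + 1 then fE i t else fN j t
  let fD : Fin 3 → FreeGroup (κ ⊕ Unit) :=
    fun k => C ^ (k : ℕ) * L (hm (g : F) g.ne_zero) * (C ^ (k : ℕ))⁻¹
  let P : SL(2, F) →* Matrix.SpecialLinearGroup (Fin 3) F := planeHom (show (0 : Fin 3) ≠ 1 by decide)
  let f0 : κ ⊕ Unit → Matrix.SpecialLinearGroup (Fin 3) F :=
    Sum.elim (fun x => P (e2 (PresentedGroup.of x))) (fun _ => pHom rot3)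
  let ψ := FreeGroup.lift f0
  have hψR : ∀ r : FreeGroup κ, ψ (FreeGroup.map Sum.inl r) = P (e2 (m2 r)) := fun r =>
    DFunLike.congr_fun (FreeGroup.ext_hom (ψ.comp (FreeGroup.map Sum.inl))
      ((P.comp e2.toMonoidHom).comp m2) fun x => by simp [ψ, f0]; rfl) r
  have hψL : ∀ y, ψ (L y) = P y := fun y => by
    rw [hψR]
    exact congrArg P ((congrArg e2 (Function.surjInv_eq _ _)).trans (e2.apply_symm_apply y))
  have hψC : ψ C = pHom rot3 := by simp [ψ, C, f0]
  have hsx : ∀ t : F, P (H92.sx t) = rx 0 1 t := fun t => by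
    rw [show H92.sx t = Cfsg.Agent.H64.SL2.upperU t from ?_, planeHom_upperU]
    apply Subtype.ext
    rw [Cfsg.Agent.H64.SL2.upperU_coe]
    rfl
  have hsy : ∀ t : F, P (H92.sy (-t)) = rx 1 0 t := fun t => by
    rw [show H92.sy (-t) = Matrix.SpecialLinearGroup.transvection (show (1 : Fin 2) ≠ 0 by decide) t from ?_,
      planeHom_transvection]
    · rfl
    apply Subtype.ext
    rw [Matrix.SpecialLinearGroup.transvection_coe]
    ext i j
    fin_cases i <;> fin_cases j <;> simp [H92.sy]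
  have hD : P (hm (g : F) g.ne_zero) = tor 0 1 g := by
    have e : hm (g : F) g.ne_zero = Cfsg.Agent.H64.SL2.diagU g := by
      apply H92.sl2_ext <;> simp [Cfsg.Agent.H64.SL2.diagU]
    rw [e]
    refine eq_of_monoAt' id (dd 0 1 g) (fun x => ?_) (tor_monoAt 0 1 g)
    have := planeHom_diagU_monoAt (show (0 : Fin 3) ≠ 1 by decide) g x
    have e : dd 0 1 g x = if x = 0 then (g : F) else if x = 1 then ((g⁻¹ : Fˣ) : F) else 1 := by
      fin_cases x <;> simp [dd]
    rw [e]
    exact this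
  have hshift : ∀ (k : Fin 3) (i : Fin 3), ((rot3 ^ (k : ℕ) : alternatingGroup (Fin 3)) : Perm (Fin 3)) i = i + k := by
    decide
  have hψE : ∀ k t, ψ (fE k t) = rx k (k + 1) t := fun k t => by
    simp only [fE, map_mul, map_inv, map_pow, hψC, hψL, hsx]
    rw [← map_pow pHom, pHom_rx, hshift, hshift, zero_add, add_comm 1 k]
  have hψN : ∀ k t, ψ (fN k t) = rx (k + 1) k t := fun k t => by
    simp only [fN, map_mul, map_inv, map_pow, hψC, hψL, hsy]
    rw [← map_pow pHom, pHom_rx, hshift, hshift, zero_add, add_comm 1 k]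
  have hψX : ∀ i j, i ≠ j → ∀ t, ψ (fX i j t) = rx i j t := fun i j hij t => by
    simp only [fX]
    split_ifs with h
    · rw [hψE, h]
    · have : j + 1 = i := by revert hij h; clear * - ; revert i j; decide
      rw [hψN, this]
  have hψD : ∀ k, ψ (fD k) = tor k (k + 1) g := fun k => by
    simp only [fD, map_mul, map_inv, map_pow, hψC, hψL, hD]
    rw [← map_pow pHom, pHom_tor, hshift, hshift, zero_add, add_comm 1 k]
  let S0 := Subgroup.closure {x | ∃ (i j : Fin 3) (t : F), i ≠ j ∧ x = fX i j t}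
  have hS0 : S0.map ψ = ⊤ := Cfsg.Agent.H1.SL_eq_top_of_transvection_mem _ fun i j hij t => by
    rw [← rx_of_ne hij]
    exact ⟨fX i j t, Subgroup.subset_closure ⟨i, j, t, hij, rfl⟩, hψX i j hij t⟩
  obtain ⟨w, hwS, hw⟩ : ∃ w ∈ S0, ψ w = pHom rot3 := by
    have : pHom rot3 ∈ S0.map ψ := by rw [hS0]; trivial
    exact this
  let a12W : FreeGroup (κ ⊕ Unit) := fD 0 * fX 1 2 1 * (fD 0)⁻¹ * (fX 1 2 ((g : F)⁻¹))⁻¹
  let adjW : ℕ → FreeGroup (κ ⊕ Unit) :=
    fun r => ⁅fX 0 1 1, fX 1 2 ((g : F) ^ r)⁆ * (fX 0 2 ((g : F) ^ r))⁻¹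
  let Ls : List (FreeGroup (κ ⊕ Unit)) :=
    R2.toList.map (FreeGroup.map Sum.inl) ++ [C ^ 3, ⁅fD 0, fD 1⁆, fD 0 * fD 1 * fD 2,
      C * (L H92.sw)⁻¹ * C * (L H92.sw)⁻¹, a12W, adjW 0] ++ extra.map adjW
  refine ⟨Ls.toFinset, (List.toFinset_card_le _).trans ?_, ?_⟩
  · simp only [Ls, List.length_append, List.length_map, Finset.length_toList, List.length_cons,
      List.length_nil]
    omega
  have hsw : P H92.sw = rx 0 1 1 * rx 1 0 (-1) * rx 0 1 1 := by
    rw [← hsx, ← hsy, ← map_mul, ← map_mul]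
    congr 1
    apply H92.sl2_ext <;> simp [H92.sl2_mul_apply]
  have hrel : ∀ r ∈ (↑Ls.toFinset : Set (FreeGroup (κ ⊕ Unit))), ψ r = 1 := by
    intro r hr
    simp only [Finset.mem_coe, List.mem_toFinset, Ls, List.mem_append, List.mem_map] at hr
    have hadjW : ∀ r, ψ (adjW r) = 1 := fun r => by
      simp only [adjW, map_mul, map_inv, map_commutatorElement, hψX _ _ (show (0 : Fin 3) ≠ 1 by decide),
        hψX _ _ (show (1 : Fin 3) ≠ 2 by decide), hψX _ _ (show (0 : Fin 3) ≠ 2 by decide)]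
      rw [rx_bracket (by decide) (by decide) (by decide), one_mul, mul_inv_cancel]
    rcases hr with (⟨x, hx, rfl⟩ | hx) | ⟨r, -, rfl⟩
    · rw [hψR, show m2 x = 1 from PresentedGroup.one_of_mem (Finset.mem_toList.1 hx), map_one, map_one]
    · simp only [List.mem_cons, List.not_mem_nil, or_false] at hx
      rcases hx with rfl | rfl | rfl | rfl | rfl | rfl
      · rw [map_pow, hψC, ← map_pow pHom, show (rot3 : alternatingGroup (Fin 3)) ^ 3 = 1 by decide, map_one]
      · rw [map_commutatorElement, hψD, hψD]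
        exact commutatorElement_eq_one_iff_commute.2 (tor_commute _ _ _ _ _ _)
      · rw [map_mul, map_mul, hψD, hψD, hψD]
        refine eq_of_monoAt' id (fun _ => (1 : F)) (fun x => ?_) (fun x => by
          show (1 : Matrix.SpecialLinearGroup (Fin 3) F) • _ = _
          rw [one_smul, one_smul]; rfl)
        have := ((tor_monoAt (F := F) (2 : Fin 3) (2 + 1) g x).mul (tor_monoAt 1 (1 + 1) g x)).mul
          (tor_monoAt 0 (0 + 1) g x)
        rw [← mul_assoc] at this
        convert this using 1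
        all_goals
          have := g.ne_zero
          fin_cases x <;> simp [dd] <;> field_simp
      · simp only [map_mul, map_inv, hψL, hψC, hsw]
        rw [mul_inv_eq_one]
        have hC : ∀ x : Fin 3, MonoAt (pHom rot3 : Matrix.SpecialLinearGroup (Fin 3) F) x (x + 1) 1 := fun x => by
          have := pmat_monoAt (F := F) rot3 x
          rwa [rot3_apply] at this
        have hW : ∀ u : F, u * u = 1 → ∀ x : Fin 3,
            MonoAt (rx (0 : Fin 3) 1 u * rx 1 0 (-u) * rx 0 1 u) x (swap (0 : Fin 3) 1 x)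
              (if x = 0 then -u else if x = 1 then u else 1) := by
          intro u hu x
          show Matrix.mulVec ((rx (0 : Fin 3) 1 u * rx 1 0 (-u) * rx 0 1 u : Matrix.SpecialLinearGroup (Fin 3) F) :
              Matrix (Fin 3) (Fin 3) F) (Pi.single x 1) = _
          simp only [Matrix.SpecialLinearGroup.coe_mul, rx_coe (show (0 : Fin 3) ≠ 1 by decide),
            rx_coe (show (1 : Fin 3) ≠ 0 by decide), Matrix.mulVec_single_one]
          funext i
          fin_cases x <;> fin_cases i <;>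
            simp [Matrix.mul_apply, Fin.sum_univ_three, Matrix.single, Equiv.swap_apply_def, hu]
        have hinv : (rx (0 : Fin 3) 1 (1 : F) * rx 1 0 (-1) * rx 0 1 1)⁻¹ =
            rx (0 : Fin 3) 1 (-1) * rx 1 0 (- -1) * rx 0 1 (-1) := by
          rw [_root_.mul_inv_rev, _root_.mul_inv_rev, rx_inv, rx_inv, mul_assoc]
        rw [hinv]
        refine eq_of_monoAt' (swap (0 : Fin 3) 1) (fun x => if x = 0 then -1 else if x = 1 then 1 else 1)
          (fun x => ?_) (fun x => hW 1 (one_mul 1) x)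
        have h := (hC x).mul ((hW (-1) (by ring) (x + 1)).mul (hC (swap (0 : Fin 3) 1 (x + 1))))
        fin_cases x <;> simpa [Equiv.swap_apply_def] using h
      · simp only [a12W, map_mul, map_inv, hψD, hψX _ _ (show (1 : Fin 3) ≠ 2 by decide), tor_rx]
        rw [mul_inv_eq_one]
        congr 1
        simp [dd]
      · exact hadjW 0
    · exact hadjW r
  let f := PresentedGroup.toGroup hrel
  let q := PresentedGroup.mk (↑Ls.toFinset : Set (FreeGroup (κ ⊕ Unit)))
  have hone : ∀ r ∈ Ls, q r = 1 := fun r hr =>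
    PresentedGroup.one_of_mem (Finset.mem_coe.2 (List.mem_toFinset.2 hr))
  let k0 : κ → PresentedGroup (↑Ls.toFinset : Set (FreeGroup (κ ⊕ Unit))) :=
    fun x => PresentedGroup.of (Sum.inl x)
  have hk0 : ∀ r : FreeGroup κ, FreeGroup.lift k0 r = q (FreeGroup.map Sum.inl r) := fun r =>
    DFunLike.congr_fun (FreeGroup.ext_hom (FreeGroup.lift k0) (q.comp (FreeGroup.map Sum.inl))
      fun x => by simp [k0]; rfl) r
  let Φ0 : PresentedGroup (↑R2 : Set (FreeGroup κ)) →* PresentedGroup (↑Ls.toFinset : Set (FreeGroup (κ ⊕ Unit))) :=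
    PresentedGroup.toGroup (f := k0) fun r hr => by
      rw [hk0]
      exact hone _ (by
        simp only [Ls, List.mem_append, List.mem_map]
        exact Or.inl (Or.inl ⟨r, Finset.mem_toList.2 (Finset.mem_coe.1 hr), rfl⟩))
  let B : Base3 (PresentedGroup (↑Ls.toFinset : Set (FreeGroup (κ ⊕ Unit)))) F :=
    ⟨Φ0.comp e2.symm.toMonoidHom, q C, g⟩
  have hΦ : ∀ y, B.Φ y = q (L y) := fun y => by
    show Φ0 (e2.symm y) = _
    conv_lhs => rw [← Function.surjInv_eq (PresentedGroup.mk_surjective (↑R2 : Set (FreeGroup κ))) (e2.symm y)]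
    exact hk0 _
  have hX : ∀ i j t, q (fX i j t) = B.X i j t := fun i j t => by
    simp only [fX, Base3.X]
    split_ifs
    · simp only [fE, Base3.E, map_mul, map_inv, map_pow, hΦ]
      rfl
    · simp only [fN, Base3.N, map_mul, map_inv, map_pow, hΦ]
      rfl
  have hDq : ∀ k, q (fD k) = B.D k := fun k => by
    simp only [fD, Base3.D, map_mul, map_inv, map_pow, hΦ]
    rfl
  have hXq : ∀ r, q (adjW r) = 1 → ⁅B.X 0 1 1, B.X 1 2 ((B.g : F) ^ r)⁆ = B.X 0 2 ((B.g : F) ^ r) := by
    intro r e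
    simp only [adjW, map_mul, map_inv, map_commutatorElement, hX, mul_inv_eq_one] at e
    exact e
  have S : B.Short :=
    { cube := by
        show q C ^ 3 = 1
        rw [← map_pow]; exact hone _ (by simp [Ls])
      dd := by
        rw [← hDq, ← hDq]
        refine commutatorElement_eq_one_iff_commute.1 ?_
        rw [← map_commutatorElement]; exact hone _ (by simp [Ls])
      ddd := by
        rw [← hDq, ← hDq, ← hDq, ← map_mul, ← map_mul]
        exact hone _ (by simp [Ls])
      weyl := by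
        have e : q (C * (L H92.sw)⁻¹ * C * (L H92.sw)⁻¹) = 1 := hone _ (by simp [Ls])
        simp only [map_mul, map_inv, mul_inv_eq_one] at e
        rw [hΦ]
        exact e
      a12 := by
        have e : q a12W = 1 := hone _ (by simp [Ls])
        simp only [a12W, map_mul, map_inv, hX, hDq, mul_inv_eq_one] at e
        exact e
      adj0 := by
        have e := hXq 0 (hone _ (by simp [Ls]))
        simpa using e }
  have R : B.Rels := S.rels (p := p) hb (fun t ht => hgen t ht) (hext.imp_left fun h r hr => by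
    refine hXq r (hone _ ?_)
    rcases h r hr with rfl | h'
    · simp [Ls]
    · simp only [Ls, List.mem_append, List.mem_map]
      exact Or.inr ⟨r, h', rfl⟩)
  refine ⟨MulEquiv.ofBijective f (Base3.bijective_of_rels R (p := p) hb (fun t ht => hgen t ht) ?_
    (S.c_mem (p := p) hb (Subgroup.closure {x | ∃ (i j : Fin 3) (t : F), i ≠ j ∧ x = B.X i j t}) fun i j hij t => Subgroup.subset_closure ⟨i, j, t, hij, rfl⟩) f ?_)⟩
  · rw [eq_top_iff, ← PresentedGroup.closure_range_of, Subgroup.closure_le]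
    rintro _ ⟨x | x, rfl⟩
    · refine Subgroup.subset_closure (Or.inl ⟨e2 (PresentedGroup.of x), ?_⟩)
      show Φ0 (e2.symm (e2 (PresentedGroup.of x))) = _
      rw [e2.symm_apply_apply]
      exact PresentedGroup.toGroup.of (h := _)
    · exact Subgroup.subset_closure (Or.inr rfl)
  · intro i j hij t
    rw [← hX]
    exact hψX i j hij t

omit [Fintype F] in
theorem sl3_short (F : Type*) [Field F] [Fintype F] :
    ∃ rels : Finset (FreeGroup (Fin 3 ⊕ Unit)), rels.card ≤ 14 ∧
      Nonempty (PresentedGroup (↑rels : Set (FreeGroup (Fin 3 ⊕ Unit))) ≃*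
        Matrix.SpecialLinearGroup (Fin 3) F) := by
  classical
  obtain ⟨p, hpF⟩ := CharP.exists F
  haveI : Fact p.Prime := ⟨CharP.char_is_prime F p⟩
  letI : Algebra (ZMod p) F := ZMod.algebra F p
  obtain ⟨a, ha0, hgen, hord⟩ := exists_gen (F := F)
  let g : Fˣ := Units.mk0 a ha0
  have hb : Function.Surjective (Polynomial.aeval (R := ZMod p) ((g : F) ^ 2)) := gen_sq (p := p) a hord
  rcases eq_or_ne p 2 with rfl | hne
  · obtain ⟨⟨R2, h2, ⟨e2⟩⟩, -⟩ := two_pres (F := F)
    obtain ⟨R, hR, e⟩ := sl3_short_of (p := 2) R2 e2 g hgen hb [1, 2] (Or.inl fun r hr => by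
      simp only [List.mem_cons, List.not_mem_nil, or_false]; omega)
    exact ⟨R, hR.trans (by simp; omega), e⟩
  · obtain ⟨⟨R2, h2, ⟨e2⟩⟩, -⟩ := odd_pres (F := F) hne
    obtain ⟨R, hR, e⟩ := sl3_short_of (p := p) R2 e2 g hgen hb [] (Or.inr (gen_cube hne a hord))
    exact ⟨R, hR.trans (by simp; omega), e⟩

end Cfsg.Agent.H81.SLnPres
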