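import Cfsg.Agent.H81.SLnPres.Image
import Cfsg.Agent.H81.SLnPres.Roots
import Cfsg.Agent.H81.SLPresField

/-!
# `SL_n(q)` is generated by two elements
-/

set_option autoImplicit false

namespace Cfsg.Agent.H81.SLnPres

open Equiv Cfsg.Agent.H81.SLPres Cfsg.Agent.H64.SLCover Fin.NatCast
open scoped commutatorElement

variable {F : Type*} [Field F]

theorem exists_cycle_mono (n : ℕ) :
    ∃ (w : Matrix.SpecialLinearGroup (Fin (n + 2)) F) (c : Fin (n + 2) → F),
      ∀ a, MonoAt w a (a + 1) (c a) := by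
  let π : Perm (Fin (n + 2)) := finRotate (n + 2)
  let s : F := ((Perm.sign π⁻¹ : ℤˣ) : ℤ)
  let d : Fin (n + 2) → F := fun a => if a = 0 then s else 1
  have hdet : (π⁻¹.permMatrix F * Matrix.diagonal d).det = 1 := by
    rw [Matrix.det_mul, Matrix.det_permutation, Matrix.det_diagonal]
    simp only [d, Finset.prod_ite_eq', Finset.mem_univ, if_true]
    rcases Int.units_eq_one_or (Perm.sign π⁻¹) with h | h <;> simp [s, h]
  refine ⟨⟨π⁻¹.permMatrix F * Matrix.diagonal d, hdet⟩, d, fun a => ?_⟩
  show Matrix.mulVec (π⁻¹.permMatrix F * Matrix.diagonal d) (Pi.single a 1) = _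
  rw [← Matrix.mulVec_mulVec, Matrix.diagonal_mulVec_single, mul_one, Matrix.permMatrix_mulVec]
  funext x
  simp only [Function.comp_apply, Pi.smul_apply, Pi.single_apply, smul_eq_mul, mul_ite, mul_one, mul_zero,
    Perm.inv_def, Equiv.symm_apply_eq, π, finRotate_succ_apply]

/-- A subgroup containing the cyclically adjacent root groups is everything. -/
theorem eq_top_of_adjacent {n : ℕ} (H : Subgroup (Matrix.SpecialLinearGroup (Fin (n + 2)) F))
    (h : ∀ (i : Fin (n + 2)) (t : F), rx i (i + 1) t ∈ H) : H = ⊤ := by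
  have key : ∀ d : ℕ, d < n + 2 → ∀ (i : Fin (n + 2)) (t : F), rx i (i + (d : Fin (n + 2))) t ∈ H := by
    intro d
    induction d with
    | zero => intro _ i t; simp [rx]
    | succ d ih =>
      intro hd i t
      rw [Nat.cast_succ]
      rcases Nat.eq_zero_or_pos d with rfl | hd0
      · simpa using h i t
      have ne_of : ∀ e : ℕ, 0 < e → e < n + 2 → (e : Fin (n + 2)) ≠ 0 := fun e he he' hz => by
        have := congrArg Fin.val hz
        rw [Fin.val_natCast, Nat.mod_eq_of_lt he', Fin.val_zero] at this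
        omega
      have h1 : i ≠ i + 1 := by simp
      have h2 : i + 1 ≠ i + ((d : Fin (n + 2)) + 1) := by
        intro e
        have := add_left_cancel e
        exact ne_of d hd0 (by omega) (by simpa using this.symm)
      have h3 : i ≠ i + ((d : Fin (n + 2)) + 1) := by
        intro e
        apply ne_of (d + 1) (by omega) hd
        rw [Nat.cast_succ]
        simpa using e.symm
      have hm : rx (i + 1) (i + ((d : Fin (n + 2)) + 1)) t ∈ H := by
        have := ih (by omega) (i + 1) t
        rwa [add_assoc, add_comm (1 : Fin (n + 2))] at this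
      rw [show t = 1 * t from (one_mul t).symm, ← rx_bracket h1 h2 h3, commutatorElement_def]
      exact mul_mem (mul_mem (mul_mem (h i 1) hm) (inv_mem (h i 1))) (inv_mem hm)
  refine Cfsg.Agent.H1.SL_eq_top_of_transvection_mem _ fun i j hij t => ?_
  rw [← rx_of_ne hij]
  have := key (j - i).val (j - i).isLt i t
  rwa [Fin.cast_val_eq_self, add_sub_cancel] at this

theorem exists_two_gen [Fintype F] (n : ℕ) :
    ∃ x y : Matrix.SpecialLinearGroup (Fin (n + 2)) F, Subgroup.closure {x, y} = ⊤ := by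
  classical
  obtain ⟨p, hpF⟩ := CharP.exists F
  haveI : Fact p.Prime := ⟨CharP.char_is_prime F p⟩
  letI : Algebra (ZMod p) F := ZMod.algebra F p
  obtain ⟨a, ha0, hgen, hord⟩ := exists_gen (F := F)
  let g : Fˣ := Units.mk0 a ha0
  have hb : Function.Surjective (Polynomial.aeval (R := ZMod p) ((g : F) ^ 2)) := gen_sq (p := p) a hord
  obtain ⟨w, c, hw⟩ := exists_cycle_mono (F := F) n
  have hwi : ∀ i j t, w * rx i j t * w⁻¹ = rx (i + 1) (j + 1) (c i / c j * t) := fun i j t =>
    rx_conj (π := Equiv.addRight 1) hw i j t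
  -- from one root group and the cycle
  have fin : ∀ H : Subgroup (Matrix.SpecialLinearGroup (Fin (n + 2)) F),
      w ∈ H → (∀ t, rx 0 1 t ∈ H) → H = ⊤ := by
    intro H hH h0
    have hall : ∀ d : ℕ, ∀ t, rx (d : Fin (n + 2)) ((d : Fin (n + 2)) + 1) t ∈ H := by
      intro d
      induction d with
      | zero => intro t; simpa using h0 t
      | succ d ih =>
        intro t
        rw [Nat.cast_succ]
        have hne : c (d : Fin (n + 2)) / c ((d : Fin (n + 2)) + 1) ≠ 0 :=
          div_ne_zero (hw _).ne_zero (hw _).ne_zero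
        have := hwi (d : Fin (n + 2)) ((d : Fin (n + 2)) + 1)
          ((c (d : Fin (n + 2)) / c ((d : Fin (n + 2)) + 1))⁻¹ * t)
        rw [← mul_assoc, mul_inv_cancel₀ hne, one_mul] at this
        rw [← this]
        exact mul_mem (mul_mem hH (ih _)) (inv_mem hH)
    exact eq_top_of_adjacent H fun i t => by simpa using hall i.val t
  by_cases hg2 : (g : F) ^ 2 = 1
  · refine ⟨rx 0 1 1, w, fin _ (Subgroup.subset_closure (Or.inr rfl)) fun t => ?_⟩
    have hu : rx (0 : Fin (n + 2)) 1 (1 : F) ∈ Subgroup.closure {rx 0 1 1, w} :=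
      Subgroup.subset_closure (Or.inl rfl)
    induction t using ind_b (p := p) hb with
    | h0 => rw [rx_zero]; exact one_mem _
    | hadd s t hs ht => rw [rx_add]; exact mul_mem hs ht
    | hpow e => rw [hg2, one_pow]; exact hu
  · let h : Matrix.SpecialLinearGroup (Fin (n + 2)) F := tor 0 1 g
    let y := rx 0 1 1 * w
    refine ⟨h, y, ?_⟩
    set H := Subgroup.closure ({h, y} : Set (Matrix.SpecialLinearGroup (Fin (n + 2)) F)) with hHdef
    have hh : h ∈ H := Subgroup.subset_closure (Or.inl rfl)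
    have hy : y ∈ H := Subgroup.subset_closure (Or.inr rfl)
    have h01 : (0 : Fin (n + 2)) ≠ 1 := by simp
    let h2 := w * h * w⁻¹
    have hh2 : ∀ x, MonoAt h2 x x (dd 1 (1 + 1) g x) := by
      have e : h2 = tor 1 (1 + 1) g := by
        show w * tor 0 1 g * w⁻¹ = _
        rw [mul_inv_eq_iff_eq_mul]
        refine eq_of_monoAt' (fun x => x + 1) (fun x => dd 0 1 g x * c x)
          (fun x => (tor_monoAt 0 1 g x).mul (hw x)) fun x => ?_
        have := (hw x).mul (tor_monoAt 1 (1 + 1) g (x + 1))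
        have e : c x * dd 1 (1 + 1) g (x + 1) = dd 0 1 g x * c x := by
          simp only [dd, add_eq_right, add_left_inj]
          ring
        rwa [e] at this
      exact fun x => e ▸ tor_monoAt 1 (1 + 1) g x
    set k : F := dd (1 : Fin (n + 2)) (1 + 1) g 0 / dd (1 : Fin (n + 2)) (1 + 1) g 1 with hk
    have hk1 : h2 * rx 0 1 1 * h2⁻¹ = rx 0 1 k := by
      rw [rx_conj (π := Equiv.refl _) hh2, mul_one]; rfl
    have hkne : k ≠ 1 := by
      intro e
      rw [hk, div_eq_one_iff_eq (hh2 1).ne_zero] at e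
      simp only [dd] at e
      by_cases h0 : (0 : Fin (n + 2)) = 1 + 1
      · rw [← h0] at e
        simp [h01, h01.symm] at e
        apply hg2
        rw [pow_two]
        field_simp at e
        linear_combination -e
      · have h11 : (1 : Fin (n + 2)) ≠ 1 + 1 := by simp
        simp [h01, h0, h11] at e
        exact hg2 (by rw [← e, one_pow])
    -- a nontrivial element of the root group
    have hcomm : Commute h h2 := eq_of_monoAt' id (fun x => dd 1 (1 + 1) g x * dd 0 1 g x)
      (fun x => (hh2 x).mul (tor_monoAt 0 1 g x))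
      (fun x => by simpa [mul_comm] using (tor_monoAt 0 1 g x).mul (hh2 x))
    have hB : y * h * y⁻¹ = rx 0 1 (1 - k) * h2 := by
      have e : rx (0 : Fin (n + 2)) 1 (1 - k) = rx 0 1 1 * (h2 * rx 0 1 1 * h2⁻¹)⁻¹ := by
        rw [hk1, sub_eq_add_neg, rx_add, rx_inv]
      rw [e]
      show rx 0 1 1 * w * h * (rx 0 1 1 * w)⁻¹ = _
      simp only [h2]
      group
    have ht0 : rx (0 : Fin (n + 2)) 1 ((((g : F) ^ 2) - 1) * (1 - k)) ∈ H := by
      have hX : h * rx 0 1 (1 - k) * h⁻¹ = rx 0 1 ((g : F) ^ 2 * (1 - k)) := by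
        have := tor_pow_rx (0 : Fin (n + 2)) 1 h01 g 1 (1 - k)
        rwa [pow_one, pow_one] at this
      have e : rx (0 : Fin (n + 2)) 1 ((((g : F) ^ 2) - 1) * (1 - k)) = ⁅h, y * h * y⁻¹⁆ := by
        rw [hB, sub_mul, one_mul, sub_eq_add_neg, rx_add, ← rx_inv, ← hX]
        calc h * rx 0 1 (1 - k) * h⁻¹ * (rx 0 1 (1 - k))⁻¹
            = h * rx 0 1 (1 - k) * h⁻¹ * ((h * h2) * (h2 * h)⁻¹) * (rx 0 1 (1 - k))⁻¹ := by
              rw [hcomm.eq]; group
          _ = _ := by
              rw [commutatorElement_def]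
              conv_rhs => rw [show h * (rx 0 1 (1 - k) * h2) * h⁻¹ = h * rx 0 1 (1 - k) * h⁻¹ * (h * h2 * h⁻¹) by group]
              group
      rw [e, commutatorElement_def]
      exact mul_mem (mul_mem (mul_mem hh (mul_mem (mul_mem hy hh) (inv_mem hy))) (inv_mem hh))
        (inv_mem (mul_mem (mul_mem hy hh) (inv_mem hy)))
    set t0 := (((g : F) ^ 2) - 1) * (1 - k)
    have ht0ne : t0 ≠ 0 := mul_ne_zero (sub_ne_zero.2 hg2) (sub_ne_zero.2 hkne.symm)
    have hroot : ∀ t, rx (0 : Fin (n + 2)) 1 (t * t0) ∈ H := by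
      intro t
      induction t using ind_b (p := p) hb with
      | h0 => rw [zero_mul, rx_zero]; exact one_mem _
      | hadd s t hs ht => rw [add_mul, rx_add]; exact mul_mem hs ht
      | hpow e =>
        rw [← tor_pow_rx 0 1 h01 g e t0]
        exact mul_mem (mul_mem (pow_mem hh e) ht0) (inv_mem (pow_mem hh e))
    have hall : ∀ t, rx (0 : Fin (n + 2)) 1 t ∈ H := fun t => by
      have := hroot (t * t0⁻¹)
      rwa [mul_assoc, inv_mul_cancel₀ ht0ne, mul_one] at this
    refine fin H ?_ hall
    have := mul_mem (inv_mem (hall 1)) hy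
    rwa [inv_mul_cancel_left] at this

/-- Passing to two generators. -/
theorem pres_two_gen {κ : Type*} [Fintype κ] {S : Type*} [Group S] (R : Finset (FreeGroup κ))
    (e : PresentedGroup (↑R : Set (FreeGroup κ)) ≃* S) (x : Fin 2 → S)
    (hx : Subgroup.closure (Set.range x) = ⊤) :
    ∃ rels : Finset (FreeGroup (Fin 2)), rels.card ≤ R.card + 2 ∧
      Nonempty (PresentedGroup (↑rels : Set (FreeGroup (Fin 2))) ≃* S) := by
  classical
  have hsurj : Function.Surjective (FreeGroup.lift x) := by
    rw [← MonoidHom.range_eq_top, FreeGroup.range_lift_eq_closure, hx]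
  let wd' : κ → FreeGroup (Fin 2) := fun i => Function.surjInv hsurj (e (PresentedGroup.of i))
  have hvs := fun j => PresentedGroup.mk_surjective (↑R : Set (FreeGroup κ)) (e.symm (x j))
  choose v hv using hvs
  let σ : FreeGroup κ →* FreeGroup (Fin 2) := FreeGroup.lift wd'
  let rels : Finset (FreeGroup (Fin 2)) :=
    R.image σ ∪ Finset.univ.image (fun j => σ (v j) * (FreeGroup.of j)⁻¹)
  refine ⟨rels, (Finset.card_union_le _ _).trans (Nat.add_le_add Finset.card_image_le
    (Finset.card_image_le.trans (by simp))), ?_⟩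
  have hσ : ∀ r, FreeGroup.lift x (σ r) = e (PresentedGroup.mk _ r) := fun r =>
    DFunLike.congr_fun (FreeGroup.ext_hom ((FreeGroup.lift x).comp σ)
      (e.toMonoidHom.comp (PresentedGroup.mk _)) fun i => by
        show FreeGroup.lift x (FreeGroup.lift wd' (FreeGroup.of i)) = _
        rw [FreeGroup.lift_apply_of]
        exact Function.surjInv_eq hsurj _) r
  have hA : ∀ r ∈ (↑rels : Set (FreeGroup (Fin 2))), FreeGroup.lift x r = 1 := by
    intro r hr
    rcases Finset.mem_union.1 (Finset.mem_coe.1 hr) with h | h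
    · obtain ⟨s, hs, rfl⟩ := Finset.mem_image.1 h
      rw [hσ, PresentedGroup.one_of_mem (Finset.mem_coe.2 hs), map_one]
    · obtain ⟨j, -, rfl⟩ := Finset.mem_image.1 h
      rw [map_mul, map_inv, hσ, hv, e.apply_symm_apply, FreeGroup.lift_apply_of, mul_inv_cancel]
  let g : κ → PresentedGroup (↑rels : Set (FreeGroup (Fin 2))) :=
    fun i => PresentedGroup.mk _ (wd' i)
  have hg : ∀ r, FreeGroup.lift g r = PresentedGroup.mk _ (σ r) := fun r =>
    DFunLike.congr_fun (FreeGroup.ext_hom (FreeGroup.lift g)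
      ((PresentedGroup.mk _).comp σ) fun i => by simp [g, σ]) r
  have hB : ∀ r ∈ (↑R : Set (FreeGroup κ)), FreeGroup.lift g r = 1 := fun r hr => by
    rw [hg]
    exact PresentedGroup.one_of_mem (Finset.mem_coe.2 (Finset.mem_union_left _
      (Finset.mem_image_of_mem _ (Finset.mem_coe.1 hr))))
  let Φ := PresentedGroup.toGroup hA
  let Ψ := (PresentedGroup.toGroup hB).comp e.symm.toMonoidHom
  refine ⟨MonoidHom.toMulEquiv Φ Ψ (PresentedGroup.ext fun j => ?_) ?_⟩
  · show Ψ (Φ (PresentedGroup.of j)) = PresentedGroup.of j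
    rw [PresentedGroup.toGroup.of]
    show PresentedGroup.toGroup hB (e.symm (x j)) = _
    rw [← hv]
    show FreeGroup.lift g (v j) = _
    rw [hg, ← mul_inv_eq_one]
    have := PresentedGroup.one_of_mem (rels := (↑rels : Set (FreeGroup (Fin 2))))
      (x := σ (v j) * (FreeGroup.of j)⁻¹) (Finset.mem_coe.2 (Finset.mem_union_right _
        (Finset.mem_image_of_mem _ (Finset.mem_univ j))))
    rwa [map_mul, map_inv] at this
  · refine MonoidHom.ext fun s => ?_
    obtain ⟨r, hr⟩ := PresentedGroup.mk_surjective _ (e.symm s)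
    show Φ (PresentedGroup.toGroup hB (e.symm s)) = s
    rw [← hr]
    show Φ (FreeGroup.lift g r) = s
    rw [hg]
    show FreeGroup.lift x (σ r) = s
    rw [hσ, hr, e.apply_symm_apply]

end Cfsg.Agent.H81.SLnPres
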